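import Cfsg.Agent.Lib.MinE6.Sys

/-! Arithmetic. -/

set_option autoImplicit false
set_option linter.unusedSectionVars false
set_option linter.unusedVariables false

namespace Cfsg.Agent.Lib.MinE6

namespace ArAux

lemma k0_cast {q : ℕ} (hq : 1 ≤ q) :
    (k0 q : ℤ) = (q : ℤ) ^ 11 + (q : ℤ) ^ 8 + (q : ℤ) ^ 7 - (q : ℤ) ^ 3 - (q : ℤ) ^ 2 - 1 := by
  obtain ⟨s, rfl⟩ : ∃ s, q = s + 1 := ⟨q - 1, by omega⟩
  simp only [k0, gaussN, Nat.add_sub_cancel]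
  push_cast
  ring

lemma NN_cast {q : ℕ} (hq : 1 ≤ q) :
    (NN q : ℤ) = (q : ℤ) ^ 36 * (((q : ℤ) ^ 2 - 1) * ((q : ℤ) ^ 5 - 1) * ((q : ℤ) ^ 6 - 1) * ((q : ℤ) ^ 8 - 1)
      * ((q : ℤ) ^ 9 - 1) * ((q : ℤ) ^ 12 - 1)) := by
  have h (n : ℕ) : ((q ^ n - 1 : ℕ) : ℤ) = (q : ℤ) ^ n - 1 := by
    rw [Nat.cast_sub (Nat.one_le_pow _ _ hq)]
    push_cast
    ring
  simp only [NN]
  rw [Nat.cast_mul, Nat.cast_mul, Nat.cast_mul, Nat.cast_mul, Nat.cast_mul, Nat.cast_mul, h, h, h, h, h, h]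
  push_cast
  ring

/-- Bezout certificates. -/
def Bz (Q F r : ℤ) : Prop := ∃ A B : ℤ, A * Q + B * F = r

lemma step {Q X F r : ℤ} (h : Bz Q F r) (hd : Q ∣ X * F) : Q ∣ X * r := by
  obtain ⟨A, B, h⟩ := h
  have e : X * r = X * A * Q + B * (X * F) := by rw [← h]; ring
  rw [e]
  exact dvd_add (Dvd.intro_left _ rfl) (Dvd.dvd.mul_left hd _)

lemma step_pow {Q X F r : ℤ} (h : Bz Q F r) (n : ℕ) (hd : Q ∣ X * F ^ n) : Q ∣ X * r ^ n := by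
  induction n generalizing X with
  | zero => simpa using hd
  | succ n ih =>
    have h1 : Q ∣ (X * r) * F ^ n := by
      have h2 : Q ∣ (X * F ^ n) * F := by
        have e : X * F ^ n * F = X * F ^ (n + 1) := by ring
        rw [e]; exact hd
      have h3 := step h h2
      have e : X * r * F ^ n = X * F ^ n * r := by ring
      rw [e]; exact h3
    have h4 := ih h1
    have e : X * r ^ (n + 1) = X * r * r ^ n := by ring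
    rw [e]; exact h4

theorem chain {Q q a b c d e f rq ra rb rc rd re rf : ℤ} (hq : Bz Q q rq) (ha : Bz Q a ra) (hb : Bz Q b rb)
    (hc : Bz Q c rc) (hd : Bz Q d rd) (he : Bz Q e re) (hf : Bz Q f rf)
    (h : Q ∣ q ^ 36 * (a * b * c * d * e * f)) : Q ∣ rq ^ 36 * ra * rb * rc * rd * re * rf := by
  have h1 : Q ∣ (q ^ 36 * (a * b * c * d * e)) * f := by
    have x : (q ^ 36 * (a * b * c * d * e)) * f = q ^ 36 * (a * b * c * d * e * f) := by ring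
    rw [x]; exact h
  have h2 := step hf h1
  have h3 : Q ∣ (q ^ 36 * (a * b * c * d) * rf) * e := by
    have x : (q ^ 36 * (a * b * c * d) * rf) * e = q ^ 36 * (a * b * c * d * e) * rf := by ring
    rw [x]; exact h2
  have h4 := step he h3
  have h5 : Q ∣ (q ^ 36 * (a * b * c) * rf * re) * d := by
    have x : (q ^ 36 * (a * b * c) * rf * re) * d = q ^ 36 * (a * b * c * d) * rf * re := by ring
    rw [x]; exact h4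
  have h6 := step hd h5
  have h7 : Q ∣ (q ^ 36 * (a * b) * rf * re * rd) * c := by
    have x : (q ^ 36 * (a * b) * rf * re * rd) * c = q ^ 36 * (a * b * c) * rf * re * rd := by ring
    rw [x]; exact h6
  have h8 := step hc h7
  have h9 : Q ∣ (q ^ 36 * a * rf * re * rd * rc) * b := by
    have x : (q ^ 36 * a * rf * re * rd * rc) * b = q ^ 36 * (a * b) * rf * re * rd * rc := by ring
    rw [x]; exact h8
  have h10 := step hb h9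
  have h11 : Q ∣ (q ^ 36 * rf * re * rd * rc * rb) * a := by
    have x : (q ^ 36 * rf * re * rd * rc * rb) * a = q ^ 36 * a * rf * re * rd * rc * rb := by ring
    rw [x]; exact h10
  have h12 := step ha h11
  have h13 : Q ∣ (rf * re * rd * rc * rb * ra) * q ^ 36 := by
    have x : (rf * re * rd * rc * rb * ra) * q ^ 36 = q ^ 36 * rf * re * rd * rc * rb * ra := by ring
    rw [x]; exact h12
  have h14 := step_pow hq 36 h13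
  have x : rq ^ 36 * ra * rb * rc * rd * re * rf = rf * re * rd * rc * rb * ra * rq ^ 36 := by ring
  rw [x]; exact h14

/-- Small `q`: finite check. -/
def chkF (g : ℕ → ℕ) (B : ℕ) : Bool := (List.range B).all fun q => q < 2 || (NN q % g q != 0)

lemma chk_ok {g : ℕ → ℕ} {B : ℕ} (h : chkF g B = true) {q : ℕ} (hq : 2 ≤ q) (hB : q < B) : ¬ g q ∣ NN q := by
  intro hd
  have h1 := List.all_eq_true.mp h q (List.mem_range.mpr hB)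
  have h2 : q < 2 ∨ NN q % g q ≠ 0 := by simpa using h1
  rcases h2 with h2 | h2
  · omega
  · exact h2 (Nat.mod_eq_zero_of_dvd hd)

section zero

/-- The cofactor. -/
def Qz_zero (z : ℤ) : ℤ := (1) + (1)*z + (2)*z^2 + (3)*z^3 + (3)*z^4 + (3)*z^5 + (3)*z^6 + (2)*z^7 + (1)*z^8 + (1)*z^9 + (1)*z^10

lemma bz_zero_q (z : ℤ) : Bz (Qz_zero z) z 1 :=
  ⟨(1), (-1) + (-2)*z + (-3)*z^2 + (-3)*z^3 + (-3)*z^4 + (-3)*z^5 + (-2)*z^6 + (-1)*z^7 + (-1)*z^8 + (-1)*z^9, by simp only [Qz_zero]; ring⟩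

lemma bz_zero_a (z : ℤ) : Bz (Qz_zero z) (z^2-1) 21 :=
  ⟨(11) + (-10)*z, (-10) + (1)*z + (2)*z^2 + (14)*z^3 + (5)*z^4 + (17)*z^5 + (8)*z^6 + (9)*z^7 + (-1)*z^8 + (10)*z^9, by simp only [Qz_zero]; ring⟩

lemma bz_zero_b (z : ℤ) : Bz (Qz_zero z) (z^5-1) 21 :=
  ⟨(17) + (-4)*z + (-4)*z^2 + (-4)*z^3 + (-4)*z^4, (-4) + (13)*z + (26)*z^2 + (35)*z^3 + (23)*z^4 + (11)*z^5 + (20)*z^6 + (12)*z^7 + (8)*z^8 + (4)*z^9, by simp only [Qz_zero]; ring⟩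

lemma bz_zero_c (z : ℤ) : Bz (Qz_zero z) (z^6-1) 63 :=
  ⟨(11) + (-10)*z + (32)*z^2 + (11)*z^3 + (-10)*z^4 + (-31)*z^5, (-52) + (1)*z + (44)*z^2 + (56)*z^3 + (68)*z^4 + (80)*z^5 + (29)*z^6 + (30)*z^7 + (41)*z^8 + (31)*z^9, by simp only [Qz_zero]; ring⟩

lemma bz_zero_d (z : ℤ) : Bz (Qz_zero z) (z^8-1) 21 :=
  ⟨(8) + (-13)*z + (8)*z^2 + (8)*z^3 + (-13)*z^4 + (8)*z^5 + (8)*z^6 + (-13)*z^7, (-13) + (-5)*z + (11)*z^2 + (14)*z^3 + (-4)*z^4 + (20)*z^5 + (23)*z^6 + (-3)*z^7 + (5)*z^8 + (13)*z^9, by simp only [Qz_zero]; ring⟩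

lemma bz_zero_e (z : ℤ) : Bz (Qz_zero z) (z^9-1) 189 :=
  ⟨(85) + (-146)*z + (64)*z^2 + (-41)*z^3 + (106)*z^4 + (-62)*z^5 + (22)*z^6 + (-20)*z^7 + (1)*z^8, (-104) + (-61)*z + (88)*z^2 + (-14)*z^3 + (10)*z^4 + (-29)*z^5 + (58)*z^6 + (-3)*z^7 + (19)*z^8 + (-1)*z^9, by simp only [Qz_zero]; ring⟩

lemma bz_zero_f (z : ℤ) : Bz (Qz_zero z) (z^12-1) 4599 :=
  ⟨(244) + (-1184)*z + (2428)*z^2 + (55)*z^3 + (-1247)*z^4 + (-659)*z^5 + (559)*z^6 + (454)*z^7 + (-92)*z^8 + (748)*z^9 + (517)*z^10 + (-1604)*z^11, (-4355) + (-940)*z + (1732)*z^2 + (847)*z^3 + (844)*z^4 + (2668)*z^5 + (2035)*z^6 + (339)*z^7 + (1087)*z^8 + (1604)*z^9, by simp only [Qz_zero]; ring⟩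

lemma dvd_zero (z : ℤ) (h : Qz_zero z ∣ z ^ 36 * ((z ^ 2 - 1) * (z ^ 5 - 1) * (z ^ 6 - 1) * (z ^ 8 - 1) * (z ^ 9 - 1) * (z ^ 12 - 1))) :
    Qz_zero z ∣ 507135073473 := by
  have h1 := chain (bz_zero_q z) (bz_zero_a z) (bz_zero_b z) (bz_zero_c z) (bz_zero_d z) (bz_zero_e z) (bz_zero_f z) h
  norm_num at h1
  exact h1

lemma pow_le_zero (s : ℕ) : ((s : ℤ) + 2) ^ 10 ≤ Qz_zero ((s : ℤ) + 2) := by
  have h : 0 ≤ (1395) + (5181)*(s : ℤ) + (8796)*(s : ℤ)^2 + (8915)*(s : ℤ)^3 + (5925)*(s : ℤ)^4 + (2671)*(s : ℤ)^5 + (815)*(s : ℤ)^6 + (162)*(s : ℤ)^7 + (19)*(s : ℤ)^8 + (1)*(s : ℤ)^9 := by positivity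
  have e : Qz_zero ((s : ℤ) + 2) - ((s : ℤ) + 2) ^ 10 = (1395) + (5181)*(s : ℤ) + (8796)*(s : ℤ)^2 + (8915)*(s : ℤ)^3 + (5925)*(s : ℤ)^4 + (2671)*(s : ℤ)^5 + (815)*(s : ℤ)^6 + (162)*(s : ℤ)^7 + (19)*(s : ℤ)^8 + (1)*(s : ℤ)^9 := by
    simp only [Qz_zero]; ring
  linarith

theorem no_zero {q : ℕ} (hq : 2 ≤ q) : ¬ (k0 q + 0) ∣ NN q := by
  intro hd
  by_cases hB : q < 15
  · exact chk_ok (g := fun q => k0 q + 0) (B := 15) (by decide +kernel) hq hB hd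
  · have hd' : ((k0 q + 0 : ℕ) : ℤ) ∣ (NN q : ℤ) := Int.natCast_dvd_natCast.mpr hd
    have e1 : ((k0 q + 0 : ℕ) : ℤ) = ((-1) + (1)*(q : ℤ)) * Qz_zero (q : ℤ) := by
      push_cast
      rw [k0_cast (by omega)]
      simp only [Qz_zero]
      ring
    rw [e1, NN_cast (by omega)] at hd'
    have hQ := dvd_zero (q : ℤ) (Dvd.dvd.trans (Dvd.intro_left _ rfl) hd')
    have hle := Int.le_of_dvd (by norm_num) hQ
    obtain ⟨s, rfl⟩ : ∃ s, q = s + 2 := ⟨q - 2, by omega⟩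
    have hp := pow_le_zero s
    have e2 : ((s + 2 : ℕ) : ℤ) = (s : ℤ) + 2 := by push_cast; ring
    rw [e2] at hle
    have hB' : (15 : ℤ) ≤ (s : ℤ) + 2 := by
      have : 15 ≤ s + 2 := not_lt.mp hB
      exact_mod_cast this
    have h3 : (15 : ℤ) ^ 10 ≤ ((s : ℤ) + 2) ^ 10 := pow_le_pow_left₀ (by norm_num) hB' 10
    have h4 : (15 : ℤ) ^ 10 ≤ 507135073473 := by linarith
    norm_num at h4

end zero

section one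

/-- The cofactor. -/
def Qz_one (z : ℤ) : ℤ := (-1) + (-1)*z + (1)*z^5 + (1)*z^6 + (1)*z^9

lemma bz_one_q (z : ℤ) : Bz (Qz_one z) z 1 :=
  ⟨(-1), (-1) + (1)*z^4 + (1)*z^5 + (1)*z^8, by simp only [Qz_one]; ring⟩

lemma bz_one_a (z : ℤ) : Bz (Qz_one z) (z^2-1) 1 :=
  ⟨(1)*z, (-1) + (-1)*z + (-2)*z^2 + (-1)*z^3 + (-2)*z^4 + (-1)*z^5 + (-1)*z^6 + (-1)*z^8, by simp only [Qz_one]; ring⟩

lemma bz_one_b (z : ℤ) : Bz (Qz_one z) (z^5-1) 1 :=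
  ⟨(1)*z, (-1) + (-1)*z + (-1)*z^2 + (-1)*z^5, by simp only [Qz_one]; ring⟩

lemma bz_one_c (z : ℤ) : Bz (Qz_one z) (z^6-1) 2 :=
  ⟨(1)*z + (1)*z^3, (-2) + (-1)*z + (-1)*z^2 + (-1)*z^3 + (-1)*z^4 + (-1)*z^6, by simp only [Qz_one]; ring⟩

lemma bz_one_d (z : ℤ) : Bz (Qz_one z) (z^8-1) 5 :=
  ⟨(-3) + (1)*z + (3)*z^2 + (-1)*z^3 + (2)*z^4 + (1)*z^5 + (-2)*z^6 + (4)*z^7, (-2) + (2)*z + (-4)*z^2 + (-2)*z^3 + (-1)*z^4 + (-6)*z^5 + (-1)*z^6 + (2)*z^7 + (-4)*z^8, by simp only [Qz_one]; ring⟩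

lemma bz_one_e (z : ℤ) : Bz (Qz_one z) (z^9-1) 2 :=
  ⟨(1) + (-1)*z + (1)*z^3 + (1)*z^4 + (-1)*z^6 + (1)*z^7, (-3) + (1)*z^2 + (-1)*z^3 + (-2)*z^4 + (1)*z^6 + (-1)*z^7, by simp only [Qz_one]; ring⟩

lemma bz_one_f (z : ℤ) : Bz (Qz_one z) (z^12-1) 20 :=
  ⟨(-3) + (6)*z + (-2)*z^2 + (9)*z^3 + (-3)*z^4 + (1)*z^5 + (3)*z^6 + (4)*z^7 + (2)*z^8 + (1)*z^9 + (3)*z^10 + (-1)*z^11, (-17) + (-3)*z + (-4)*z^2 + (-7)*z^3 + (-6)*z^4 + (-1)*z^5 + (-1)*z^6 + (-3)*z^7 + (1)*z^8, by simp only [Qz_one]; ring⟩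

lemma dvd_one (z : ℤ) (h : Qz_one z ∣ z ^ 36 * ((z ^ 2 - 1) * (z ^ 5 - 1) * (z ^ 6 - 1) * (z ^ 8 - 1) * (z ^ 9 - 1) * (z ^ 12 - 1))) :
    Qz_one z ∣ 400 := by
  have h1 := chain (bz_one_q z) (bz_one_a z) (bz_one_b z) (bz_one_c z) (bz_one_d z) (bz_one_e z) (bz_one_f z) h
  norm_num at h1
  exact h1

lemma pow_le_one (s : ℕ) : ((s : ℤ) + 2) ^ 9 ≤ Qz_one ((s : ℤ) + 2) := by
  have h : 0 ≤ (93) + (271)*(s : ℤ) + (320)*(s : ℤ)^2 + (200)*(s : ℤ)^3 + (70)*(s : ℤ)^4 + (13)*(s : ℤ)^5 + (1)*(s : ℤ)^6 := by positivity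
  have e : Qz_one ((s : ℤ) + 2) - ((s : ℤ) + 2) ^ 9 = (93) + (271)*(s : ℤ) + (320)*(s : ℤ)^2 + (200)*(s : ℤ)^3 + (70)*(s : ℤ)^4 + (13)*(s : ℤ)^5 + (1)*(s : ℤ)^6 := by
    simp only [Qz_one]; ring
  linarith

theorem no_one {q : ℕ} (hq : 2 ≤ q) : ¬ (k0 q + 1) ∣ NN q := by
  intro hd
  by_cases hB : q < 2
  · exact chk_ok (g := fun q => k0 q + 1) (B := 2) (by decide +kernel) hq hB hd
  · have hd' : ((k0 q + 1 : ℕ) : ℤ) ∣ (NN q : ℤ) := Int.natCast_dvd_natCast.mpr hd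
    have e1 : ((k0 q + 1 : ℕ) : ℤ) = ((1)*(q : ℤ)^2) * Qz_one (q : ℤ) := by
      push_cast
      rw [k0_cast (by omega)]
      simp only [Qz_one]
      ring
    rw [e1, NN_cast (by omega)] at hd'
    have hQ := dvd_one (q : ℤ) (Dvd.dvd.trans (Dvd.intro_left _ rfl) hd')
    have hle := Int.le_of_dvd (by norm_num) hQ
    obtain ⟨s, rfl⟩ : ∃ s, q = s + 2 := ⟨q - 2, by omega⟩
    have hp := pow_le_one s
    have e2 : ((s + 2 : ℕ) : ℤ) = (s : ℤ) + 2 := by push_cast; ring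
    rw [e2] at hle
    have hB' : (2 : ℤ) ≤ (s : ℤ) + 2 := by
      have : 2 ≤ s + 2 := not_lt.mp hB
      exact_mod_cast this
    have h3 : (2 : ℤ) ^ 9 ≤ ((s : ℤ) + 2) ^ 9 := pow_le_pow_left₀ (by norm_num) hB' 9
    have h4 : (2 : ℤ) ^ 9 ≤ 400 := by linarith
    norm_num at h4

end one

section two

/-- The cofactor. -/
def Qz_two (z : ℤ) : ℤ := (1) + (-1)*z + (-1)*z^3 + (1)*z^4 + (-1)*z^5 + (1)*z^6 + (1)*z^8 + (-1)*z^9 + (1)*z^10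

lemma bz_two_q (z : ℤ) : Bz (Qz_two z) z 1 :=
  ⟨(1), (1) + (1)*z^2 + (-1)*z^3 + (1)*z^4 + (-1)*z^5 + (-1)*z^7 + (1)*z^8 + (-1)*z^9, by simp only [Qz_two]; ring⟩

lemma bz_two_a (z : ℤ) : Bz (Qz_two z) (z^2-1) 9 :=
  ⟨(5) + (4)*z, (-4) + (-1)*z + (-8)*z^2 + (-6)*z^3 + (-7)*z^4 + (-7)*z^5 + (-6)*z^6 + (-3)*z^7 + (-1)*z^8 + (-4)*z^9, by simp only [Qz_two]; ring⟩

lemma bz_two_b (z : ℤ) : Bz (Qz_two z) (z^5-1) 1 :=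
  ⟨(1), (-1)*z + (-1)*z^3 + (1)*z^4 + (-1)*z^5, by simp only [Qz_two]; ring⟩

lemma bz_two_c (z : ℤ) : Bz (Qz_two z) (z^6-1) 27 :=
  ⟨(5) + (4)*z + (14)*z^2 + (-5)*z^3 + (-4)*z^4 + (13)*z^5, (-22) + (-1)*z + (10)*z^2 + (-24)*z^3 + (2)*z^4 + (2)*z^5 + (-15)*z^6 + (-12)*z^7 + (17)*z^8 + (-13)*z^9, by simp only [Qz_two]; ring⟩

lemma bz_two_d (z : ℤ) : Bz (Qz_two z) (z^8-1) 45 :=
  ⟨(16) + (17)*z + (4)*z^2 + (8)*z^3 + (1)*z^4 + (2)*z^5 + (4)*z^6 + (-7)*z^7, (-29) + (1)*z + (-13)*z^2 + (-12)*z^3 + (-8)*z^4 + (-2)*z^5 + (-3)*z^6 + (9)*z^7 + (-11)*z^8 + (7)*z^9, by simp only [Qz_two]; ring⟩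

lemma bz_two_e (z : ℤ) : Bz (Qz_two z) (z^9-1) 19 :=
  ⟨(3) + (10)*z + (8)*z^2 + (-5)*z^3 + (-4)*z^4 + (12)*z^5 + (2)*z^6 + (-6)*z^7 + (-1)*z^8, (-16) + (7)*z + (-2)*z^2 + (-16)*z^3 + (-6)*z^4 + (15)*z^5 + (-4)*z^6 + (-7)*z^7 + (5)*z^8 + (1)*z^9, by simp only [Qz_two]; ring⟩

lemma bz_two_f (z : ℤ) : Bz (Qz_two z) (z^12-1) 135 :=
  ⟨(-28) + (64)*z + (8)*z^2 + (1)*z^3 + (17)*z^4 + (19)*z^5 + (53)*z^6 + (-44)*z^7 + (62)*z^8 + (-26)*z^9 + (-37)*z^10 + (46)*z^11, (-163) + (92)*z + (-56)*z^2 + (21)*z^3 + (-76)*z^4 + (86)*z^5 + (-51)*z^6 + (-57)*z^7 + (83)*z^8 + (-46)*z^9, by simp only [Qz_two]; ring⟩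

lemma dvd_two (z : ℤ) (h : Qz_two z ∣ z ^ 36 * ((z ^ 2 - 1) * (z ^ 5 - 1) * (z ^ 6 - 1) * (z ^ 8 - 1) * (z ^ 9 - 1) * (z ^ 12 - 1))) :
    Qz_two z ∣ 28048275 := by
  have h1 := chain (bz_two_q z) (bz_two_a z) (bz_two_b z) (bz_two_c z) (bz_two_d z) (bz_two_e z) (bz_two_f z) h
  norm_num at h1
  exact h1

lemma pow_le_two (s : ℕ) : ((s : ℤ) + 2) ^ 9 ≤ Qz_two ((s : ℤ) + 2) := by
  have h : 0 ≤ (295) + (1667)*(s : ℤ) + (4274)*(s : ℤ)^2 + (6527)*(s : ℤ)^3 + (6547)*(s : ℤ)^4 + (4491)*(s : ℤ)^5 + (2129)*(s : ℤ)^6 + (688)*(s : ℤ)^7 + (145)*(s : ℤ)^8 + (18)*(s : ℤ)^9 + (1)*(s : ℤ)^10 := by positivity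
  have e : Qz_two ((s : ℤ) + 2) - ((s : ℤ) + 2) ^ 9 = (295) + (1667)*(s : ℤ) + (4274)*(s : ℤ)^2 + (6527)*(s : ℤ)^3 + (6547)*(s : ℤ)^4 + (4491)*(s : ℤ)^5 + (2129)*(s : ℤ)^6 + (688)*(s : ℤ)^7 + (145)*(s : ℤ)^8 + (18)*(s : ℤ)^9 + (1)*(s : ℤ)^10 := by
    simp only [Qz_two]; ring
  linarith

theorem no_two {q : ℕ} (hq : 2 ≤ q) : ¬ (k0 q + 2) ∣ NN q := by
  intro hd
  by_cases hB : q < 7
  · exact chk_ok (g := fun q => k0 q + 2) (B := 7) (by decide +kernel) hq hB hd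
  · have hd' : ((k0 q + 2 : ℕ) : ℤ) ∣ (NN q : ℤ) := Int.natCast_dvd_natCast.mpr hd
    have e1 : ((k0 q + 2 : ℕ) : ℤ) = ((1) + (1)*(q : ℤ)) * Qz_two (q : ℤ) := by
      push_cast
      rw [k0_cast (by omega)]
      simp only [Qz_two]
      ring
    rw [e1, NN_cast (by omega)] at hd'
    have hQ := dvd_two (q : ℤ) (Dvd.dvd.trans (Dvd.intro_left _ rfl) hd')
    have hle := Int.le_of_dvd (by norm_num) hQ
    obtain ⟨s, rfl⟩ : ∃ s, q = s + 2 := ⟨q - 2, by omega⟩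
    have hp := pow_le_two s
    have e2 : ((s + 2 : ℕ) : ℤ) = (s : ℤ) + 2 := by push_cast; ring
    rw [e2] at hle
    have hB' : (7 : ℤ) ≤ (s : ℤ) + 2 := by
      have : 7 ≤ s + 2 := not_lt.mp hB
      exact_mod_cast this
    have h3 : (7 : ℤ) ^ 9 ≤ ((s : ℤ) + 2) ^ 9 := pow_le_pow_left₀ (by norm_num) hB' 9
    have h4 : (7 : ℤ) ^ 9 ≤ 28048275 := by linarith
    norm_num at h4

end two

section three

/-- The cofactor. -/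
def Qz_three (z : ℤ) : ℤ := (2) + (-2)*z + (-1)*z^2 + (2)*z^3 + (-1)*z^4 + (-1)*z^5 + (2)*z^6 + (-1)*z^8 + (1)*z^9

lemma bz_three_q (z : ℤ) : Bz (Qz_three z) z 2 :=
  ⟨(1), (2) + (1)*z + (-2)*z^2 + (1)*z^3 + (1)*z^4 + (-2)*z^5 + (1)*z^7 + (-1)*z^8, by simp only [Qz_three]; ring⟩

lemma bz_three_a (z : ℤ) : Bz (Qz_three z) (z^2-1) 1 :=
  ⟨(1), (1) + (-2)*z + (-1)*z^4 + (-1)*z^5 + (1)*z^6 + (-1)*z^7, by simp only [Qz_three]; ring⟩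

lemma bz_three_b (z : ℤ) : Bz (Qz_three z) (z^5-1) 11 :=
  ⟨(5) + (3)*z + (4)*z^2 + (-2)*z^3 + (1)*z^4, (-1) + (-4)*z + (-3)*z^2 + (-5)*z^3 + (3)*z^4 + (-1)*z^5 + (-6)*z^6 + (3)*z^7 + (-1)*z^8, by simp only [Qz_three]; ring⟩

lemma bz_three_c (z : ℤ) : Bz (Qz_three z) (z^6-1) 20 :=
  ⟨(9) + (3)*z + (8)*z^2 + (-1)*z^3 + (3)*z^4 + (-2)*z^5, (-2) + (-12)*z + (1)*z^2 + (-3)*z^3 + (-3)*z^4 + (-5)*z^5 + (4)*z^6 + (-5)*z^7 + (2)*z^8, by simp only [Qz_three]; ring⟩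

lemma bz_three_d (z : ℤ) : Bz (Qz_three z) (z^8-1) 1513 :=
  ⟨(475) + (225)*z + (664)*z^2 + (-4)*z^3 + (237)*z^4 + (-47)*z^5 + (137)*z^6 + (-174)*z^7, (-563) + (-500)*z + (403)*z^2 + (-611)*z^3 + (-207)*z^4 + (64)*z^5 + (184)*z^6 + (-311)*z^7 + (174)*z^8, by simp only [Qz_three]; ring⟩

lemma bz_three_e (z : ℤ) : Bz (Qz_three z) (z^9-1) 370 :=
  ⟨(86) + (107)*z + (137)*z^2 + (16)*z^3 + (7)*z^4 + (47)*z^5 + (46)*z^6 + (-3)*z^7 + (-73)*z^8, (-198) + (42)*z + (-26)*z^2 + (-177)*z^3 + (-27)*z^4 + (145)*z^5 + (-49)*z^6 + (-70)*z^7 + (73)*z^8, by simp only [Qz_three]; ring⟩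

lemma bz_three_f (z : ℤ) : Bz (Qz_three z) (z^12-1) 680 :=
  ⟨(203) + (21)*z + (256)*z^2 + (13)*z^3 + (101)*z^4 + (106)*z^5 + (103)*z^6 + (81)*z^7 + (16)*z^8 + (-47)*z^9 + (1)*z^10 + (-174)*z^11, (-274) + (-364)*z + (267)*z^2 + (-101)*z^3 + (-241)*z^4 + (285)*z^5 + (48)*z^6 + (-175)*z^7 + (174)*z^8, by simp only [Qz_three]; ring⟩

lemma dvd_three (z : ℤ) (h : Qz_three z ∣ z ^ 36 * ((z ^ 2 - 1) * (z ^ 5 - 1) * (z ^ 6 - 1) * (z ^ 8 - 1) * (z ^ 9 - 1) * (z ^ 12 - 1))) :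
    Qz_three z ∣ 5755089600628391936000 := by
  have h1 := chain (bz_three_q z) (bz_three_a z) (bz_three_b z) (bz_three_c z) (bz_three_d z) (bz_three_e z) (bz_three_f z) h
  norm_num at h1
  exact h1

lemma pow_le_three (s : ℕ) : ((s : ℤ) + 2) ^ 8 ≤ Qz_three ((s : ℤ) + 2) := by
  have h : 0 ≤ (90) + (546)*(s : ℤ) + (1411)*(s : ℤ)^2 + (2066)*(s : ℤ)^3 + (1901)*(s : ℤ)^4 + (1143)*(s : ℤ)^5 + (450)*(s : ℤ)^6 + (112)*(s : ℤ)^7 + (16)*(s : ℤ)^8 + (1)*(s : ℤ)^9 := by positivity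
  have e : Qz_three ((s : ℤ) + 2) - ((s : ℤ) + 2) ^ 8 = (90) + (546)*(s : ℤ) + (1411)*(s : ℤ)^2 + (2066)*(s : ℤ)^3 + (1901)*(s : ℤ)^4 + (1143)*(s : ℤ)^5 + (450)*(s : ℤ)^6 + (112)*(s : ℤ)^7 + (16)*(s : ℤ)^8 + (1)*(s : ℤ)^9 := by
    simp only [Qz_three]; ring
  linarith

theorem no_three {q : ℕ} (hq : 2 ≤ q) : ¬ (k0 q + 3) ∣ NN q := by
  intro hd
  by_cases hB : q < 525
  · exact chk_ok (g := fun q => k0 q + 3) (B := 525) (by decide +kernel) hq hB hd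
  · have hd' : ((k0 q + 3 : ℕ) : ℤ) ∣ (NN q : ℤ) := Int.natCast_dvd_natCast.mpr hd
    have e1 : ((k0 q + 3 : ℕ) : ℤ) = ((1) + (1)*(q : ℤ) + (1)*(q : ℤ)^2) * Qz_three (q : ℤ) := by
      push_cast
      rw [k0_cast (by omega)]
      simp only [Qz_three]
      ring
    rw [e1, NN_cast (by omega)] at hd'
    have hQ := dvd_three (q : ℤ) (Dvd.dvd.trans (Dvd.intro_left _ rfl) hd')
    have hle := Int.le_of_dvd (by norm_num) hQ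
    obtain ⟨s, rfl⟩ : ∃ s, q = s + 2 := ⟨q - 2, by omega⟩
    have hp := pow_le_three s
    have e2 : ((s + 2 : ℕ) : ℤ) = (s : ℤ) + 2 := by push_cast; ring
    rw [e2] at hle
    have hB' : (525 : ℤ) ≤ (s : ℤ) + 2 := by
      have : 525 ≤ s + 2 := not_lt.mp hB
      exact_mod_cast this
    have h3 : (525 : ℤ) ^ 8 ≤ ((s : ℤ) + 2) ^ 8 := pow_le_pow_left₀ (by norm_num) hB' 8
    have h4 : (525 : ℤ) ^ 8 ≤ 5755089600628391936000 := by linarith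
    norm_num at h4

end three

section four

/-- The cofactor. -/
def Qz_four (z : ℤ) : ℤ := (3) + (-1)*z^2 + (-1)*z^3 + (1)*z^7 + (1)*z^8 + (1)*z^11

lemma bz_four_q (z : ℤ) : Bz (Qz_four z) z 3 :=
  ⟨(1), (1)*z + (1)*z^2 + (-1)*z^6 + (-1)*z^7 + (-1)*z^10, by simp only [Qz_four]; ring⟩

lemma bz_four_a (z : ℤ) : Bz (Qz_four z) (z^2-1) 8 :=
  ⟨(3) + (-1)*z, (1) + (-3)*z + (-2)*z^2 + (-5)*z^3 + (-1)*z^4 + (-5)*z^5 + (-1)*z^6 + (-2)*z^7 + (1)*z^8 + (-3)*z^9 + (1)*z^10, by simp only [Qz_four]; ring⟩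

lemma bz_four_b (z : ℤ) : Bz (Qz_four z) (z^5-1) 244 :=
  ⟨(81) + (-27)*z + (9)*z^2 + (-3)*z^3 + (1)*z^4, (-1) + (-81)*z + (-54)*z^2 + (-63)*z^3 + (21)*z^4 + (-7)*z^5 + (-79)*z^6 + (26)*z^7 + (-9)*z^8 + (3)*z^9 + (-1)*z^10, by simp only [Qz_four]; ring⟩

lemma bz_four_c (z : ℤ) : Bz (Qz_four z) (z^6-1) 40 :=
  ⟨(21) + (-7)*z + (-3)*z^2 + (9)*z^3 + (-3)*z^4 + (-7)*z^5, (23) + (-21)*z + (-30)*z^2 + (13)*z^3 + (1)*z^4 + (-27)*z^5 + (17)*z^6 + (10)*z^7 + (-9)*z^8 + (3)*z^9 + (7)*z^10, by simp only [Qz_four]; ring⟩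

lemma bz_four_d (z : ℤ) : Bz (Qz_four z) (z^8-1) 56992 :=
  ⟨(15051) + (-1961)*z + (3955)*z^2 + (-769)*z^3 + (1115)*z^4 + (-505)*z^5 + (1251)*z^6 + (-3889)*z^7, (-11839) + (-5883)*z + (-3186)*z^2 + (-15397)*z^3 + (1351)*z^4 + (-4701)*z^5 + (3407)*z^6 + (2774)*z^7 + (505)*z^8 + (-1251)*z^9 + (3889)*z^10, by simp only [Qz_four]; ring⟩

lemma bz_four_e (z : ℤ) : Bz (Qz_four z) (z^9-1) 9076 :=
  ⟨(3921) + (-643)*z + (-751)*z^2 + (1593)*z^3 + (-539)*z^4 + (-319)*z^5 + (1293)*z^6 + (-1087)*z^7 + (-1199)*z^8, (2687) + (-1929)*z + (-6174)*z^2 + (1501)*z^3 + (-223)*z^4 + (-1799)*z^5 + (2825)*z^6 + (1518)*z^7 + (-1293)*z^8 + (1087)*z^9 + (1199)*z^10, by simp only [Qz_four]; ring⟩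

lemma bz_four_f (z : ℤ) : Bz (Qz_four z) (z^12-1) 75920 :=
  ⟨(29989) + (-8583)*z + (93)*z^2 + (11521)*z^3 + (-2667)*z^4 + (-263)*z^5 + (9869)*z^6 + (-4703)*z^7 + (-5787)*z^8 + (5561)*z^9 + (-3027)*z^10 + (-13023)*z^11, (14047) + (-25749)*z + (-29710)*z^2 + (13157)*z^3 + (489)*z^4 + (-12403)*z^5 + (20753)*z^6 + (18810)*z^7 + (-5561)*z^8 + (3027)*z^9 + (13023)*z^10, by simp only [Qz_four]; ring⟩

lemma dvd_four (z : ℤ) (h : Qz_four z ∣ z ^ 36 * ((z ^ 2 - 1) * (z ^ 5 - 1) * (z ^ 6 - 1) * (z ^ 8 - 1) * (z ^ 9 - 1) * (z ^ 12 - 1))) :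
    Qz_four z ∣ 460224313931929442574960094622515200 := by
  have h1 := chain (bz_four_q z) (bz_four_a z) (bz_four_b z) (bz_four_c z) (bz_four_d z) (bz_four_e z) (bz_four_f z) h
  norm_num at h1
  exact h1

lemma pow_le_four (s : ℕ) : ((s : ℤ) + 2) ^ 11 ≤ Qz_four ((s : ℤ) + 2) := by
  have h : 0 ≤ (375) + (1456)*(s : ℤ) + (2457)*(s : ℤ)^2 + (2351)*(s : ℤ)^3 + (1400)*(s : ℤ)^4 + (532)*(s : ℤ)^5 + (126)*(s : ℤ)^6 + (17)*(s : ℤ)^7 + (1)*(s : ℤ)^8 := by positivity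
  have e : Qz_four ((s : ℤ) + 2) - ((s : ℤ) + 2) ^ 11 = (375) + (1456)*(s : ℤ) + (2457)*(s : ℤ)^2 + (2351)*(s : ℤ)^3 + (1400)*(s : ℤ)^4 + (532)*(s : ℤ)^5 + (126)*(s : ℤ)^6 + (17)*(s : ℤ)^7 + (1)*(s : ℤ)^8 := by
    simp only [Qz_four]; ring
  linarith

theorem no_four {q : ℕ} (hq : 2 ≤ q) : ¬ (k0 q + 4) ∣ NN q := by
  intro hd
  by_cases hB : q < 1747
  · exact chk_ok (g := fun q => k0 q + 4) (B := 1747) (by decide +kernel) hq hB hd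
  · have hd' : ((k0 q + 4 : ℕ) : ℤ) ∣ (NN q : ℤ) := Int.natCast_dvd_natCast.mpr hd
    have e1 : ((k0 q + 4 : ℕ) : ℤ) = ((1)) * Qz_four (q : ℤ) := by
      push_cast
      rw [k0_cast (by omega)]
      simp only [Qz_four]
      ring
    rw [e1, NN_cast (by omega)] at hd'
    have hQ := dvd_four (q : ℤ) (Dvd.dvd.trans (Dvd.intro_left _ rfl) hd')
    have hle := Int.le_of_dvd (by norm_num) hQ
    obtain ⟨s, rfl⟩ : ∃ s, q = s + 2 := ⟨q - 2, by omega⟩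
    have hp := pow_le_four s
    have e2 : ((s + 2 : ℕ) : ℤ) = (s : ℤ) + 2 := by push_cast; ring
    rw [e2] at hle
    have hB' : (1747 : ℤ) ≤ (s : ℤ) + 2 := by
      have : 1747 ≤ s + 2 := not_lt.mp hB
      exact_mod_cast this
    have h3 : (1747 : ℤ) ^ 11 ≤ ((s : ℤ) + 2) ^ 11 := pow_le_pow_left₀ (by norm_num) hB' 11
    have h4 : (1747 : ℤ) ^ 11 ≤ 460224313931929442574960094622515200 := by linarith
    norm_num at h4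

end four

section w

/-- The cofactor. -/
def Qz_w (z : ℤ) : ℤ := (-1) + (1)*z^2 + (1)*z^3 + (1)*z^4 + (1)*z^5 + (1)*z^8 + (1)*z^9

lemma bz_w_q (z : ℤ) : Bz (Qz_w z) z 1 :=
  ⟨(-1), (1)*z + (1)*z^2 + (1)*z^3 + (1)*z^4 + (1)*z^7 + (1)*z^8, by simp only [Qz_w]; ring⟩

lemma bz_w_a (z : ℤ) : Bz (Qz_w z) (z^2-1) 5 :=
  ⟨(-2) + (3)*z, (-3) + (-3)*z + (-5)*z^2 + (-2)*z^3 + (-4)*z^4 + (-1)*z^5 + (-1)*z^6 + (-1)*z^7 + (-3)*z^8, by simp only [Qz_w]; ring⟩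

lemma bz_w_b (z : ℤ) : Bz (Qz_w z) (z^5-1) 25 :=
  ⟨(-14) + (16)*z + (-4)*z^2 + (1)*z^3 + (6)*z^4, (-11) + (-16)*z + (-10)*z^2 + (1)*z^3 + (-8)*z^4 + (-12)*z^5 + (3)*z^6 + (-7)*z^7 + (-6)*z^8, by simp only [Qz_w]; ring⟩

lemma bz_w_c (z : ℤ) : Bz (Qz_w z) (z^6-1) 40 :=
  ⟨(-12) + (13)*z + (-7)*z^2 + (8)*z^3 + (3)*z^4 + (3)*z^5, (-28) + (-13)*z + (-5)*z^2 + (-7)*z^3 + (-9)*z^4 + (-1)*z^5 + (-11)*z^6 + (-6)*z^7 + (-3)*z^8, by simp only [Qz_w]; ring⟩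

lemma bz_w_d (z : ℤ) : Bz (Qz_w z) (z^8-1) 5 :=
  ⟨(-3) + (2)*z + (-3)*z^2 + (2)*z^3 + (2)*z^4 + (-3)*z^5 + (2)*z^6 + (2)*z^7, (-2) + (-2)*z + (-3)*z^3 + (-6)*z^4 + (1)*z^5 + (1)*z^6 + (-4)*z^7 + (-2)*z^8, by simp only [Qz_w]; ring⟩

lemma bz_w_e (z : ℤ) : Bz (Qz_w z) (z^9-1) 10 :=
  ⟨(-7) + (8)*z + (-7)*z^2 + (3)*z^3 + (-2)*z^4 + (3)*z^5 + (3)*z^6 + (-2)*z^7 + (3)*z^8, (-3) + (-8)*z + (-2)*z^3 + (-4)*z^4 + (-6)*z^5 + (-1)*z^6 + (-1)*z^7 + (-3)*z^8, by simp only [Qz_w]; ring⟩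

lemma bz_w_f (z : ℤ) : Bz (Qz_w z) (z^12-1) 80 :=
  ⟨(-32) + (13)*z + (-27)*z^2 + (28)*z^3 + (3)*z^4 + (-17)*z^5 + (8)*z^6 + (13)*z^7 + (13)*z^8 + (-12)*z^9 + (3)*z^10 + (23)*z^11, (-48) + (-13)*z + (-5)*z^2 + (-47)*z^3 + (-49)*z^4 + (-1)*z^5 + (9)*z^6 + (-26)*z^7 + (-23)*z^8, by simp only [Qz_w]; ring⟩

lemma dvd_w (z : ℤ) (h : Qz_w z ∣ z ^ 36 * ((z ^ 2 - 1) * (z ^ 5 - 1) * (z ^ 6 - 1) * (z ^ 8 - 1) * (z ^ 9 - 1) * (z ^ 12 - 1))) :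
    Qz_w z ∣ 20000000 := by
  have h1 := chain (bz_w_q z) (bz_w_a z) (bz_w_b z) (bz_w_c z) (bz_w_d z) (bz_w_e z) (bz_w_f z) h
  norm_num at h1
  exact h1

lemma pow_le_w (s : ℕ) : ((s : ℤ) + 2) ^ 9 ≤ Qz_w ((s : ℤ) + 2) := by
  have h : 0 ≤ (315) + (1152)*(s : ℤ) + (1903)*(s : ℤ)^2 + (1841)*(s : ℤ)^3 + (1131)*(s : ℤ)^4 + (449)*(s : ℤ)^5 + (112)*(s : ℤ)^6 + (16)*(s : ℤ)^7 + (1)*(s : ℤ)^8 := by positivity
  have e : Qz_w ((s : ℤ) + 2) - ((s : ℤ) + 2) ^ 9 = (315) + (1152)*(s : ℤ) + (1903)*(s : ℤ)^2 + (1841)*(s : ℤ)^3 + (1131)*(s : ℤ)^4 + (449)*(s : ℤ)^5 + (112)*(s : ℤ)^6 + (16)*(s : ℤ)^7 + (1)*(s : ℤ)^8 := by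
    simp only [Qz_w]; ring
  linarith

theorem no_w {q : ℕ} (hq : 2 ≤ q) : ¬ (k0 q + (q ^ 5 + q ^ 4 + q ^ 3 + q ^ 2 + q)) ∣ NN q := by
  intro hd
  by_cases hB : q < 7
  · exact chk_ok (g := fun q => k0 q + (q ^ 5 + q ^ 4 + q ^ 3 + q ^ 2 + q)) (B := 7) (by decide +kernel) hq hB hd
  · have hd' : ((k0 q + (q ^ 5 + q ^ 4 + q ^ 3 + q ^ 2 + q) : ℕ) : ℤ) ∣ (NN q : ℤ) := Int.natCast_dvd_natCast.mpr hd
    have e1 : ((k0 q + (q ^ 5 + q ^ 4 + q ^ 3 + q ^ 2 + q) : ℕ) : ℤ) = ((1) + (-1)*(q : ℤ) + (1)*(q : ℤ)^2) * Qz_w (q : ℤ) := by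
      push_cast
      rw [k0_cast (by omega)]
      simp only [Qz_w]
      ring
    rw [e1, NN_cast (by omega)] at hd'
    have hQ := dvd_w (q : ℤ) (Dvd.dvd.trans (Dvd.intro_left _ rfl) hd')
    have hle := Int.le_of_dvd (by norm_num) hQ
    obtain ⟨s, rfl⟩ : ∃ s, q = s + 2 := ⟨q - 2, by omega⟩
    have hp := pow_le_w s
    have e2 : ((s + 2 : ℕ) : ℤ) = (s : ℤ) + 2 := by push_cast; ring
    rw [e2] at hle
    have hB' : (7 : ℤ) ≤ (s : ℤ) + 2 := by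
      have : 7 ≤ s + 2 := not_lt.mp hB
      exact_mod_cast this
    have h3 : (7 : ℤ) ^ 9 ≤ ((s : ℤ) + 2) ^ 9 := pow_le_pow_left₀ (by norm_num) hB' 9
    have h4 : (7 : ℤ) ^ 9 ≤ 20000000 := by linarith
    norm_num at h4

end w

end ArAux

/-- The identity. -/
theorem BB_eq {q : ℕ} (hq : 2 ≤ q) : BB q = k0 q + (q ^ 5 + q ^ 4 + q ^ 3 + q ^ 2 + q) + 1 := by
  have h := ArAux.k0_cast (q := q) (by omega)
  have e : (BB q : ℤ) = (k0 q : ℤ) + ((q : ℤ) ^ 5 + (q : ℤ) ^ 4 + (q : ℤ) ^ 3 + (q : ℤ) ^ 2 + (q : ℤ)) + 1 := by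
    rw [h]
    simp only [BB]
    push_cast
    ring
  exact_mod_cast e

/-- `(q⁶ - q)/(q - 1)`. -/
theorem w_eq {q : ℕ} (hq : 2 ≤ q) : (q ^ 6 - q) / (q - 1) = q ^ 5 + q ^ 4 + q ^ 3 + q ^ 2 + q := by
  obtain ⟨s, rfl⟩ : ∃ s, q = s + 2 := ⟨q - 2, by omega⟩
  have e1 : s + 2 - 1 = s + 1 := by omega
  rw [e1]
  apply Nat.div_eq_of_eq_mul_right (by omega)
  apply Nat.sub_eq_of_eq_add
  ring

/-- `k0 + n0` does not divide the order, `n0 ≤ 4`. See PLAN.md, paragraph `Div`: `k0 + n0` is a cyclotomic factor (`q-1`, -, `q+1`, `q²+q+1`, -) times `Q`, with `Q` coprime to `q` and `Φ_d` up to the small resultant; Bezout over `ℤ`, then `Q ∣` a constant, check small `q`. -/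
theorem no_dvd0 {q n0 : ℕ} (hq : 2 ≤ q) (hn : n0 ≤ 4) : ¬ (k0 q + n0) ∣ NN q := by
  interval_cases n0
  · exact ArAux.no_zero hq
  · exact ArAux.no_one hq
  · exact ArAux.no_two hq
  · exact ArAux.no_three hq
  · exact ArAux.no_four hq

/-- `B - 1` does not divide the order. -/
theorem no_dvd1 {q : ℕ} (hq : 2 ≤ q) : ¬ (k0 q + (q ^ 5 + q ^ 4 + q ^ 3 + q ^ 2 + q)) ∣ NN q :=
  ArAux.no_w hq

end Cfsg.Agent.Lib.MinE6
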