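import Cfsg.Agent.Lib.MinE6.Sys
import Cfsg.Agent.Lib.Chev.Mono1

/-! The relations of `SysE` in `chevE6.group F`, except the homomorphism from `SL₆(F)`. -/

set_option autoImplicit false
set_option linter.unusedSectionVars false
set_option linter.unusedVariables false
set_option linter.ambiguousOpen false
set_option linter.unusedSimpArgs false
set_option linter.unreachableTactic false
set_option linter.style.haveILetI false
set_option linter.style.longLine false

namespace Cfsg.Agent.Lib.MinE6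

open Cfsg Lie
open scoped Matrix MatrixGroups
open Cfsg.Agent.Lib.Chev
open Tables Tables2 AxBasic Torus Mono1

namespace InstAux

variable {F : Type*} [Field F]

theorem hmemE6 : chevE6 ∈ [chevG2, chevB2, chevD4, chevF4, chevE6, chevE7, chevE8] := by simp

lemma x_eq_xMat6 (r : ℕ) (hr : r < chevE6.nroots) (t : F) : chevE6.x F r t = chevE6.xMat F ⟨r, hr⟩ t := by
  simp [ChevalleyDatum.x, hr]

variable (ax : Ax chevE6 F)

lemma xG_mem' (r : ℕ) (t : F) : xG ax r t ∈ chevE6.group F := by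
  by_cases hr : r < chevE6.nroots
  · exact Subgroup.subset_closure ⟨⟨r, hr⟩, t, by rw [xG_val]; exact x_eq_xMat6 r hr t⟩
  · have : xG ax r t = 1 := Units.ext (by simp [ChevalleyDatum.x, hr])
    rw [this]
    exact one_mem _

/-- The root elements in the group. -/
noncomputable def xE (r : ℕ) (t : F) : ↥(chevE6.group F) := ⟨xG ax r t, xG_mem' ax r t⟩

lemma nG_mem' (r : ℕ) (t : F) : nG ax r t ∈ chevE6.group F :=
  mul_mem (mul_mem (xG_mem' ax _ _) (xG_mem' ax _ _)) (xG_mem' ax _ _)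

lemma hG_mem' (r : ℕ) (t : F) : hG ax r t ∈ chevE6.group F :=
  mul_mem (nG_mem' ax _ _) (nG_mem' ax _ _)

theorem tabE6 : Tab chevE6 := tab_of_mem hmemE6
theorem tab2E6 : Tab2 chevE6 := tab2_of_mem hmemE6

lemma xE_add (r : ℕ) (a b : F) : xE ax r (a + b) = xE ax r a * xE ax r b :=
  Subtype.ext (xG_add ax r a b).symm

/-! ### Commutators -/

/-- The coefficient of the commutator of two roots, when there is one term. -/
def cf (r s : ℕ) : ℤ := ((chevE6.commTerms r s).head?.map (fun c => c.2.1)).getD 0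

/-- The sign of the commutator. -/
def sgnOf (c : ℤ) : ℤ := if c = -1 then 1 else -1

lemma sgnOf_of {c : ℤ} (h : c = 1 ∨ c = -1) : -c = sgnOf c := by
  rcases h with rfl | rfl <;> decide

lemma sgnOf_sign (c : ℤ) : ((sgnOf c : ℤ) : F) = 1 ∨ ((sgnOf c : ℤ) : F) = -1 := by
  unfold sgnOf
  split_ifs <;> simp

lemma comm_zero {r s : ℕ} (hr : r < 72) (hs : s < 72) (hrs : s ≠ r) (hn : s ≠ chevE6.neg r)
    (h : chevE6.commTerms r s = []) (u t : F) :
    xE ax s u * xE ax r t = xE ax r t * xE ax s u := by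
  apply Subtype.ext
  show xG ax s u * xG ax r t = xG ax r t * xG ax s u
  rw [xG_comm ax (r := r) (s := s) hr hs hrs hn t u]
  simp [ChevalleyDatum.commWord, h, wordG]

lemma comm_one {r s k : ℕ} {c : ℤ} (hr : r < 72) (hs : s < 72) (hrs : s ≠ r) (hn : s ≠ chevE6.neg r)
    (h : chevE6.commTerms r s = [(k, c, 1, 1)]) (hc : c = 1 ∨ c = -1) (u t : F) :
    xE ax s u * xE ax r t = xE ax r t * xE ax s u * xE ax k (((sgnOf c : ℤ) : F) * (t * u)) := by
  apply Subtype.ext
  show xG ax s u * xG ax r t = xG ax r t * xG ax s u * xG ax k (((sgnOf c : ℤ) : F) * (t * u))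
  rw [xG_comm ax (r := r) (s := s) hr hs hrs hn t u]
  simp only [ChevalleyDatum.commWord, h, wordG, List.map_cons, List.map_nil, List.prod_cons, List.prod_nil, mul_one]
  have e0 : ((c : ℤ) : F) * (-t) ^ 1 * u ^ 1 = ((sgnOf c : ℤ) : F) * (t * u) := by
    rw [← sgnOf_of hc]
    push_cast
    ring
  rw [e0]

theorem tt_data : ∀ T : S3, gam T < 72 ∧ 71 ≠ gam T ∧ 71 ≠ chevE6.neg (gam T) ∧ chevE6.commTerms (gam T) 71 = [] := by
  decide +kernel

theorem uu_data : ∀ T T' : S3, T ≠ T' → T' ≠ compl3 T → gam T' < 72 ∧ gam T < 72 ∧ gam T ≠ gam T' ∧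
    gam T ≠ chevE6.neg (gam T') ∧ chevE6.commTerms (gam T') (gam T) = [] := by
  decide +kernel

theorem uc_data : ∀ T : S3, gam (compl3 T) < 72 ∧ gam T < 72 ∧ gam T ≠ gam (compl3 T) ∧
    gam T ≠ chevE6.neg (gam (compl3 T)) ∧
    chevE6.commTerms (gam (compl3 T)) (gam T) = [(71, cf (gam (compl3 T)) (gam T), 1, 1)] ∧
    (cf (gam (compl3 T)) (gam T) = 1 ∨ cf (gam (compl3 T)) (gam T) = -1) := by
  decide +kernel

theorem lt_data : ∀ i j : Fin 6, i ≠ j → rt i j < 72 ∧ 71 ≠ rt i j ∧ 71 ≠ chevE6.neg (rt i j) ∧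
    chevE6.commTerms (rt i j) 71 = [] := by
  decide +kernel

theorem lu0_data : ∀ (i j : Fin 6) (T : S3), i ≠ j → ¬ (j ∈ T.1 ∧ i ∉ T.1) → rt i j < 72 ∧ gam T < 72 ∧ gam T ≠ rt i j ∧
    gam T ≠ chevE6.neg (rt i j) ∧ chevE6.commTerms (rt i j) (gam T) = [] := by
  decide +kernel

theorem lu_data : ∀ (i j : Fin 6) (T : S3), (i ≠ j ∧ j ∈ T.1 ∧ i ∉ T.1) → rt i j < 72 ∧ gam T < 72 ∧ gam T ≠ rt i j ∧
    gam T ≠ chevE6.neg (rt i j) ∧
    chevE6.commTerms (rt i j) (gam T) = [(gam (mv i j T), cf (rt i j) (gam T), 1, 1)] ∧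
    (cf (rt i j) (gam T) = 1 ∨ cf (rt i j) (gam T) = -1) := by
  decide +kernel

lemma tt' (T : S3) (u w : F) : xE ax 71 u * xE ax (gam T) w = xE ax (gam T) w * xE ax 71 u := by
  obtain ⟨h1, h2, h3, h4⟩ := tt_data T
  exact comm_zero ax h1 (by decide) h2 h3 h4 u w

lemma uu' (T T' : S3) (h : T' ≠ compl3 T) (u w : F) :
    xE ax (gam T) u * xE ax (gam T') w = xE ax (gam T') w * xE ax (gam T) u := by
  by_cases hT : T = T'
  · subst hT
    rw [← xE_add, ← xE_add, add_comm]
  · obtain ⟨h1, h2, h3, h4, h5⟩ := uu_data T T' hT h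
    exact comm_zero ax h1 h2 h3 h4 h5 u w

/-- The sign of the central commutator. -/
def epsE (T : S3) : F := ((sgnOf (cf (gam (compl3 T)) (gam T)) : ℤ) : F)

lemma uc' (T : S3) (u t : F) : xE ax (gam T) u * xE ax (gam (compl3 T)) t =
    xE ax (gam (compl3 T)) t * xE ax (gam T) u * xE ax 71 (epsE T * (t * u)) := by
  obtain ⟨h1, h2, h3, h4, h5, h6⟩ := uc_data T
  exact comm_one ax h1 h2 h3 h4 h5 h6 u t

/-- The sign of the commutator with the Levi. -/
def sgE (i j : Fin 6) (T : S3) : F := ((sgnOf (cf (rt i j) (gam T)) : ℤ) : F)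

lemma lt' (i j : Fin 6) (h : i ≠ j) (u w : F) : xE ax 71 u * xE ax (rt i j) w = xE ax (rt i j) w * xE ax 71 u := by
  obtain ⟨h1, h2, h3, h4⟩ := lt_data i j h
  exact comm_zero ax h1 (by decide) h2 h3 h4 u w

lemma lu0' (i j : Fin 6) (T : S3) (h : i ≠ j) (h' : ¬ (j ∈ T.1 ∧ i ∉ T.1)) (u t : F) :
    xE ax (gam T) u * xE ax (rt i j) t = xE ax (rt i j) t * xE ax (gam T) u := by
  obtain ⟨h1, h2, h3, h4, h5⟩ := lu0_data i j T h h'
  exact comm_zero ax h1 h2 h3 h4 h5 u t

lemma lu' (i j : Fin 6) (T : S3) (h : i ≠ j) (hj : j ∈ T.1) (hi : i ∉ T.1) (u t : F) :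
    xE ax (gam T) u * xE ax (rt i j) t = xE ax (rt i j) t * xE ax (gam T) u * xE ax (gam (mv i j T)) (sgE i j T * (t * u)) := by
  obtain ⟨h1, h2, h3, h4, h5, h6⟩ := lu_data i j T ⟨h, hj, hi⟩
  exact comm_one ax h1 h2 h3 h4 h5 h6 u t

/-! ### Weyl elements -/

lemma n_conj_aux (i : ℕ) (hi : i < chevE6.rank) (r : ℕ) (hr : r < chevE6.nroots) :
    ∃ η : F, (η = 1 ∨ η = -1) ∧ ∀ u, nG ax (chevE6.simple i) 1 * xG ax r u * (nG ax (chevE6.simple i) 1)⁻¹ =
      xG ax (chevE6.reflectRoot i r) (η * u) := by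
  obtain ⟨η, hη, h1, -⟩ := ax.n_simple i r hi hr
  refine ⟨(η : F), ?_, ?_⟩
  · rcases hη with rfl | rfl <;> simp
  · intro u
    have : nG ax (chevE6.simple i) 1 * xG ax r u =
        xG ax (chevE6.reflectRoot i r) ((η : F) * u) * nG ax (chevE6.simple i) 1 :=
      Units.ext (by simp only [Units.val_mul, nG_val, xG_val]; exact h1 u)
    rw [this, mul_inv_cancel_right]

lemma reflect_lt (i : ℕ) (hi : i < 6) (r : ℕ) (hr : r < 72) : chevE6.reflectRoot i r < 72 :=
  (wF tabE6 i hi ⟨r, hr⟩).isLt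

/-- The simple `n` in the group. -/
noncomputable def sE (i : ℕ) : ↥(chevE6.group F) := ⟨nG ax (chevE6.simple i) 1, nG_mem' ax _ _⟩

lemma sE_conj (i : ℕ) (hi : i < 6) (r : ℕ) (hr : r < 72) :
    ∃ η : F, (η = 1 ∨ η = -1) ∧ ∀ u, sE ax i * xE ax r u * (sE ax i)⁻¹ = xE ax (chevE6.reflectRoot i r) (η * u) := by
  obtain ⟨η, hη, h⟩ := n_conj_aux ax i hi r hr
  exact ⟨η, hη, fun u => Subtype.ext (h u)⟩

/-- The action of a word in the simple reflections. -/
def foldW (l : List ℕ) (s : ℕ) : ℕ := l.foldr (fun i s => chevE6.reflectRoot i s) s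

lemma mul_sign {a b : F} (ha : a = 1 ∨ a = -1) (hb : b = 1 ∨ b = -1) : a * b = 1 ∨ a * b = -1 := by
  rcases ha with rfl | rfl <;> rcases hb with rfl | rfl <;> simp

lemma exists_word (l : List ℕ) (hl : ∀ i ∈ l, i < 6) : ∃ g : ↥(chevE6.group F), ∀ s, s < 72 → foldW l s < 72 ∧
    ∃ η : F, (η = 1 ∨ η = -1) ∧ ∀ u, g * xE ax s u * g⁻¹ = xE ax (foldW l s) (η * u) := by
  induction l with
  | nil =>
    refine ⟨1, fun s hs => ⟨hs, 1, Or.inl rfl, fun u => ?_⟩⟩
    simp [foldW]
  | cons i l ih =>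
    obtain ⟨g, hg⟩ := ih (fun k hk => hl k (List.mem_cons_of_mem _ hk))
    have hi : i < 6 := hl i List.mem_cons_self
    refine ⟨sE ax i * g, fun s hs => ?_⟩
    obtain ⟨h1, η, hη, h2⟩ := hg s hs
    obtain ⟨η', hη', h3⟩ := sE_conj ax i hi (foldW l s) h1
    refine ⟨reflect_lt i hi _ h1, η' * η, mul_sign hη' hη, fun u => ?_⟩
    have e1 : sE ax i * g * xE ax s u * (sE ax i * g)⁻¹ = sE ax i * (g * xE ax s u * g⁻¹) * (sE ax i)⁻¹ := by group
    rw [e1, h2, h3, mul_assoc]
    rfl

/-- The word of the transposition `(i j)`. -/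
def lvA : Array ℕ := #[0, 2, 3, 4, 5]

/-- The word of the transposition `(i j)`: `s_a ⋯ s_{b-2} s_{b-1} s_{b-2} ⋯ s_a`. -/
def wdW (i j : Fin 6) : List ℕ :=
  let a := min i.val j.val
  let b := max i.val j.val
  let up := (List.range (b - a - 1)).map (fun k => lvA.getD (a + k) 0)
  up ++ [lvA.getD (b - 1) 0] ++ up.reverse

theorem wdW_lt : ∀ (i j : Fin 6), ∀ k ∈ wdW i j, k < 6 := by decide +kernel

theorem w_data : ∀ i j : Fin 6, i ≠ j → (∀ T : S3, foldW (wdW i j) (gam T) = gam (swp i j T)) ∧ foldW (wdW i j) 71 = 71 := by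
  decide +kernel

theorem gam_lt : ∀ T : S3, gam T < 72 := by decide +kernel

/-- The Weyl elements of the Levi. -/
noncomputable def wE (i j : Fin 6) : ↥(chevE6.group F) := Classical.choose (exists_word ax (wdW i j) (wdW_lt i j))

lemma w_conj' (i j : Fin 6) (h : i ≠ j) (T : S3) :
    ∃ η : F, (η = 1 ∨ η = -1) ∧ ∀ u, wE ax i j * xE ax (gam T) u * (wE ax i j)⁻¹ = xE ax (gam (swp i j T)) (η * u) := by
  obtain ⟨-, η, hη, h2⟩ := Classical.choose_spec (exists_word ax (wdW i j) (wdW_lt i j)) (gam T) (gam_lt T)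
  rw [(w_data i j h).1 T] at h2
  exact ⟨η, hη, h2⟩

lemma w_th' (i j : Fin 6) (h : i ≠ j) :
    ∃ η : F, (η = 1 ∨ η = -1) ∧ ∀ u, wE ax i j * xE ax 71 u * (wE ax i j)⁻¹ = xE ax 71 (η * u) := by
  obtain ⟨-, η, hη, h2⟩ := Classical.choose_spec (exists_word ax (wdW i j) (wdW_lt i j)) 71 (by decide)
  rw [(w_data i j h).2] at h2
  exact ⟨η, hη, h2⟩

/-! ### The torus -/

lemma tor_congr {y y' : ℕ → Fˣ} (h : ∀ i, i < 6 → y i = y' i) : (tor chevE6 y : GL chevE6.Idx F) = tor chevE6 y' := by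
  unfold tor
  congr 1
  funext v
  cases v with
  | inl i => rfl
  | inr s =>
    simp only [torD, Sum.elim_inr, chi]
    apply Finset.prod_congr rfl
    intro i hi
    rw [h i (Finset.mem_range.mp hi)]

include ax in
lemma tor_hW_mem (r : ℕ) (hr : r < 72) (c : Fˣ) : tor chevE6 (hW chevE6 r c) ∈ chevE6.group F := by
  rw [← hG_eq_tor ax tabE6 hr c]
  exact hG_mem' ax _ _

theorem rt_lt : ∀ i j : Fin 6, rt i j < 72 := by decide +kernel

/-- The torus of the Levi. -/
noncomputable def hLE (i j : Fin 6) (s : Fˣ) : ↥(chevE6.group F) :=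
  ⟨tor chevE6 (hW chevE6 (rt i j) s), tor_hW_mem ax _ (rt_lt i j) s⟩

theorem pw_data : ∀ (i j : Fin 6) (T : S3), i ≠ j → pair chevE6 (rt i j) (gam T) = pw i j T := by
  decide +kernel

theorem pw71_data : ∀ (i j : Fin 6), i ≠ j → pair chevE6 (rt i j) 71 = 0 := by
  decide +kernel

lemma tor_hW_conj (r : ℕ) (c : Fˣ) (s : ℕ) (hs : s < 72) (u : F) :
    (tor chevE6 (hW chevE6 r c) : GL chevE6.Idx F) * xG ax s u * (tor chevE6 (hW chevE6 r c))⁻¹ =
      xG ax s (((c ^ pair chevE6 r s : Fˣ) : F) * u) := by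
  rw [tor_conj_xG ax tabE6 _ hs u, chi_hW tabE6 r c hs]

lemma hL_gam' (i j : Fin 6) (h : i ≠ j) (s : Fˣ) (T : S3) (u : F) :
    hLE ax i j s * xE ax (gam T) u * (hLE ax i j s)⁻¹ = xE ax (gam T) (((s ^ pw i j T : Fˣ) : F) * u) := by
  apply Subtype.ext
  have := tor_hW_conj ax (rt i j) s (gam T) (gam_lt T) u
  rw [pw_data i j T h] at this
  exact this

lemma hL_th' (i j : Fin 6) (h : i ≠ j) (s : Fˣ) (u : F) :
    hLE ax i j s * xE ax 71 u * (hLE ax i j s)⁻¹ = xE ax 71 u := by
  apply Subtype.ext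
  have := tor_hW_conj ax (rt i j) s 71 (by decide) u
  rw [pw71_data i j h] at this
  simp only [zpow_zero, Units.val_one, one_mul] at this
  exact this

/-- `h_β`. -/
noncomputable def hbE (c : Fˣ) : ↥(chevE6.group F) := ⟨tor chevE6 (hW chevE6 46 c), tor_hW_mem ax 46 (by decide) c⟩

lemma hb_mul' (c c' : Fˣ) : hbE ax (c * c') = hbE ax c * hbE ax c' := by
  apply Subtype.ext
  show tor chevE6 (hW chevE6 46 (c * c')) = tor chevE6 (hW chevE6 46 c) * tor chevE6 (hW chevE6 46 c')
  rw [← tor_mul]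
  congr 1
  funext j
  simp [hW, mul_zpow]

lemma pair_46_71 : pair chevE6 46 71 = 1 := by decide +kernel
lemma pair_46_46 : pair chevE6 46 46 = 2 := by decide +kernel

lemma hb_th' (c : Fˣ) (u : F) : hbE ax c * xE ax 71 u * (hbE ax c)⁻¹ = xE ax 71 ((c : F) * u) := by
  apply Subtype.ext
  have := tor_hW_conj ax 46 c 71 (by decide) u
  rw [pair_46_71, zpow_one] at this
  exact this

lemma hb_gam' (T : S3) : ∃ e : ℤ, ∀ (c : Fˣ) (u : F), hbE ax c * xE ax (gam T) u * (hbE ax c)⁻¹ = xE ax (gam T) (((c ^ e : Fˣ) : F) * u) :=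
  ⟨pair chevE6 46 (gam T), fun c u => Subtype.ext (tor_hW_conj ax 46 c (gam T) (gam_lt T) u)⟩

lemma hb_β' (c : Fˣ) (u : F) : hbE ax c * xE ax 46 u * (hbE ax c)⁻¹ = xE ax 46 ((c : F) ^ 2 * u) := by
  apply Subtype.ext
  have := tor_hW_conj ax 46 c 46 (by decide) u
  have e : ((c ^ (2 : ℤ) : Fˣ) : F) = (c : F) ^ 2 := by simp
  rw [pair_46_46, e] at this
  exact this

/-- `n_β(1)`. -/
noncomputable def nbE : ↥(chevE6.group F) := ⟨nG ax 46 1, nG_mem' ax _ _⟩

lemma nG_eq_hG_mul' (r : ℕ) (t : F) : nG ax r t = hG ax r t * nG ax r 1 := by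
  simp only [hG, mul_assoc, ← nG_inv, inv_mul_cancel, mul_one]

lemma nb_eq' (c : Fˣ) : xE ax 46 c * xE ax 25 (-((c : F)⁻¹)) * xE ax 46 c = hbE ax c * nbE ax := by
  apply Subtype.ext
  show xG ax 46 c * xG ax 25 (-((c : F)⁻¹)) * xG ax 46 c = tor chevE6 (hW chevE6 46 c) * nG ax 46 1
  have hn : chevE6.neg 46 = 25 := by decide +kernel
  have e1 : xG ax 46 c * xG ax 25 (-((c : F)⁻¹)) * xG ax 46 c = nG ax 46 c := by
    simp only [nG, hn]
  rw [e1, nG_eq_hG_mul' ax, hG_eq_tor ax tabE6 (by decide)]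

theorem simple1 : chevE6.simple 1 = 46 := by decide +kernel
theorem refl1 : ∀ r, r < 72 → chevE6.reflectRoot 1 r = reflB r := by decide +kernel

lemma nb_conj' (r : ℕ) (hr : r < 72) :
    ∃ η : F, (η = 1 ∨ η = -1) ∧ ∀ u, nbE ax * xE ax r u * (nbE ax)⁻¹ = xE ax (reflB r) (η * u) := by
  obtain ⟨η, hη, h⟩ := n_conj_aux ax 1 (by decide) r hr
  refine ⟨η, hη, fun u => Subtype.ext ?_⟩
  have h2 := h u
  rw [simple1, refl1 r hr] at h2
  exact h2

lemma conj_tor_hW (i : ℕ) (hi : i < chevE6.rank) (r : ℕ) (hr : r < chevE6.nroots) (c : Fˣ) :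
    sG ax i * tor chevE6 (hW chevE6 r c) * (sG ax i)⁻¹ = tor chevE6 (hW chevE6 (chevE6.reflectRoot i r) c) := by
  obtain ⟨e, H⟩ := exists_isNor_sG tabE6 ax tab2E6 hi
  have h1 := H.conj_hG tabE6 ax ⟨r, hr⟩ (t := (c : F)) c.ne_zero
  rw [hG_eq_tor ax tabE6 hr] at h1
  rw [h1]
  have hlt : (wF tabE6 i hi ⟨r, hr⟩ : ℕ) < chevE6.nroots := (wF tabE6 i hi ⟨r, hr⟩).isLt
  have h2 : (e ⟨r, hr⟩ : F) * (c : F) = ((e ⟨r, hr⟩ * c : Fˣ) : F) := rfl
  rw [h2, hG_eq_tor ax tabE6 hlt, hG_eq_tor ax tabE6 hlt, tor_inv, ← tor_mul, wF_val]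
  congr 1
  funext j
  simp [hW, mul_zpow]

theorem pair_25 : ∀ j, j < 6 → pair chevE6 25 (chevE6.simple j) = - pair chevE6 46 (chevE6.simple j) := by
  decide +kernel

lemma nb_hb' (c : Fˣ) : nbE ax * hbE ax c * (nbE ax)⁻¹ = hbE ax c⁻¹ := by
  apply Subtype.ext
  show nG ax 46 1 * tor chevE6 (hW chevE6 46 c) * (nG ax 46 1)⁻¹ = tor chevE6 (hW chevE6 46 c⁻¹)
  have e0 : sG ax 1 = nG ax 46 1 := by rw [sG, simple1]
  have h1 := conj_tor_hW ax 1 (by decide) 46 (by decide) c
  rw [e0, show chevE6.reflectRoot 1 46 = 25 by decide +kernel] at h1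
  rw [h1]
  apply tor_congr
  intro j hj
  show c ^ pair chevE6 25 (chevE6.simple j) = c⁻¹ ^ pair chevE6 46 (chevE6.simple j)
  rw [pair_25 j hj, zpow_neg, inv_zpow]

/-! ### Conjugacy of roots and generation -/

lemma inv_sign {η : F} (hη : η = 1 ∨ η = -1) (v : F) : η * (η * v) = v := by
  rcases hη with rfl | rfl <;> simp

lemma lconj' (r : ℕ) (hr : r < 72) :
    ∃ g : ↥(chevE6.group F), ∃ η : F, (η = 1 ∨ η = -1) ∧ ∀ u, g * xE ax 71 u * g⁻¹ = xE ax r (η * u) := by
  let P : ℕ → Prop := fun r => ∃ g : ↥(chevE6.group F), ∃ η : F, (η = 1 ∨ η = -1) ∧ ∀ u, g * xE ax 71 u * g⁻¹ = xE ax r (η * u)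
  have st : ∀ (i r c : ℕ), i < 6 → r < 72 → chevE6.reflectRoot i r = c → P r → P c := by
    rintro i r c hi hr rfl ⟨g, η, hη, h⟩
    obtain ⟨η', hη', h3⟩ := sE_conj ax i hi r hr
    refine ⟨sE ax i * g, η' * η, mul_sign hη' hη, fun u => ?_⟩
    have e1 : sE ax i * g * xE ax 71 u * (sE ax i * g)⁻¹ = sE ax i * (g * xE ax 71 u * g⁻¹) * (sE ax i)⁻¹ := by group
    rw [e1, h, h3, mul_assoc]
  have h71 : P 71 := ⟨1, 1, Or.inl rfl, fun u => by simp⟩
  have h70 := st 1 71 70 (by decide +kernel) (by decide +kernel) (by decide +kernel) h71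
  have h69 := st 3 70 69 (by decide +kernel) (by decide +kernel) (by decide +kernel) h70
  have h66 := st 2 69 66 (by decide +kernel) (by decide +kernel) (by decide +kernel) h69
  have h68 := st 4 69 68 (by decide +kernel) (by decide +kernel) (by decide +kernel) h69
  have h55 := st 0 66 55 (by decide +kernel) (by decide +kernel) (by decide +kernel) h66
  have h65 := st 4 66 65 (by decide +kernel) (by decide +kernel) (by decide +kernel) h66
  have h67 := st 5 68 67 (by decide +kernel) (by decide +kernel) (by decide +kernel) h68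
  have h54 := st 4 55 54 (by decide +kernel) (by decide +kernel) (by decide +kernel) h55
  have h63 := st 3 65 63 (by decide +kernel) (by decide +kernel) (by decide +kernel) h65
  have h64 := st 5 65 64 (by decide +kernel) (by decide +kernel) (by decide +kernel) h65
  have h52 := st 3 54 52 (by decide +kernel) (by decide +kernel) (by decide +kernel) h54
  have h53 := st 5 54 53 (by decide +kernel) (by decide +kernel) (by decide +kernel) h54
  have h60 := st 1 63 60 (by decide +kernel) (by decide +kernel) (by decide +kernel) h63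
  have h62 := st 5 63 62 (by decide +kernel) (by decide +kernel) (by decide +kernel) h63
  have h45 := st 1 52 45 (by decide +kernel) (by decide +kernel) (by decide +kernel) h52
  have h49 := st 2 52 49 (by decide +kernel) (by decide +kernel) (by decide +kernel) h52
  have h51 := st 5 52 51 (by decide +kernel) (by decide +kernel) (by decide +kernel) h52
  have h59 := st 5 60 59 (by decide +kernel) (by decide +kernel) (by decide +kernel) h60
  have h61 := st 4 62 61 (by decide +kernel) (by decide +kernel) (by decide +kernel) h62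
  have h41 := st 2 45 41 (by decide +kernel) (by decide +kernel) (by decide +kernel) h45
  have h44 := st 5 45 44 (by decide +kernel) (by decide +kernel) (by decide +kernel) h45
  have h48 := st 5 49 48 (by decide +kernel) (by decide +kernel) (by decide +kernel) h49
  have h50 := st 4 51 50 (by decide +kernel) (by decide +kernel) (by decide +kernel) h51
  have h58 := st 4 59 58 (by decide +kernel) (by decide +kernel) (by decide +kernel) h59
  have h38 := st 3 41 38 (by decide +kernel) (by decide +kernel) (by decide +kernel) h41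
  have h40 := st 5 41 40 (by decide +kernel) (by decide +kernel) (by decide +kernel) h41
  have h43 := st 4 44 43 (by decide +kernel) (by decide +kernel) (by decide +kernel) h44
  have h47 := st 4 48 47 (by decide +kernel) (by decide +kernel) (by decide +kernel) h48
  have h57 := st 3 58 57 (by decide +kernel) (by decide +kernel) (by decide +kernel) h58
  have h36 := st 4 38 36 (by decide +kernel) (by decide +kernel) (by decide +kernel) h38
  have h37 := st 5 38 37 (by decide +kernel) (by decide +kernel) (by decide +kernel) h38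
  have h39 := st 4 40 39 (by decide +kernel) (by decide +kernel) (by decide +kernel) h40
  have h42 := st 3 43 42 (by decide +kernel) (by decide +kernel) (by decide +kernel) h43
  have h46 := st 3 47 46 (by decide +kernel) (by decide +kernel) (by decide +kernel) h47
  have h56 := st 2 57 56 (by decide +kernel) (by decide +kernel) (by decide +kernel) h57
  have h35 := st 5 36 35 (by decide +kernel) (by decide +kernel) (by decide +kernel) h36
  have h34 := st 4 37 34 (by decide +kernel) (by decide +kernel) (by decide +kernel) h37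
  have h32 := st 3 39 32 (by decide +kernel) (by decide +kernel) (by decide +kernel) h39
  have h29 := st 2 42 29 (by decide +kernel) (by decide +kernel) (by decide +kernel) h42
  have h25 := st 1 46 25 (by decide +kernel) (by decide +kernel) (by decide +kernel) h46
  have h15 := st 0 56 15 (by decide +kernel) (by decide +kernel) (by decide +kernel) h56
  have h33 := st 4 35 33 (by decide +kernel) (by decide +kernel) (by decide +kernel) h35
  have h31 := st 3 34 31 (by decide +kernel) (by decide +kernel) (by decide +kernel) h34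
  have h24 := st 1 32 24 (by decide +kernel) (by decide +kernel) (by decide +kernel) h32
  have h28 := st 2 32 28 (by decide +kernel) (by decide +kernel) (by decide +kernel) h32
  have h14 := st 0 29 14 (by decide +kernel) (by decide +kernel) (by decide +kernel) h29
  have h30 := st 3 33 30 (by decide +kernel) (by decide +kernel) (by decide +kernel) h33
  have h23 := st 1 31 23 (by decide +kernel) (by decide +kernel) (by decide +kernel) h31
  have h27 := st 2 31 27 (by decide +kernel) (by decide +kernel) (by decide +kernel) h31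
  have h21 := st 2 24 21 (by decide +kernel) (by decide +kernel) (by decide +kernel) h24
  have h13 := st 0 28 13 (by decide +kernel) (by decide +kernel) (by decide +kernel) h28
  have h22 := st 1 30 22 (by decide +kernel) (by decide +kernel) (by decide +kernel) h30
  have h26 := st 2 30 26 (by decide +kernel) (by decide +kernel) (by decide +kernel) h30
  have h20 := st 2 23 20 (by decide +kernel) (by decide +kernel) (by decide +kernel) h23
  have h12 := st 0 27 12 (by decide +kernel) (by decide +kernel) (by decide +kernel) h27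
  have h10 := st 0 21 10 (by decide +kernel) (by decide +kernel) (by decide +kernel) h21
  have h19 := st 2 22 19 (by decide +kernel) (by decide +kernel) (by decide +kernel) h22
  have h11 := st 0 26 11 (by decide +kernel) (by decide +kernel) (by decide +kernel) h26
  have h9 := st 0 20 9 (by decide +kernel) (by decide +kernel) (by decide +kernel) h20
  have h18 := st 3 20 18 (by decide +kernel) (by decide +kernel) (by decide +kernel) h20
  have h8 := st 0 19 8 (by decide +kernel) (by decide +kernel) (by decide +kernel) h19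
  have h17 := st 3 19 17 (by decide +kernel) (by decide +kernel) (by decide +kernel) h19
  have h7 := st 3 9 7 (by decide +kernel) (by decide +kernel) (by decide +kernel) h9
  have h6 := st 3 8 6 (by decide +kernel) (by decide +kernel) (by decide +kernel) h8
  have h16 := st 4 17 16 (by decide +kernel) (by decide +kernel) (by decide +kernel) h17
  have h4 := st 2 7 4 (by decide +kernel) (by decide +kernel) (by decide +kernel) h7
  have h3 := st 2 6 3 (by decide +kernel) (by decide +kernel) (by decide +kernel) h6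
  have h5 := st 4 6 5 (by decide +kernel) (by decide +kernel) (by decide +kernel) h6
  have h2 := st 4 3 2 (by decide +kernel) (by decide +kernel) (by decide +kernel) h3
  have h1 := st 3 2 1 (by decide +kernel) (by decide +kernel) (by decide +kernel) h2
  have h0 := st 1 1 0 (by decide +kernel) (by decide +kernel) (by decide +kernel) h1
  show P r
  interval_cases r <;> assumption

lemma gen' (K : Subgroup ↥(chevE6.group F)) (hrt : ∀ i j : Fin 6, i ≠ j → ∀ u, xE ax (rt i j) u ∈ K)
    (h46 : ∀ u, xE ax 46 u ∈ K) (h25 : ∀ u, xE ax 25 u ∈ K) : K = ⊤ := by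
  have hneg : ∀ i, i < 6 → ((∀ u, xE ax (chevE6.simple i) u ∈ K) ∧ ∀ u, xE ax (chevE6.neg (chevE6.simple i)) u ∈ K) := by
    intro i hi
    interval_cases i
    · exact ⟨hrt 0 1 (by decide), hrt 1 0 (by decide)⟩
    · exact ⟨h46, h25⟩
    · exact ⟨hrt 1 2 (by decide), hrt 2 1 (by decide)⟩
    · exact ⟨hrt 2 3 (by decide), hrt 3 2 (by decide)⟩
    · exact ⟨hrt 3 4 (by decide), hrt 4 3 (by decide)⟩
    · exact ⟨hrt 4 5 (by decide), hrt 5 4 (by decide)⟩
  have hsK : ∀ i, i < 6 → sE ax i ∈ K := by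
    intro i hi
    obtain ⟨h1, h2⟩ := hneg i hi
    have : sE ax i = xE ax (chevE6.simple i) 1 * xE ax (chevE6.neg (chevE6.simple i)) (-(1 : F)⁻¹) * xE ax (chevE6.simple i) 1 := by
      apply Subtype.ext
      rfl
    rw [this]
    exact mul_mem (mul_mem (h1 _) (h2 _)) (h1 _)
  have st : ∀ (i r c : ℕ), i < 6 → r < 72 → chevE6.reflectRoot i r = c → (∀ v, xE ax r v ∈ K) → ∀ v, xE ax c v ∈ K := by
    rintro i r c hi hr rfl h v
    obtain ⟨η, hη, e⟩ := sE_conj ax i hi r hr
    have := e (η * v)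
    rw [inv_sign hη] at this
    rw [← this]
    exact mul_mem (mul_mem (hsK i hi) (h _)) (inv_mem (hsK i hi))
  have h56 : ∀ v, xE ax 56 v ∈ K := hrt 0 1 (by decide)
  have h57 : ∀ v, xE ax 57 v ∈ K := hrt 0 2 (by decide)
  have h58 : ∀ v, xE ax 58 v ∈ K := hrt 0 3 (by decide)
  have h59 : ∀ v, xE ax 59 v ∈ K := hrt 0 4 (by decide)
  have h60 : ∀ v, xE ax 60 v ∈ K := hrt 0 5 (by decide)
  have h15 : ∀ v, xE ax 15 v ∈ K := hrt 1 0 (by decide)
  have h42 : ∀ v, xE ax 42 v ∈ K := hrt 1 2 (by decide)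
  have h43 : ∀ v, xE ax 43 v ∈ K := hrt 1 3 (by decide)
  have h44 : ∀ v, xE ax 44 v ∈ K := hrt 1 4 (by decide)
  have h45 : ∀ v, xE ax 45 v ∈ K := hrt 1 5 (by decide)
  have h14 : ∀ v, xE ax 14 v ∈ K := hrt 2 0 (by decide)
  have h29 : ∀ v, xE ax 29 v ∈ K := hrt 2 1 (by decide)
  have h39 : ∀ v, xE ax 39 v ∈ K := hrt 2 3 (by decide)
  have h40 : ∀ v, xE ax 40 v ∈ K := hrt 2 4 (by decide)
  have h41 : ∀ v, xE ax 41 v ∈ K := hrt 2 5 (by decide)
  have h13 : ∀ v, xE ax 13 v ∈ K := hrt 3 0 (by decide)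
  have h28 : ∀ v, xE ax 28 v ∈ K := hrt 3 1 (by decide)
  have h32 : ∀ v, xE ax 32 v ∈ K := hrt 3 2 (by decide)
  have h37 : ∀ v, xE ax 37 v ∈ K := hrt 3 4 (by decide)
  have h38 : ∀ v, xE ax 38 v ∈ K := hrt 3 5 (by decide)
  have h12 : ∀ v, xE ax 12 v ∈ K := hrt 4 0 (by decide)
  have h27 : ∀ v, xE ax 27 v ∈ K := hrt 4 1 (by decide)
  have h31 : ∀ v, xE ax 31 v ∈ K := hrt 4 2 (by decide)
  have h34 : ∀ v, xE ax 34 v ∈ K := hrt 4 3 (by decide)
  have h36 : ∀ v, xE ax 36 v ∈ K := hrt 4 5 (by decide)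
  have h11 : ∀ v, xE ax 11 v ∈ K := hrt 5 0 (by decide)
  have h26 : ∀ v, xE ax 26 v ∈ K := hrt 5 1 (by decide)
  have h30 : ∀ v, xE ax 30 v ∈ K := hrt 5 2 (by decide)
  have h33 : ∀ v, xE ax 33 v ∈ K := hrt 5 3 (by decide)
  have h35 : ∀ v, xE ax 35 v ∈ K := hrt 5 4 (by decide)
  have h8 : ∀ v, xE ax 8 v ∈ K := st 1 11 8 (by decide +kernel) (by decide +kernel) (by decide +kernel) h11
  have h9 : ∀ v, xE ax 9 v ∈ K := st 1 12 9 (by decide +kernel) (by decide +kernel) (by decide +kernel) h12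
  have h10 : ∀ v, xE ax 10 v ∈ K := st 1 13 10 (by decide +kernel) (by decide +kernel) (by decide +kernel) h13
  have h24 : ∀ v, xE ax 24 v ∈ K := st 3 25 24 (by decide +kernel) (by decide +kernel) (by decide +kernel) h25
  have h19 : ∀ v, xE ax 19 v ∈ K := st 1 26 19 (by decide +kernel) (by decide +kernel) (by decide +kernel) h26
  have h20 : ∀ v, xE ax 20 v ∈ K := st 1 27 20 (by decide +kernel) (by decide +kernel) (by decide +kernel) h27
  have h21 : ∀ v, xE ax 21 v ∈ K := st 1 28 21 (by decide +kernel) (by decide +kernel) (by decide +kernel) h28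
  have h22 : ∀ v, xE ax 22 v ∈ K := st 1 30 22 (by decide +kernel) (by decide +kernel) (by decide +kernel) h30
  have h23 : ∀ v, xE ax 23 v ∈ K := st 1 31 23 (by decide +kernel) (by decide +kernel) (by decide +kernel) h31
  have h47 : ∀ v, xE ax 47 v ∈ K := st 1 39 47 (by decide +kernel) (by decide +kernel) (by decide +kernel) h39
  have h48 : ∀ v, xE ax 48 v ∈ K := st 1 40 48 (by decide +kernel) (by decide +kernel) (by decide +kernel) h40
  have h49 : ∀ v, xE ax 49 v ∈ K := st 1 41 49 (by decide +kernel) (by decide +kernel) (by decide +kernel) h41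
  have h50 : ∀ v, xE ax 50 v ∈ K := st 1 43 50 (by decide +kernel) (by decide +kernel) (by decide +kernel) h43
  have h51 : ∀ v, xE ax 51 v ∈ K := st 1 44 51 (by decide +kernel) (by decide +kernel) (by decide +kernel) h44
  have h52 : ∀ v, xE ax 52 v ∈ K := st 1 45 52 (by decide +kernel) (by decide +kernel) (by decide +kernel) h45
  have h61 : ∀ v, xE ax 61 v ∈ K := st 1 58 61 (by decide +kernel) (by decide +kernel) (by decide +kernel) h58
  have h62 : ∀ v, xE ax 62 v ∈ K := st 1 59 62 (by decide +kernel) (by decide +kernel) (by decide +kernel) h59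
  have h63 : ∀ v, xE ax 63 v ∈ K := st 1 60 63 (by decide +kernel) (by decide +kernel) (by decide +kernel) h60
  have h6 : ∀ v, xE ax 6 v ∈ K := st 3 8 6 (by decide +kernel) (by decide +kernel) (by decide +kernel) h8
  have h7 : ∀ v, xE ax 7 v ∈ K := st 3 9 7 (by decide +kernel) (by decide +kernel) (by decide +kernel) h9
  have h17 : ∀ v, xE ax 17 v ∈ K := st 3 19 17 (by decide +kernel) (by decide +kernel) (by decide +kernel) h19
  have h18 : ∀ v, xE ax 18 v ∈ K := st 3 20 18 (by decide +kernel) (by decide +kernel) (by decide +kernel) h20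
  have h53 : ∀ v, xE ax 53 v ∈ K := st 3 51 53 (by decide +kernel) (by decide +kernel) (by decide +kernel) h51
  have h54 : ∀ v, xE ax 54 v ∈ K := st 3 52 54 (by decide +kernel) (by decide +kernel) (by decide +kernel) h52
  have h64 : ∀ v, xE ax 64 v ∈ K := st 3 62 64 (by decide +kernel) (by decide +kernel) (by decide +kernel) h62
  have h65 : ∀ v, xE ax 65 v ∈ K := st 3 63 65 (by decide +kernel) (by decide +kernel) (by decide +kernel) h63
  have h3 : ∀ v, xE ax 3 v ∈ K := st 2 6 3 (by decide +kernel) (by decide +kernel) (by decide +kernel) h6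
  have h5 : ∀ v, xE ax 5 v ∈ K := st 4 6 5 (by decide +kernel) (by decide +kernel) (by decide +kernel) h6
  have h4 : ∀ v, xE ax 4 v ∈ K := st 2 7 4 (by decide +kernel) (by decide +kernel) (by decide +kernel) h7
  have h16 : ∀ v, xE ax 16 v ∈ K := st 4 17 16 (by decide +kernel) (by decide +kernel) (by decide +kernel) h17
  have h55 : ∀ v, xE ax 55 v ∈ K := st 4 54 55 (by decide +kernel) (by decide +kernel) (by decide +kernel) h54
  have h67 : ∀ v, xE ax 67 v ∈ K := st 2 64 67 (by decide +kernel) (by decide +kernel) (by decide +kernel) h64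
  have h68 : ∀ v, xE ax 68 v ∈ K := st 2 65 68 (by decide +kernel) (by decide +kernel) (by decide +kernel) h65
  have h66 : ∀ v, xE ax 66 v ∈ K := st 4 65 66 (by decide +kernel) (by decide +kernel) (by decide +kernel) h65
  have h2 : ∀ v, xE ax 2 v ∈ K := st 4 3 2 (by decide +kernel) (by decide +kernel) (by decide +kernel) h3
  have h69 : ∀ v, xE ax 69 v ∈ K := st 4 68 69 (by decide +kernel) (by decide +kernel) (by decide +kernel) h68
  have h1 : ∀ v, xE ax 1 v ∈ K := st 3 2 1 (by decide +kernel) (by decide +kernel) (by decide +kernel) h2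
  have h70 : ∀ v, xE ax 70 v ∈ K := st 3 69 70 (by decide +kernel) (by decide +kernel) (by decide +kernel) h69
  have h0 : ∀ v, xE ax 0 v ∈ K := st 1 1 0 (by decide +kernel) (by decide +kernel) (by decide +kernel) h1
  have h71 : ∀ v, xE ax 71 v ∈ K := st 1 70 71 (by decide +kernel) (by decide +kernel) (by decide +kernel) h70
  have hall : ∀ r, r < 72 → ∀ v, xE ax r v ∈ K := by
    intro r hr
    interval_cases r <;> assumption
  have hle : chevE6.group F ≤ K.map (chevE6.group F).subtype := by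
    refine (Subgroup.closure_le _).mpr ?_
    rintro g ⟨r, t, hg⟩
    have hr : (r : ℕ) < 72 := r.isLt
    refine ⟨xE ax r t, hall r hr t, ?_⟩
    apply Units.ext
    show chevE6.x F r t = _
    rw [hg]
    exact x_eq_xMat6 (r : ℕ) r.isLt t
  rw [eq_top_iff]
  intro g _
  obtain ⟨y, hy, hyg⟩ := hle g.2
  have : y = g := Subtype.ext hyg
  rwa [← this]

end InstAux

open InstAux in
/-- The system, given the homomorphism from `SL₆(F)`. -/
theorem exists_sys_of_slh (F : Type*) [Field F] (ax : Ax chevE6 F) (ste : Fin 6 → Fin 6 → F)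
    (ste_sign : ∀ i j, ste i j = 1 ∨ ste i j = -1)
    (slh : Matrix.SpecialLinearGroup (Fin 6) F →* ↥(chevE6.group F))
    (slh_tr : ∀ i j (h : i ≠ j) (a : F), slh (Matrix.SpecialLinearGroup.transvection h a) = xE ax (rt i j) (ste i j * a)) :
    Nonempty (SysE F ↥(chevE6.group F)) :=
  ⟨{
    x := xE ax
    x_add := fun r _ a b => xE_add ax r a b
    tt := tt' ax
    uu := uu' ax
    eps := epsE
    eps_sign := fun T => sgnOf_sign _
    uc := uc' ax
    sg := sgE
    sg_sign := fun i j T => sgnOf_sign _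
    lt := lt' ax
    lu0 := lu0' ax
    lu := lu' ax
    wL := wE ax
    w_conj := w_conj' ax
    w_th := w_th' ax
    hL := hLE ax
    hL_gam := hL_gam' ax
    hL_th := hL_th' ax
    hb := hbE ax
    hb_mul := hb_mul' ax
    hb_th := hb_th' ax
    hb_gam := hb_gam' ax
    hb_β := hb_β' ax
    nb := nbE ax
    nb_eq := nb_eq' ax
    nb_conj := nb_conj' ax
    nb_hb := nb_hb' ax
    lconj := lconj' ax
    gen := gen' ax
    slh := slh
    ste := ste
    ste_sign := ste_sign
    slh_tr := slh_tr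
  }⟩

end Cfsg.Agent.Lib.MinE6
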