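import Cfsg.Agent.Lib.MinE6.Sys
import Cfsg.Agent.Lib.Chev.Ax
import Cfsg.Agent.Lib.Classical.StSLn
import Cfsg.Agent.Lib.Schur.SLnStem
import Cfsg.Agent.Lib.Schur.SLnStem2
import Cfsg.Agent.S1063

/-! The homomorphism `SL₆(F) → E₆(F)` and the order (module J of S2340). -/

set_option autoImplicit false
set_option linter.unusedSectionVars false
set_option linter.unusedVariables false
set_option linter.style.haveILetI false

namespace Cfsg.Agent.Lib.MinE6.InstB

open Cfsg Lie Matrix Cfsg.Agent.Lib.Chev
open Cfsg.Agent.Lib.Classical.StSLn (Rel Xc pG x_mem Xc_le inj_all)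
open scoped MatrixGroups

/-- A family with the Steinberg relations over a finite field is the image of the transvections under a homomorphism. -/
theorem exists_hom_of_rel {J K Γ : Type*} [Fintype J] [DecidableEq J] [Field K] [Finite K] [Group Γ]
    (hn : 3 ≤ Fintype.card J) (x : J → J → K → Γ) (R : Rel x) :
    ∃ f : SpecialLinearGroup J K →* Γ, ∀ i j (h : i ≠ j) t,
      f (SpecialLinearGroup.transvection h t) = x i j t := by
  classical
  let tt := (Cfsg.Agent.Lib.Schur.SLnStem.tt : J → J → K → SpecialLinearGroup J K)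
  have Rt : Rel tt := Cfsg.Agent.Lib.Schur.SLnStem.tt_rel
  let y : J → J → K → Γ × SpecialLinearGroup J K := fun i j t => (x i j t, tt i j t)
  have hR : Rel y := by
    refine ⟨fun i j h t u => ?_, fun i j k l hij hkl hjk hil t u => ?_, fun i j l hij hjl hil t u => ?_⟩
    · exact Prod.ext (R.add i j h t u) (Rt.add i j h t u)
    · exact Prod.ext (R.comm i j k l hij hkl hjk hil t u) (Rt.comm i j k l hij hkl hjk hil t u)
    · exact Prod.ext (R.comm2 i j l hij hjl hil t u) (Rt.comm2 i j l hij hjl hil t u)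
  let φ : Γ × SpecialLinearGroup J K →* SpecialLinearGroup J K := MonoidHom.snd _ _
  have h3 : ∀ i j : J, ∃ k, k ≠ i ∧ k ≠ j := by
    intro i j
    obtain ⟨k, h1, h2⟩ := Cfsg.Agent.Lib.Classical.Transvections.exists_third_index hn i j
    exact ⟨k, h1.symm, h2⟩
  have hinj := inj_all φ hR (fun i j hij t => Cfsg.Agent.Lib.Schur.SLnStem.tt_coe hij t) h3 Finset.univ
  let X := Xc y (pG Finset.univ)
  let φ' : X →* SpecialLinearGroup J K := φ.comp X.subtype
  have hbij : Function.Bijective φ' := by
    constructor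
    · rw [injective_iff_map_eq_one]
      rintro ⟨g, hg⟩ hg1
      exact Subtype.ext (hinj g hg hg1)
    · have hNon : Nontrivial J := Fintype.one_lt_card_iff_nontrivial.1 (by omega)
      rw [← MonoidHom.range_eq_top, eq_top_iff,
        ← Cfsg.Agent.Lib.Classical.Transvections.closure_transvections_eq_top (F := K), Subgroup.closure_le]
      rintro _ ⟨i, j, hij, a, rfl⟩
      refine ⟨⟨y i j a, x_mem hij ⟨Finset.mem_univ _, Finset.mem_univ _⟩ a⟩, ?_⟩
      exact Cfsg.Agent.Lib.Schur.SLnStem.tt_of_ne hij a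
  let E := MulEquiv.ofBijective φ' hbij
  refine ⟨(MonoidHom.fst _ _).comp (X.subtype.comp E.symm.toMonoidHom), fun i j h t => ?_⟩
  have h1 : E ⟨y i j t, x_mem h ⟨Finset.mem_univ _, Finset.mem_univ _⟩ t⟩ = SpecialLinearGroup.transvection h t :=
    Cfsg.Agent.Lib.Schur.SLnStem.tt_of_ne h t
  have h2 : E.symm (SpecialLinearGroup.transvection h t) = ⟨y i j t, x_mem h ⟨Finset.mem_univ _, Finset.mem_univ _⟩ t⟩ := by
    rw [← h1, E.symm_apply_apply]
  change ((E.symm (SpecialLinearGroup.transvection h t) : X) : Γ × SpecialLinearGroup J K).1 = _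
  rw [h2]

/-! ### The relations in `chevE6` -/

theorem terms_comm : ∀ i j l : Fin 6, i ≠ j → j ≠ l → i ≠ l →
    chevE6.commTerms (rt i j) (rt j l) = [(rt i l, -1, 1, 1)] := by decide +kernel

theorem terms_disj : ∀ i j k l : Fin 6, i ≠ j → k ≠ l → j ≠ k → i ≠ l → (i, j) ≠ (k, l) →
    chevE6.commTerms (rt i j) (rt k l) = [] := by decide +kernel

theorem rt_lt : ∀ i j : Fin 6, rt i j < chevE6.nroots := by decide +kernel

theorem rt_inj : ∀ i j k l : Fin 6, i ≠ j → k ≠ l → rt i j = rt k l → (i, j) = (k, l) := by decide +kernel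

theorem rt_neg : ∀ i j : Fin 6, i ≠ j → chevE6.neg (rt i j) = rt j i := by decide +kernel

section

open AxBasic

variable {F : Type*} [Field F] (ax : Ax chevE6 F)

/-- The root elements in the group. -/
noncomputable def xG6 (r : ℕ) (t : F) : GL chevE6.Idx F := xG ax r t

/-- The Steinberg family in `GL`: `x' i j a = x_{rt i j}(-a)`. -/
noncomputable def xS (i j : Fin 6) (a : F) : GL chevE6.Idx F := xG ax (rt i j) (-a)

theorem rel_xS : Rel (xS ax : Fin 6 → Fin 6 → F → GL chevE6.Idx F) := by
  refine ⟨fun i j h t u => ?_, fun i j k l hij hkl hjk hil t u => ?_, fun i j l hij hjl hil t u => ?_⟩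
  · simp only [xS]
    rw [xG_add, neg_add]
  · simp only [xS]
    by_cases he : (i, j) = (k, l)
    · obtain ⟨rfl, rfl⟩ := Prod.mk.inj he
      rw [xG_add, xG_add, add_comm]
    · have hrs : rt i j ≠ rt k l := fun h => he (rt_inj i j k l hij hkl h)
      have hneg : rt i j ≠ chevE6.neg (rt k l) := by
        rw [rt_neg k l hkl]
        intro h
        have := rt_inj i j l k hij hkl.symm h
        exact hjk (Prod.mk.inj this).2
      have h := xG_comm ax (r := rt k l) (s := rt i j) (rt_lt k l) (rt_lt i j) hrs hneg (-u) (-t)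
      have e : chevE6.commTerms (rt k l) (rt i j) = [] :=
        terms_disj k l i j hkl hij hil.symm hjk.symm (fun h => he (Prod.ext (Prod.mk.inj h).1.symm (Prod.mk.inj h).2.symm))
      simp only [ChevalleyDatum.commWord, e, wordG, List.map_nil, List.prod_nil, mul_one] at h
      exact h
  · simp only [xS]
    have hij' : rt j l ≠ rt i j := fun h => by
      have := rt_inj j l i j hjl hij h
      exact hij (Prod.mk.inj this).1.symm
    have hneg : rt j l ≠ chevE6.neg (rt i j) := by
      rw [rt_neg i j hij]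
      intro h
      have := rt_inj j l j i hjl hij.symm h
      exact hil (Prod.mk.inj this).2.symm
    have h := xG_comm ax (r := rt i j) (s := rt j l) (rt_lt i j) (rt_lt j l) hij' hneg t u
    have e := terms_comm i j l hij hjl hil
    simp only [ChevalleyDatum.commWord, e, wordG, List.map_cons, List.map_nil, List.prod_cons, List.prod_nil,
      mul_one] at h
    have e0 : (((-1 : ℤ) : F)) * (-t) ^ 1 * u ^ 1 = t * u := by push_cast; ring
    rw [e0] at h
    rw [← xG_inv, ← xG_inv, ← xG_inv, inv_inv, inv_inv]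
    have hC : xG ax (rt i l) (t * u) = (xG ax (rt i j) t * xG ax (rt j l) u)⁻¹ * (xG ax (rt j l) u * xG ax (rt i j) t) := by
      rw [h]
      group
    rw [hC]
    group

lemma xG_mem_group (r : ℕ) (hr : r < chevE6.nroots) (t : F) : xG ax r t ∈ chevE6.group F :=
  Subgroup.subset_closure ⟨⟨r, hr⟩, t, by rw [xG_val]; simp [ChevalleyDatum.x, hr]⟩

/-- The homomorphism `SL₆(F) → E₆(F)`: the transvection `T_ij(a)` goes to `x_{rt i j}(-a)`. -/
theorem exists_slh [Finite F] : ∃ slh : SpecialLinearGroup (Fin 6) F →* ↥(chevE6.group F),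
    ∀ i j (h : i ≠ j) (a : F), ((slh (SpecialLinearGroup.transvection h a) : ↥(chevE6.group F)) : GL chevE6.Idx F)
      = xG ax (rt i j) (-a) := by
  let x' : Fin 6 → Fin 6 → F → ↥(chevE6.group F) := fun i j a => ⟨xS ax i j a, xG_mem_group ax _ (rt_lt i j) _⟩
  have R := rel_xS ax
  have hR : Rel x' := by
    refine ⟨fun i j h t u => Subtype.ext (R.add i j h t u), fun i j k l hij hkl hjk hil t u => Subtype.ext (R.comm i j k l hij hkl hjk hil t u),
      fun i j l hij hjl hil t u => Subtype.ext (R.comm2 i j l hij hjl hil t u)⟩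
  obtain ⟨f, hf⟩ := exists_hom_of_rel (by simp) x' hR
  refine ⟨f, fun i j h a => ?_⟩
  rw [hf i j h a]
  rfl

end

/-- The order of the group divides `NN q`. -/
theorem card_dvd (F : Type*) [Field F] [Fintype F] : Nat.card ↥(chevE6.group F) ∣ NN (Fintype.card F) := by
  have h := Cfsg.Agent.S1063.result (F := F) rfl
  refine Dvd.intro_left (Nat.gcd 3 (Fintype.card F - 1)) ?_
  rw [h, NN]
  ring

end Cfsg.Agent.Lib.MinE6.InstB
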