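import Cfsg.Agent.Lib.MinE6.Sys
import Cfsg.Agent.Lib.MinE6.InstB
import Cfsg.Agent.Lib.MinE6.InstA
import Cfsg.Agent.Lib.Lie.AxOf
import Cfsg.Agent.Lib.ReeG2.RTD
import Cfsg.Agent.Lib.Chev.Order3
import Cfsg.Agent.Lib.Chev.OrderData.E6

/-! The system of relations in `chevE6.group F`. -/

set_option autoImplicit false
set_option linter.unusedSectionVars false
set_option linter.unusedVariables false

namespace Cfsg.Agent.Lib.MinE6

open Cfsg Lie

/-- The instance (compare `MinG2.Inst`), `x r t = ⟨xG ax r t, _⟩`, `wL i j = nG (rt i j) 1`, `hL i j s = hG (rt i j) s`, `hb = hG 46`, `nb = nG 46 1`. -/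
theorem exists_sys (F : Type*) [Field F] [Fintype F] : Nonempty (SysE F ↥(chevE6.group F)) := by
  have ax : Cfsg.Agent.Lib.Chev.AxBasic.Ax chevE6 F := Cfsg.Agent.Lib.Lie.AxOf.ax_of_mem InstAux.hmemE6
  obtain ⟨slh, hslh⟩ := InstB.exists_slh ax
  refine exists_sys_of_slh F ax (fun _ _ => -1) (fun _ _ => Or.inr rfl) slh (fun i j h a => Subtype.ext ?_)
  rw [hslh i j h a]
  show _ = Cfsg.Agent.Lib.Chev.AxBasic.xG ax (rt i j) (-1 * a)
  rw [neg_one_mul]

/-- The order of the group divides `NN q`. -/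
theorem card_dvd (F : Type*) [Field F] [Fintype F] : Nat.card ↥(chevE6.group F) ∣ NN (Fintype.card F) :=
  InstB.card_dvd F

end Cfsg.Agent.Lib.MinE6
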