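import Cfsg.Agent.Lib.MinE6.Basic

/-! The weights in the fixed vectors of `x 71`: invariance, the first numerical relations. -/

set_option autoImplicit false
set_option linter.unusedSectionVars false
set_option linter.unusedVariables false

namespace Cfsg.Agent.Lib.MinE6

open Module
open scoped Classical

variable {F : Type*} [Field F] {Γ : Type*} [Group Γ] {V : Type*} [AddCommGroup V] [Module ℂ V]
variable {S : SysE F Γ} {ρ : Representation ℂ Γ V} {ψ : AddChar F ℂ}

/-- The invariance of a weight function on `F²⁰`. -/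
structure InvE (sg : Fin 6 → Fin 6 → S3 → F) (n : (S3 → F) → ℕ) : Prop where
  A : ∀ i j, i ≠ j → ∀ (t : F) c, n c = n (actA sg i j t c)
  torus : ∀ i j, i ≠ j → ∀ (s : Fˣ) c, n c = n (fun T => c T * ((s ^ pw i j T : Fˣ) : F))
  swap : ∀ i j, i ≠ j → ∃ ε : S3 → F, (∀ T, ε T = 1 ∨ ε T = -1) ∧ ∀ c, n c = n (fun T => ε T * c (swp i j T))

namespace InvPartA

private lemma act (a b : Γ) (v : V) : ρ a (ρ b v) = ρ (a * b) v := by
  rw [map_mul, Module.End.mul_apply]

lemma mem_clistW {c : S3 → F} {v : V} : v ∈ Wt S ρ ψ (clist c) ↔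
    (∀ u, ρ (S.x 71 u) v = v) ∧ ∀ T u, ρ (S.x (gam T) u) v = ψ (c T * u) • v := by
  rw [mem_Wt]
  constructor
  · intro h
    refine ⟨fun u => ?_, fun T u => h (gam T, c T) (mem_clist.mpr (Or.inr ⟨T, rfl⟩)) u⟩
    have := h (71, 0) (mem_clist.mpr (Or.inl rfl)) u
    simpa using this
  · rintro ⟨h1, h2⟩ p hp u
    rcases mem_clist.mp hp with rfl | ⟨T, rfl⟩
    · simpa using h1 u
    · exact h2 T u

lemma sq_sign {e : F} (h : e = 1 ∨ e = -1) : e * e = 1 := by
  rcases h with rfl | rfl <;> ring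

lemma mv_not {i j : Fin 6} {T : S3} (hij : i ≠ j) (h : j ∈ T.1 ∧ i ∉ T.1) :
    ¬ (j ∈ (mv i j T).1 ∧ i ∉ (mv i j T).1) := by
  rintro ⟨-, h2⟩
  apply h2
  simp [mv, h]

lemma actA_actA (sg : Fin 6 → Fin 6 → S3 → F) {i j : Fin 6} (hij : i ≠ j) (t : F) (c : S3 → F) :
    actA sg i j (-t) (actA sg i j t c) = c := by
  funext T
  unfold actA
  by_cases h : j ∈ T.1 ∧ i ∉ T.1
  · rw [if_pos h, if_pos h, if_neg (mv_not hij h)]
    ring
  · rw [if_neg h, if_neg h]

lemma x_map {i j : Fin 6} (hij : i ≠ j) (t : F) {c : S3 → F} {v : V} (hv : v ∈ Wt S ρ ψ (clist c)) :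
    ρ (S.x (rt i j) t) v ∈ Wt S ρ ψ (clist (actA S.sg i j t c)) := by
  obtain ⟨h71, hT⟩ := mem_clistW.mp hv
  refine mem_clistW.mpr ⟨fun u => ?_, fun T u => ?_⟩
  · rw [act, S.lt i j hij u t, ← act, h71]
  · unfold actA
    by_cases h : j ∈ T.1 ∧ i ∉ T.1
    · rw [if_pos h, act, S.lu i j T hij h.1 h.2 u t]
      simp only [map_mul, Module.End.mul_apply, hT, map_smul, smul_smul]
      simp only [← AddChar.map_add_eq_mul]
      congr 2
      ring
    · rw [if_neg h, act, S.lu0 i j T hij h u t, ← act, hT, map_smul]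

lemma h_conj {g : Γ} {r r' : ℕ} {η : F} (h : ∀ u, g * S.x r u * g⁻¹ = S.x r' (η * u)) (u : F) :
    S.x r' (η * u) * g = g * S.x r u := by
  rw [← h u]
  group

lemma h_conj_inv {g : Γ} {r r' : ℕ} {η : F} (h : ∀ u, g * S.x r u * g⁻¹ = S.x r' (η * u)) (u : F) :
    S.x r u * g⁻¹ = g⁻¹ * S.x r' (η * u) := by
  rw [← h u]
  group

end InvPartA

open InvPartA in
/-- `x (rt i j) t` moves `c` by `actA` (relations `lt`, `lu0`, `lu`), `hL i j s` by the scaling, `wL i j` by the swap. -/
theorem inv_nf [FiniteDimensional ℂ V] : InvE S.sg (nfE S ρ ψ) := by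
  refine ⟨?_, ?_, ?_⟩
  · intro i j hij t c
    show wr S ρ ψ _ = wr S ρ ψ _
    refine wr_eq_of_maps (S.x (rt i j) t) (fun v hv => x_map hij t hv) (fun v hv => ?_)
    have hrt : rt i j < 72 := by
      have : ∀ i j : Fin 6, rt i j < 72 := by decide
      exact this i j
    rw [x_inv S _ hrt t]
    have h := x_map hij (-t) hv
    rwa [actA_actA _ hij] at h
  · intro i j hij s c
    show wr S ρ ψ _ = wr S ρ ψ _
    refine wr_eq_of_maps (S.hL i j s)⁻¹ (fun v hv => ?_) (fun v hv => ?_)
    · obtain ⟨h71, hT⟩ := mem_clistW.mp hv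
      refine mem_clistW.mpr ⟨fun u => ?_, fun T u => ?_⟩
      · have e : S.x 71 u * (S.hL i j s)⁻¹ = (S.hL i j s)⁻¹ * S.x 71 u := by
          conv_rhs => rw [← S.hL_th i j hij s u]
          group
        rw [InvPartA.act, e, ← InvPartA.act, h71]
      · rw [InvPartA.act, h_conj_inv (S.hL_gam i j hij s T) u, ← InvPartA.act, hT, map_smul]
        congr 2
        ring
    · rw [inv_inv]
      obtain ⟨h71, hT⟩ := mem_clistW.mp hv
      refine mem_clistW.mpr ⟨fun u => ?_, fun T u => ?_⟩
      · have e : S.x 71 u * S.hL i j s = S.hL i j s * S.x 71 u := by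
          conv_lhs => rw [← S.hL_th i j hij s u]
          group
        rw [InvPartA.act, e, ← InvPartA.act, h71]
      · set χ : Fˣ := s ^ pw i j T with hχ
        have e := h_conj (S.hL_gam i j hij s T) (((χ⁻¹ : Fˣ) : F) * u)
        rw [← hχ, ← mul_assoc, Units.mul_inv, one_mul] at e
        rw [InvPartA.act, e, ← InvPartA.act, hT, map_smul]
        congr 2
        rw [← hχ]
        calc c T * (χ : F) * (((χ⁻¹ : Fˣ) : F) * u) = c T * (((χ : F) * ((χ⁻¹ : Fˣ) : F)) * u) := by ring
          _ = c T * u := by rw [Units.mul_inv, one_mul]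
  · intro i j hij
    choose η hηs hη using fun T => S.w_conj i j hij T
    obtain ⟨θ, hθs, hθ⟩ := S.w_th i j hij
    have hswp : ∀ T, swp i j (swp i j T) = T := by
      intro T
      apply Subtype.ext
      ext a
      simp [swp]
    refine ⟨fun T => η (swp i j T), fun T => hηs _, ?_⟩
    intro c
    show wr S ρ ψ _ = wr S ρ ψ _
    refine wr_eq_of_maps (S.wL i j) (fun v hv => ?_) (fun v hv => ?_)
    · obtain ⟨h71, hT⟩ := mem_clistW.mp hv
      refine mem_clistW.mpr ⟨fun u => ?_, fun T u => ?_⟩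
      · have e := h_conj hθ (θ * u)
        rw [← mul_assoc, sq_sign hθs, one_mul] at e
        rw [InvPartA.act, e, ← InvPartA.act, h71]
      · have e := h_conj (hη (swp i j T)) (η (swp i j T) * u)
        rw [← mul_assoc, sq_sign (hηs _), one_mul, hswp] at e
        rw [InvPartA.act, e, ← InvPartA.act, hT, map_smul]
        congr 2
        ring
    · obtain ⟨h71, hT⟩ := mem_clistW.mp hv
      refine mem_clistW.mpr ⟨fun u => ?_, fun T u => ?_⟩
      · rw [InvPartA.act, h_conj_inv hθ u, ← InvPartA.act, h71]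
      · rw [InvPartA.act, h_conj_inv (hη T) u, ← InvPartA.act, hT, map_smul]
        simp only [hswp]
        congr 2
        calc η T * c T * (η T * u) = (η T * η T) * (c T * u) := by ring
          _ = c T * u := by rw [sq_sign (hηs T), one_mul]

namespace InvPartA

/-- `h_β⁻¹` conjugation. -/
lemma h_conj_inv' (L : Fˣ) (u : F) : S.x 71 u * (S.hb L)⁻¹ = (S.hb L)⁻¹ * S.x 71 ((L : F) * u) := by
  rw [← S.hb_th L u]
  group

/-- The list of an enumeration. -/
noncomputable def lst {n : ℕ} (e : Fin n → S3) (c : Fin n → F) : List (ℕ × F) :=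
  List.ofFn fun k => (gam (e k), c k)

/-- `x (gam T)` stabilises a weight space containing `(71, 0)` made of `x 71`, `x (gam _)`. -/
lemma stab {A : List (ℕ × F)} (h71 : (71, (0 : F)) ∈ A) (hA : ∀ p ∈ A, p = (71, 0) ∨ ∃ T a, p = (gam T, a))
    (T : S3) {v : V} (hv : v ∈ Wt S ρ ψ A) (u : F) : ρ (S.x (gam T) u) v ∈ Wt S ρ ψ A := by
  have hz : ∀ w, ρ (S.x 71 w) v = v := by
    intro w
    have := (mem_Wt.mp hv) (71, 0) h71 w
    simpa using this
  rw [mem_Wt]
  intro p hp w
  rcases hA p hp with rfl | ⟨T', a, rfl⟩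
  · show ρ (S.x 71 w) (ρ (S.x (gam T) u) v) = ψ (0 * w) • ρ (S.x (gam T) u) v
    rw [act, S.tt T w u, ← act, hz, zero_mul, AddChar.map_zero_eq_one, one_smul]
  · have ha : ρ (S.x (gam T') w) v = ψ (a * w) • v := (mem_Wt.mp hv) (gam T', a) hp w
    show ρ (S.x (gam T') w) (ρ (S.x (gam T) u) v) = ψ (a * w) • ρ (S.x (gam T) u) v
    by_cases hT : T' = compl3 T
    · subst hT
      have hc := S.uc T u w
      have e : ρ (S.x (gam T) u) (ρ (S.x (gam (compl3 T)) w) v) = ρ (S.x (gam (compl3 T)) w) (ρ (S.x (gam T) u) v) := by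
        rw [act, hc, ← act, hz, act]
      rw [← e, ha, map_smul]
    · rw [act, ← S.uu T T' hT u w, ← act, ha, map_smul]

/-- The iteration of `wr_cons` along an enumeration. -/
theorem wr_iter [Fintype F] [FiniteDimensional ℂ V] (hψ : ψ ≠ 1) (n : ℕ) (e : Fin n → S3) (A : List (ℕ × F))
    (h71 : (71, (0 : F)) ∈ A) (hA : ∀ p ∈ A, p = (71, 0) ∨ ∃ T a, p = (gam T, a)) :
    wr S ρ ψ A = ∑ c : Fin n → F, wr S ρ ψ (lst e c ++ A) := by
  induction n generalizing A with
  | zero =>
    rw [Fintype.sum_unique]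
    simp [lst]
  | succ n ih =>
    have hgam : gam (e 0) < 72 := by
      generalize e 0 = T
      revert T
      decide
    rw [wr_cons (S := S) (ρ := ρ) hψ hgam (l := A) (fun v hv u => stab h71 hA (e 0) hv u)]
    rw [← (Fin.consEquiv (fun _ : Fin (n + 1) => F)).sum_comp, Fintype.sum_prod_type]
    refine Finset.sum_congr rfl (fun a _ => ?_)
    rw [ih (e := fun k => e k.succ) ((gam (e 0), a) :: A) (List.mem_cons_of_mem _ h71) ?_]
    · refine Finset.sum_congr rfl (fun c _ => ?_)
      refine wr_congr S ρ ψ (fun p => ?_)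
      simp only [lst, Fin.consEquiv, List.ofFn_succ, Fin.cons_zero, Fin.cons_succ, List.mem_append, List.mem_cons,
        List.cons_append, Equiv.coe_fn_mk]
      tauto
    · intro p hp
      rcases List.mem_cons.mp hp with rfl | hp
      · exact Or.inr ⟨_, _, rfl⟩
      · exact hA p hp

end InvPartA

open InvPartA in
/-- `h_β` permutes the nontrivial characters of `x 71` (`hb_th`). -/
theorem dz_eq [FiniteDimensional ℂ V] {l : F} (hl : l ≠ 0) : wr S ρ ψ [(71, l)] = wr S ρ ψ [(71, 1)] := by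
  let L : Fˣ := Units.mk0 l hl
  have hL : (L : F) = l := rfl
  have h1 : ∀ u, S.x 71 u * (S.hb L)⁻¹ = (S.hb L)⁻¹ * S.x 71 ((L : F) * u) := InvPartA.h_conj_inv' L
  refine (wr_eq_of_maps (S.hb L)⁻¹ (fun v hv => ?_) (fun v hv => ?_)).symm
  · rw [mem_Wt]
    intro p hp u
    obtain rfl : p = (71, l) := by simpa using hp
    have hv' : ρ (S.x 71 (l * u)) v = ψ (1 * (l * u)) • v := (mem_Wt.mp hv) (71, 1) (by simp) (l * u)
    show ρ (S.x 71 u) (ρ (S.hb L)⁻¹ v) = ψ (l * u) • ρ (S.hb L)⁻¹ v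
    rw [InvPartA.act, h1, ← InvPartA.act, hL, hv', map_smul, one_mul]
  · rw [inv_inv, mem_Wt]
    intro p hp u
    obtain rfl : p = (71, 1) := by simpa using hp
    have h2 : S.x 71 u * S.hb L = S.hb L * S.x 71 (l⁻¹ * u) := by
      have := S.hb_th L (l⁻¹ * u)
      rw [hL, ← mul_assoc, mul_inv_cancel₀ hl, one_mul] at this
      rw [← this]
      group
    have hv' : ρ (S.x 71 (l⁻¹ * u)) v = ψ (l * (l⁻¹ * u)) • v := (mem_Wt.mp hv) (71, l) (by simp) (l⁻¹ * u)
    show ρ (S.x 71 u) (ρ (S.hb L) v) = ψ (1 * u) • ρ (S.hb L) v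
    rw [InvPartA.act, h2, ← InvPartA.act, hv', map_smul, ← mul_assoc, mul_inv_cancel₀ hl]

/-- `dim V^{x 71} = ∑ nfE c`: the `x (gam T)` commute on `V^{x 71}` (`uu`, `uc`), iterate `wr_cons` on the list of the `T`. -/
theorem dz_zero [Fintype F] [FiniteDimensional ℂ V] (hψ : ψ ≠ 1) :
    wr S ρ ψ [(71, 0)] = ∑ c : S3 → F, nfE S ρ ψ c := by
  let e : Fin (Fintype.card S3) ≃ S3 := (Fintype.equivFin S3).symm
  have h := InvPartA.wr_iter (S := S) (ρ := ρ) hψ (Fintype.card S3) (⇑e) [(71, 0)] (by simp) (by simp)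
  rw [h]
  refine Fintype.sum_equiv (Equiv.arrowCongr e (Equiv.refl F)) _ _ (fun c => ?_)
  refine wr_congr S ρ ψ (fun p => ?_)
  simp only [InvPartA.lst, List.mem_append, List.mem_ofFn, List.mem_singleton, mem_clist]
  constructor
  · rintro (⟨k, rfl⟩ | rfl)
    · refine Or.inr ⟨e k, ?_⟩
      simp [Equiv.arrowCongr]
    · exact Or.inl rfl
  · rintro (rfl | ⟨T, rfl⟩)
    · exact Or.inr rfl
    · refine Or.inl ⟨e.symm T, ?_⟩
      simp [Equiv.arrowCongr]

/-- `dim V = dim V^{x 71} + (q - 1) d`. -/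
theorem k_eq_z [Fintype F] [FiniteDimensional ℂ V] (hψ : ψ ≠ 1) :
    finrank ℂ V = wr S ρ ψ [(71, 0)] + (Fintype.card F - 1) * wr S ρ ψ [(71, 1)] := by
  rw [finrank_eq_sum_x (S := S) (ρ := ρ) hψ (r := 71) (by norm_num)]
  rw [← Finset.add_sum_erase Finset.univ _ (Finset.mem_univ (0 : F))]
  congr 1
  have h : ∀ a ∈ Finset.univ.erase (0 : F), wr S ρ ψ [(71, a)] = wr S ρ ψ [(71, 1)] := by
    intro a ha
    exact dz_eq (Finset.ne_of_mem_erase ha)
  rw [Finset.sum_congr rfl h, Finset.sum_const, Finset.card_erase_of_mem (Finset.mem_univ _), Finset.card_univ,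
    smul_eq_mul]

/-- `dim V = ∑ nfE c + (q - 1) d`. -/
theorem k_eq [Fintype F] [FiniteDimensional ℂ V] (hψ : ψ ≠ 1) :
    finrank ℂ V = (Fintype.card F - 1) * wr S ρ ψ [(71, 1)] + ∑ c : S3 → F, nfE S ρ ψ c := by
  rw [k_eq_z (S := S) (ρ := ρ) hψ, dz_zero (S := S) (ρ := ρ) hψ, add_comm]

/-! ### Part 2 of `Inv`: the Heisenberg counting (namespace `InvB`) -/

namespace InvB

theorem gam_lt : ∀ T : S3, gam T < 72 := by decide

theorem rt_lt : ∀ i j : Fin 6, rt i j < 72 := by decide

theorem compl3_compl3 (T : S3) : compl3 (compl3 T) = T := Subtype.ext (compl_compl _)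

theorem card_filter_zero : (Finset.univ.filter fun T : S3 => (0 : Fin 6) ∈ T.1).card = 10 := by decide

/-- Both contain `0`: not complementary. -/
theorem ne_compl_of_zero {T T' : S3} (h : (0 : Fin 6) ∈ T.1) (h' : (0 : Fin 6) ∈ T'.1) : T' ≠ compl3 T := by
  rintro rfl
  have : (0 : Fin 6) ∈ (T.1)ᶜ := h'
  exact (Finset.mem_compl.mp this) h

/-- The list of the weights of `T ∈ L`. -/
noncomputable abbrev lst (L : List S3) (c : S3 → F) : List (ℕ × F) := L.map fun T => (gam T, c T)

lemma stab_of_comm {r : ℕ} {l : List (ℕ × F)}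
    (h : ∀ p ∈ l, ∀ u w, S.x r u * S.x p.1 w = S.x p.1 w * S.x r u) {v : V} (hv : v ∈ Wt S ρ ψ l) (u : F) :
    ρ (S.x r u) v ∈ Wt S ρ ψ l := by
  intro p hp w
  rw [← Module.End.mul_apply, ← map_mul, ← h p hp u w, map_mul, Module.End.mul_apply, hv p hp w, map_smul]

/-- `x (gam T)` stabilises the weight spaces on the fixed vectors of `x 71`. -/
lemma stab0 (T : S3) (L : List S3) (c₀ : S3 → F) {v : V} (hv : v ∈ Wt S ρ ψ ((71, 0) :: lst L c₀)) (u : F) :
    ρ (S.x (gam T) u) v ∈ Wt S ρ ψ ((71, 0) :: lst L c₀) := by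
  have h71 : ∀ t, ρ (S.x 71 t) v = v := by
    intro t
    have := hv (71, 0) (List.mem_cons_self) t
    simpa using this
  intro p hp w
  rcases List.mem_cons.mp hp with rfl | hp
  · show ρ (S.x 71 w) (ρ (S.x (gam T) u) v) = ψ (0 * w) • ρ (S.x (gam T) u) v
    rw [← Module.End.mul_apply, ← map_mul, S.tt, map_mul, Module.End.mul_apply, h71]
    simp
  · obtain ⟨T', hT', rfl⟩ := List.mem_map.mp hp
    have hvT' : ρ (S.x (gam T') w) v = ψ (c₀ T' * w) • v :=
      hv _ (List.mem_cons_of_mem _ (List.mem_map.mpr ⟨T', hT', rfl⟩)) w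
    show ρ (S.x (gam T') w) (ρ (S.x (gam T) u) v) = ψ (c₀ T' * w) • ρ (S.x (gam T) u) v
    by_cases hc : T' = compl3 T
    · subst hc
      have e := congrArg (fun g => ρ g v) (S.uc T u w)
      simp only [map_mul, Module.End.mul_apply, h71] at e
      rw [← e, hvT', map_smul]
    · rw [← Module.End.mul_apply, ← map_mul, ← S.uu T T' hc u w, map_mul, Module.End.mul_apply, hvT', map_smul]

/-- `x (gam Tᶜ)` shifts the character of `x (gam T)`. -/
lemma shift_map (T : S3) {b a : F} {l : List (ℕ × F)}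
    (h : ∀ p ∈ l, ∀ u w, S.x (gam (compl3 T)) u * S.x p.1 w = S.x p.1 w * S.x (gam (compl3 T)) u)
    (h71 : (71, b) ∈ l) {v : V} (hv : v ∈ Wt S ρ ψ ((gam T, a) :: l)) (t : F) :
    ρ (S.x (gam (compl3 T)) t) v ∈ Wt S ρ ψ ((gam T, a + b * S.eps T * t) :: l) := by
  have hvl : v ∈ Wt S ρ ψ l := fun p hp u => hv p (List.mem_cons_of_mem _ hp) u
  intro p hp u
  rcases List.mem_cons.mp hp with rfl | hp
  · show ρ (S.x (gam T) u) (ρ (S.x (gam (compl3 T)) t) v) =
      ψ ((a + b * S.eps T * t) * u) • ρ (S.x (gam (compl3 T)) t) v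
    have hT : ρ (S.x (gam T) u) v = ψ (a * u) • v := hv _ (List.mem_cons_self) u
    have h7 : ρ (S.x 71 (S.eps T * (t * u))) v = ψ (b * (S.eps T * (t * u))) • v := hvl _ h71 _
    have e := congrArg (fun g => ρ g v) (S.uc T u t)
    simp only [map_mul, Module.End.mul_apply, h7, map_smul, hT] at e
    rw [e, add_mul, AddChar.map_add_eq_mul, smul_smul, mul_comm (ψ (a * u))]
    congr 2
    ring
  · exact stab_of_comm h hvl t p hp u

lemma sign_ne_zero' {e : F} (he : e = 1 ∨ e = -1) : e ≠ 0 := by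
  rcases he with rfl | rfl
  · exact one_ne_zero
  · exact neg_ne_zero.mpr one_ne_zero

/-- The dimensions do not depend on the character of `x (gam T)`. -/
lemma wr_shift [FiniteDimensional ℂ V] (T : S3) {b : F} (hb : b ≠ 0) {l : List (ℕ × F)}
    (h : ∀ p ∈ l, ∀ u w, S.x (gam (compl3 T)) u * S.x p.1 w = S.x p.1 w * S.x (gam (compl3 T)) u)
    (h71 : (71, b) ∈ l) (a a' : F) : wr S ρ ψ ((gam T, a) :: l) = wr S ρ ψ ((gam T, a') :: l) := by
  have hne : b * S.eps T ≠ 0 := mul_ne_zero hb (sign_ne_zero' (S.eps_sign T))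
  set t := (a' - a) / (b * S.eps T) with ht
  have e1 : a + b * S.eps T * t = a' := by
    rw [ht, ← mul_div_assoc, mul_div_cancel_left₀ _ hne]
    ring
  have hr : gam (compl3 T) < 72 := gam_lt _
  refine wr_eq_of_maps (S.x (gam (compl3 T)) t) (fun v hv => ?_) (fun v hv => ?_)
  · have := shift_map T h h71 hv t
    rwa [e1] at this
  · rw [x_inv S _ hr]
    have := shift_map T h h71 hv (-t)
    have e2 : a' + b * S.eps T * -t = a := by rw [← e1]; ring
    rwa [e2] at this

/-- One Heisenberg step. -/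
lemma wr_div [Fintype F] [FiniteDimensional ℂ V] (hψ : ψ ≠ 1) (T : S3) {b : F} (hb : b ≠ 0) {l : List (ℕ × F)}
    (h : ∀ p ∈ l, ∀ u w, S.x (gam (compl3 T)) u * S.x p.1 w = S.x p.1 w * S.x (gam (compl3 T)) u)
    (hs : ∀ p ∈ l, ∀ u w, S.x (gam T) u * S.x p.1 w = S.x p.1 w * S.x (gam T) u)
    (h71 : (71, b) ∈ l) (a : F) : wr S ρ ψ l = Fintype.card F * wr S ρ ψ ((gam T, a) :: l) := by
  rw [wr_cons (S := S) (ρ := ρ) hψ (gam_lt T) (l := l) (fun v hv u => stab_of_comm hs hv u)]
  rw [Finset.sum_congr rfl (fun a' _ => wr_shift (S := S) (ρ := ρ) (ψ := ψ) T hb h h71 a' a)]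
  simp [Finset.card_univ]

/-- Iterating over commuting root groups. -/
lemma wr_pow [Fintype F] [FiniteDimensional ℂ V] (hψ : ψ ≠ 1) (Ts : List S3) (hnd : Ts.Nodup)
    (h0 : ∀ T ∈ Ts, (0 : Fin 6) ∈ T.1) :
    wr S ρ ψ [(71, 1)] = Fintype.card F ^ Ts.length * wr S ρ ψ (lst Ts (fun _ => 0) ++ [(71, 1)]) := by
  induction Ts with
  | nil => simp
  | cons T Ts ih =>
    have hnd' := List.nodup_cons.mp hnd
    have ih' := ih hnd'.2 (fun T' hT' => h0 T' (List.mem_cons_of_mem _ hT'))
    have h0T : (0 : Fin 6) ∈ T.1 := h0 T (List.mem_cons_self)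
    have hs : ∀ p ∈ lst Ts (fun _ => (0 : F)) ++ [((71 : ℕ), (1 : F))], ∀ u w,
        S.x (gam T) u * S.x p.1 w = S.x p.1 w * S.x (gam T) u := by
      intro p hp u w
      rcases List.mem_append.mp hp with hp | hp
      · obtain ⟨T', hT', rfl⟩ := List.mem_map.mp hp
        exact S.uu T T' (ne_compl_of_zero h0T (h0 T' (List.mem_cons_of_mem _ hT'))) u w
      · rw [List.mem_singleton.mp hp]
        exact (S.tt T w u).symm
    have hsh : ∀ p ∈ lst Ts (fun _ => (0 : F)) ++ [((71 : ℕ), (1 : F))], ∀ u w,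
        S.x (gam (compl3 T)) u * S.x p.1 w = S.x p.1 w * S.x (gam (compl3 T)) u := by
      intro p hp u w
      rcases List.mem_append.mp hp with hp | hp
      · obtain ⟨T', hT', rfl⟩ := List.mem_map.mp hp
        refine S.uu (compl3 T) T' ?_ u w
        rw [compl3_compl3]
        rintro rfl
        exact hnd'.1 hT'
      · rw [List.mem_singleton.mp hp]
        exact (S.tt (compl3 T) w u).symm
    have h1 := wr_div (S := S) (ρ := ρ) (ψ := ψ) hψ T (b := 1) one_ne_zero hsh hs
      (List.mem_append_right _ (List.mem_singleton.mpr rfl)) 0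
    rw [ih', h1, List.length_cons, pow_succ, mul_assoc]
    rfl

/-- The weight spaces of the fixed vectors of `x 71`, for a partial weight. -/
lemma wr_partial [Fintype F] [FiniteDimensional ℂ V] (hψ : ψ ≠ 1) (n : ℕ) :
    ∀ (L : List S3), (Finset.univ \ L.toFinset).card = n → ∀ c₀ : S3 → F,
      wr S ρ ψ ((71, 0) :: lst L c₀) = ∑ c : S3 → F, if ∀ T ∈ L, c T = c₀ T then nfE S ρ ψ c else 0 := by
  induction n with
  | zero =>
    intro L hL c₀
    have hall : ∀ T : S3, T ∈ L := by
      intro T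
      have h1 : Finset.univ \ L.toFinset = ∅ := Finset.card_eq_zero.mp hL
      by_contra hT
      have : T ∈ Finset.univ \ L.toFinset := by simp [hT]
      rw [h1] at this
      simp at this
    have e : ∀ c : S3 → F, (∀ T ∈ L, c T = c₀ T) ↔ c = c₀ :=
      fun c => ⟨fun h => funext fun T => h T (hall T), fun h T _ => by rw [h]⟩
    simp only [e]
    rw [Finset.sum_ite_eq' Finset.univ c₀, if_pos (Finset.mem_univ _)]
    unfold nfE
    refine wr_congr S ρ ψ fun p => ?_
    simp only [lst, List.mem_cons, List.mem_map, mem_clist]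
    constructor
    · rintro (h | ⟨T, -, rfl⟩)
      · exact Or.inl h
      · exact Or.inr ⟨T, rfl⟩
    · rintro (h | ⟨T, rfl⟩)
      · exact Or.inl h
      · exact Or.inr ⟨T, hall T, rfl⟩
  | succ n ih =>
    intro L hL c₀
    obtain ⟨T, hT⟩ : (Finset.univ \ L.toFinset).Nonempty := by
      rw [← Finset.card_pos]
      omega
    have hTL : T ∉ L := by simpa using hT
    have hstep : ∀ a : F, wr S ρ ψ ((gam T, a) :: (71, 0) :: lst L c₀) =
        ∑ c : S3 → F, if ∀ T' ∈ T :: L, c T' = Function.update c₀ T a T' then nfE S ρ ψ c else 0 := by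
      intro a
      have hc : (Finset.univ \ (T :: L).toFinset).card = n := by
        have : Finset.univ \ (T :: L).toFinset = (Finset.univ \ L.toFinset).erase T := by
          ext x
          simp only [List.toFinset_cons, Finset.mem_sdiff, Finset.mem_univ, true_and, Finset.mem_insert,
            not_or, Finset.mem_erase, List.mem_toFinset, ne_eq]
        rw [this, Finset.card_erase_of_mem hT, hL]
        rfl
      rw [← ih (T :: L) hc (Function.update c₀ T a)]
      refine wr_congr S ρ ψ fun p => ?_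
      have hmap : lst L (Function.update c₀ T a) = lst L c₀ := by
        refine List.map_congr_left fun T' hT' => ?_
        have : T' ≠ T := fun h => hTL (h ▸ hT')
        simp [Function.update_of_ne this]
      simp only [lst] at hmap ⊢
      simp only [List.map_cons, Function.update_self, hmap, List.mem_cons]
      tauto
    rw [wr_cons (S := S) (ρ := ρ) hψ (gam_lt T) (l := (71, 0) :: lst L c₀) (fun v hv u => stab0 T L c₀ hv u)]
    rw [Finset.sum_congr rfl (fun a _ => hstep a), Finset.sum_comm]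
    refine Finset.sum_congr rfl fun c _ => ?_
    have e : ∀ a : F, (∀ T' ∈ T :: L, c T' = Function.update c₀ T a T') ↔ (a = c T ∧ ∀ T' ∈ L, c T' = c₀ T') := by
      intro a
      constructor
      · intro h
        refine ⟨?_, fun T' hT' => ?_⟩
        · have := h T (List.mem_cons_self)
          rw [Function.update_self] at this
          exact this.symm
        · have h1 := h T' (List.mem_cons_of_mem _ hT')
          have : T' ≠ T := fun h => hTL (h ▸ hT')
          rwa [Function.update_of_ne this] at h1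
      · rintro ⟨rfl, h⟩ T' hT'
        rcases List.mem_cons.mp hT' with rfl | hT'
        · rw [Function.update_self]
        · have : T' ≠ T := fun h => hTL (h ▸ hT')
          rw [Function.update_of_ne this]
          exact h T' hT'
    rw [Finset.sum_congr rfl (fun a _ => if_congr (e a) rfl rfl)]
    by_cases hc : ∀ T' ∈ L, c T' = c₀ T'
    · rw [Finset.sum_congr rfl (fun a _ => if_congr (and_iff_left hc) rfl rfl),
        Finset.sum_ite_eq' Finset.univ (c T), if_pos (Finset.mem_univ _), if_pos hc]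
    · rw [Finset.sum_congr rfl (fun a _ => if_neg (fun h => hc h.2)), Finset.sum_const_zero, if_neg hc]

end InvB

/-- `q¹⁰ ∣ d`: for the ten `T` containing `0`, the `x (gam T)` commute pairwise, and `x (gam Tᶜ)` permutes the characters of `x (gam T)` on `Wt [(71, 1), ...]` (`uc`, `uu`). Also the relation `E0` (as in
`MinG2.exists_m`): for each `T`: `x (gam T)` is conjugate to `x 71` (`lconj`), so `dim V - dim V^{x (gam T)} = (q-1) d`; `x (gam Tᶜ)` permutes the characters of `x (gam T)` on the nontrivial characters of `x 71`. -/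
theorem exists_m [Fintype F] [FiniteDimensional ℂ V] (hψ : ψ ≠ 1) :
    ∃ m, wr S ρ ψ [(71, 1)] = Fintype.card F ^ 10 * m ∧ ∀ T : S3,
      ∑ c : S3 → F, (if c T ≠ 0 then nfE S ρ ψ c else 0) = (Fintype.card F - 1) * Fintype.card F ^ 9 * m := by
  classical
  have hq : 0 < Fintype.card F := Fintype.card_pos
  set q := Fintype.card F with hqdef
  let Ts : List S3 := (Finset.univ.filter fun T : S3 => (0 : Fin 6) ∈ T.1).toList
  have hTs : Ts.length = 10 := by
    rw [Finset.length_toList]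
    exact InvB.card_filter_zero
  set m := wr S ρ ψ (InvB.lst Ts (fun _ => 0) ++ [(71, 1)]) with hm
  have hd : wr S ρ ψ [(71, 1)] = q ^ 10 * m := by
    have := InvB.wr_pow (S := S) (ρ := ρ) (ψ := ψ) hψ Ts (Finset.nodup_toList _) (fun T hT => by
      have := Finset.mem_toList.mp hT
      exact (Finset.mem_filter.mp this).2)
    rwa [hTs] at this
  refine ⟨m, hd, fun T => ?_⟩
  -- the nontrivial characters of `x 71`
  have h1 : ∀ (a b : F), b ≠ 0 → wr S ρ ψ [(gam T, a), (71, b)] = q ^ 9 * m := by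
    intro a b hb
    have hdiv := InvB.wr_div (S := S) (ρ := ρ) (ψ := ψ) hψ T (b := b) hb (l := [(71, b)])
      (fun p hp u w => by
        rw [List.mem_singleton.mp hp]
        exact (S.tt (compl3 T) w u).symm)
      (fun p hp u w => by
        rw [List.mem_singleton.mp hp]
        exact (S.tt T w u).symm)
      (List.mem_singleton.mpr rfl) a
    rw [dz_eq hb, hd] at hdiv
    have e : q * (q ^ 9 * m) = q * wr S ρ ψ [(gam T, a), (71, b)] := by
      rw [← hdiv]
      ring
    exact (Nat.eq_of_mul_eq_mul_left hq e).symm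
  -- `x (gam T)` is conjugate to `x 71`
  have h3 : ∀ a : F, a ≠ 0 → wr S ρ ψ [(gam T, a)] = q ^ 10 * m := by
    intro a ha
    obtain ⟨g, η, hη, hg⟩ := S.lconj (gam T) (InvB.gam_lt T)
    have hηη : η * η = 1 := by
      rcases hη with rfl | rfl <;> simp
    have hηne : η ≠ 0 := InvB.sign_ne_zero' hη
    have hgu : ∀ u, g⁻¹ * S.x (gam T) u * g = S.x 71 (η * u) := by
      intro u
      have := hg (η * u)
      rw [← mul_assoc, hηη, one_mul] at this
      rw [← this]
      group
    have hgu' : ∀ u, g * S.x 71 u * g⁻¹ = S.x (gam T) (η * u) := hg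
    have e : wr S ρ ψ [(71, a * η)] = wr S ρ ψ [(gam T, a)] := by
      refine wr_eq_of_maps g (fun v hv => ?_) (fun v hv => ?_)
      · intro p hp u
        rw [List.mem_singleton.mp hp]
        show ρ (S.x (gam T) u) (ρ g v) = ψ (a * u) • ρ g v
        apply act_of_conj
        rw [hgu]
        have := hv (71, a * η) (List.mem_singleton.mpr rfl) (η * u)
        have e3 : a * η * (η * u) = a * u := by
          calc a * η * (η * u) = a * (η * η) * u := by ring
            _ = a * u := by rw [hηη, mul_one]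
        rw [e3] at this
        exact this
      · intro p hp u
        rw [List.mem_singleton.mp hp]
        show ρ (S.x 71 u) (ρ g⁻¹ v) = ψ (a * η * u) • ρ g⁻¹ v
        apply act_of_conj
        have e4 : g⁻¹⁻¹ * S.x 71 u * g⁻¹ = S.x (gam T) (η * u) := by
          rw [inv_inv]
          exact hgu' u
        rw [e4]
        have := hv (gam T, a) (List.mem_singleton.mpr rfl) (η * u)
        have e5 : a * (η * u) = a * η * u := by ring
        rw [e5] at this
        exact this
    rw [← e, dz_eq (mul_ne_zero ha hηne), hd]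
  -- decomposition along `x 71`
  have h2 : ∀ a : F, wr S ρ ψ [(gam T, a)] = wr S ρ ψ [(71, 0), (gam T, a)] + (q - 1) * (q ^ 9 * m) := by
    intro a
    have hdec := wr_cons (S := S) (ρ := ρ) hψ (r := 71) (by norm_num) (l := [(gam T, a)])
      (fun v hv u => InvB.stab_of_comm (fun p hp u w => by
        rw [List.mem_singleton.mp hp]
        exact S.tt T u w) hv u)
    rw [hdec, ← Finset.add_sum_erase _ _ (Finset.mem_univ (0 : F))]
    congr 1
    have : ∀ b ∈ Finset.univ.erase (0 : F), wr S ρ ψ [(71, b), (gam T, a)] = q ^ 9 * m := by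
      intro b hb
      rw [← h1 a b (Finset.ne_of_mem_erase hb)]
      refine wr_congr S ρ ψ fun p => ?_
      simp only [List.mem_cons, List.not_mem_nil, or_false]
      tauto
    rw [Finset.sum_congr rfl this, Finset.sum_const, Finset.card_erase_of_mem (Finset.mem_univ _),
      Finset.card_univ, smul_eq_mul]
  have h4 : ∀ a : F, a ≠ 0 → wr S ρ ψ [(71, 0), (gam T, a)] = q ^ 9 * m := by
    intro a ha
    have e1 := h2 a
    rw [h3 a ha] at e1
    have e2 : q ^ 10 * m = q * (q ^ 9 * m) := by ring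
    obtain ⟨q', hq'⟩ : ∃ q', q = q' + 1 := ⟨q - 1, by omega⟩
    rw [e2, hq', Nat.add_sub_cancel, add_mul, one_mul] at e1
    rw [hq']
    omega
  -- the sum
  have h5 : ∀ a : F, wr S ρ ψ [(71, 0), (gam T, a)] = ∑ c : S3 → F, if c T = a then nfE S ρ ψ c else 0 := by
    intro a
    have := InvB.wr_partial (S := S) (ρ := ρ) (ψ := ψ) hψ _ [T] rfl (fun _ => a)
    simpa [InvB.lst] using this
  have hs : ∑ c : S3 → F, (if c T ≠ 0 then nfE S ρ ψ c else 0) =
      ∑ a ∈ Finset.univ.erase (0 : F), ∑ c : S3 → F, if c T = a then nfE S ρ ψ c else 0 := by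
    rw [Finset.sum_comm]
    refine Finset.sum_congr rfl fun c _ => ?_
    rw [Finset.sum_ite_eq (Finset.univ.erase (0 : F)) (c T)]
    simp
  rw [hs, Finset.sum_congr rfl (fun a ha => by
    rw [← h5 a, h4 a (Finset.ne_of_mem_erase ha)]), Finset.sum_const,
    Finset.card_erase_of_mem (Finset.mem_univ _), Finset.card_univ, smul_eq_mul]
  ring

/-- `x 71` acts nontrivially: otherwise all the root groups act trivially (`lconj`). -/
theorem d_pos [Fintype F] [FiniteDimensional ℂ V] (hψ : ψ ≠ 1) (hfix : NoFix S ρ) (hV : Nontrivial V) : 0 < wr S ρ ψ [(71, 1)] := by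
  classical
  by_contra h
  have h0 : wr S ρ ψ [(71, 1)] = 0 := by omega
  have hall : ∀ a ∈ Finset.univ.erase (0 : F), wr S ρ ψ [(71, a)] = 0 := by
    intro a ha
    rw [dz_eq (Finset.ne_of_mem_erase ha), h0]
  have hsum := finrank_eq_sum_x (S := S) (ρ := ρ) hψ (r := 71) (by norm_num)
  rw [← Finset.add_sum_erase _ _ (Finset.mem_univ (0 : F)), Finset.sum_congr rfl hall] at hsum
  simp only [Finset.sum_const_zero, add_zero] at hsum
  have htop : Wt S ρ ψ [(71, 0)] = ⊤ := Submodule.eq_top_of_finrank_eq hsum.symm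
  have h71 : ∀ (u : F) (v : V), ρ (S.x 71 u) v = v := by
    intro u v
    have hv : v ∈ Wt S ρ ψ [(71, 0)] := by rw [htop]; trivial
    have := hv (71, 0) (List.mem_singleton.mpr rfl) u
    simpa using this
  have hr : ∀ r, r < 72 → ∀ (u : F) (v : V), ρ (S.x r u) v = v := by
    intro r hr u v
    obtain ⟨g, η, hη, hg⟩ := S.lconj r hr
    have hηη : η * η = 1 := by
      rcases hη with rfl | rfl <;> simp
    have e : S.x r u = g * S.x 71 (η * u) * g⁻¹ := by
      rw [hg, ← mul_assoc, hηη, one_mul]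
    rw [e, map_mul, map_mul, Module.End.mul_apply, Module.End.mul_apply, h71, ← Module.End.mul_apply, ← map_mul,
      mul_inv_cancel, map_one, Module.End.one_apply]
  have hz : ∀ v : V, v = 0 := fun v =>
    hfix v (fun i j _ u => hr _ (InvB.rt_lt i j) u v) (fun u => hr 46 (by norm_num) u v)
      (fun u => hr 25 (by norm_num) u v)
  obtain ⟨v, hv⟩ := exists_ne (0 : V)
  exact hv (hz v)

end Cfsg.Agent.Lib.MinE6
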