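import Cfsg.Agent.Lib.MinE6.Inv

/-! Step (4) of `PLAN.md`, paragraph `Pure`: the count of the support, by the top coordinate. -/

set_option autoImplicit false
set_option linter.unusedSectionVars false
set_option linter.unusedVariables false

namespace Cfsg.Agent.Lib.MinE6

open Module
open scoped Classical

variable {F : Type*} [Field F] {sg : Fin 6 → Fin 6 → S3 → F} {n : (S3 → F) → ℕ}

/-- The list of the pairs `(i, j)`, `i ∈ S`, `j ∉ S`. -/
def pairsE (S : S3) : List (Fin 6 × Fin 6) :=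
  (List.finRange 6 ×ˢ List.finRange 6).filter (fun p => p.1 ∈ S.1 ∧ p.2 ∉ S.1)

lemma mem_pairsE {S : S3} {p : Fin 6 × Fin 6} : p ∈ pairsE S ↔ p.1 ∈ S.1 ∧ p.2 ∉ S.1 := by
  rcases p with ⟨a, b⟩
  simp [pairsE, List.mem_filter, List.pair_mem_product, List.mem_finRange]

lemma nodup_pairsE (S : S3) : (pairsE S).Nodup :=
  ((List.nodup_finRange 6).product (List.nodup_finRange 6)).filter _

/-- The orbit map: the fixed product of the `actA i j (t (i, j))`, `i ∈ S`, `j ∉ S`, applied to `single S a`. -/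
noncomputable def orbE (sg : Fin 6 → Fin 6 → S3 → F) (S : S3) (t : Fin 6 × Fin 6 → F) (a : F) : S3 → F :=
  (pairsE S).foldr (fun p c => actA sg p.1 p.2 (t p) c) (Pi.single S a)

/-- The rank: a coordinate receives only from coordinates of bigger rank when `i < j`. -/
def rkE (T : S3) : ℕ := T.1.sum fun k => 2 ^ (5 - k.val)

lemma mem_mv_nb {S : S3} {i j k : Fin 6} (hi : i ∈ S.1) (hj : j ∉ S.1) : k ∈ (mv j i S).1 ↔ k = j ∨ (k ≠ i ∧ k ∈ S.1) := by
  unfold mv
  rw [dif_pos ⟨hi, hj⟩]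
  simp

lemma mv_mv_nb {S : S3} {i j : Fin 6} (hi : i ∈ S.1) (hj : j ∉ S.1) : mv i j (mv j i S) = S := by
  have h1 : j ∈ (mv j i S).1 := (mem_mv_nb hi hj).2 (Or.inl rfl)
  have h2 : i ∉ (mv j i S).1 := by
    rw [mem_mv_nb hi hj]
    rintro (h | h)
    · exact hj (h ▸ hi)
    · exact h.1 rfl
  apply Subtype.ext
  ext k
  have : k ∈ (mv i j (mv j i S)).1 ↔ k = i ∨ (k ≠ j ∧ k ∈ (mv j i S).1) := mem_mv_nb h1 h2
  rw [this, mem_mv_nb hi hj]
  constructor
  · rintro (rfl | ⟨h1', h2' | h2'⟩)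
    · exact hi
    · exact absurd h2' h1'
    · exact h2'.2
  · intro hk
    by_cases hki : k = i
    · exact Or.inl hki
    · exact Or.inr ⟨fun h => hj (h ▸ hk), Or.inr ⟨hki, hk⟩⟩

lemma cond_nb {S : S3} {i j i' j' : Fin 6} (hi : i ∈ S.1) (hj : j ∉ S.1) (hi' : i' ∈ S.1) (hj' : j' ∉ S.1) :
    (j' ∈ (mv j i S).1 ∧ i' ∉ (mv j i S).1) ↔ (i' = i ∧ j' = j) := by
  rw [mem_mv_nb hi hj, mem_mv_nb hi hj]
  constructor
  · rintro ⟨h1 | h1, h2⟩
    · refine ⟨?_, h1⟩
      by_contra h
      exact h2 (Or.inr ⟨h, hi'⟩)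
    · exact absurd h1.2 hj'
  · rintro ⟨rfl, rfl⟩
    refine ⟨Or.inl rfl, ?_⟩
    rintro (h | h)
    · exact hj (h ▸ hi)
    · exact h.1 rfl

lemma nb_ne {S : S3} {i j : Fin 6} (hi : i ∈ S.1) (hj : j ∉ S.1) : mv j i S ≠ S := by
  intro h
  have : j ∈ (mv j i S).1 := (mem_mv_nb hi hj).2 (Or.inl rfl)
  rw [h] at this
  exact hj this

/-- The coordinates of a product: the value at `S`, the neighbours. -/
lemma fold_coord {S : S3} (t : Fin 6 × Fin 6 → F) (a : F) (L : List (Fin 6 × Fin 6)) (hL : L.Nodup)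
    (hm : ∀ p ∈ L, p.1 ∈ S.1 ∧ p.2 ∉ S.1) :
    (L.foldr (fun p c => actA sg p.1 p.2 (t p) c) (Pi.single S a)) S = a ∧
    ∀ i j, i ∈ S.1 → j ∉ S.1 →
      (L.foldr (fun p c => actA sg p.1 p.2 (t p) c) (Pi.single S a)) (mv j i S) =
        if (i, j) ∈ L then sg i j (mv j i S) * t (i, j) * a else 0 := by
  induction L with
  | nil =>
    refine ⟨by simp, fun i j hi hj => ?_⟩
    simp [Pi.single_apply, nb_ne hi hj]
  | cons p L ih =>
    have hL' := (List.nodup_cons.1 hL)
    obtain ⟨ih1, ih2⟩ := ih hL'.2 (fun q hq => hm q (List.mem_cons_of_mem _ hq))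
    obtain ⟨hp1, hp2⟩ := hm p List.mem_cons_self
    refine ⟨?_, fun i j hi hj => ?_⟩
    · simp only [List.foldr_cons, actA]
      rw [if_neg (fun h => hp2 h.1)]
      exact ih1
    · simp only [List.foldr_cons, actA]
      by_cases h : p.1 = i ∧ p.2 = j
      · rw [if_pos ((cond_nb hi hj hp1 hp2).2 h)]
        have hpe : p = (i, j) := Prod.ext h.1 h.2
        subst hpe
        rw [ih2 _ _ hi hj, if_neg hL'.1, mv_mv_nb hi hj, ih1]
        simp
      · rw [if_neg (fun h' => h ((cond_nb hi hj hp1 hp2).1 h')), ih2 _ _ hi hj]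
        have : (i, j) ∈ p :: L ↔ (i, j) ∈ L := by
          rw [List.mem_cons]
          constructor
          · rintro (h' | h')
            · exact absurd ⟨by rw [← h'], by rw [← h']⟩ h
            · exact h'
          · exact Or.inr
        simp only [this]

lemma orbE_self (S : S3) (t : Fin 6 × Fin 6 → F) (a : F) : orbE sg S t a S = a :=
  (fold_coord t a (pairsE S) (nodup_pairsE S) (fun _ hp => mem_pairsE.1 hp)).1

lemma orbE_nb {S : S3} (t : Fin 6 × Fin 6 → F) (a : F) {i j : Fin 6} (hi : i ∈ S.1) (hj : j ∉ S.1) :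
    orbE sg S t a (mv j i S) = sg i j (mv j i S) * t (i, j) * a := by
  have := (fold_coord (sg := sg) t a (pairsE S) (nodup_pairsE S) (fun _ hp => mem_pairsE.1 hp)).2 i j hi hj
  rw [if_pos (mem_pairsE.2 ⟨hi, hj⟩)] at this
  exact this

lemma rk_lt {i j : Fin 6} {T : S3} (hij : i < j) (hj : j ∈ T.1) (hi : i ∉ T.1) : rkE T < rkE (mv i j T) := by
  have e : rkE (mv i j T) + 2 ^ (5 - j.val) = 2 ^ (5 - i.val) + rkE T := by
    unfold rkE mv
    rw [dif_pos ⟨hj, hi⟩]
    simp only
    rw [Finset.sum_insert (by simp [hi]), add_assoc, Finset.sum_erase_add _ _ hj]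
  have h2 : 2 ^ (5 - j.val) < 2 ^ (5 - i.val) := by
    apply Nat.pow_lt_pow_right (by norm_num)
    have := i.2
    have := j.2
    have : i.val < j.val := hij
    omega
  omega

lemma rk_inj : ∀ T T' : S3, rkE T = rkE T' → T = T' := by
  decide

/-- `S` is the top coordinate of `c`. -/
def IsTopE (c : S3 → F) (S : S3) : Prop := c S ≠ 0 ∧ ∀ T, c T ≠ 0 → rkE T ≤ rkE S

lemma exists_unique_top {c : S3 → F} (hc : c ≠ 0) : ∃! S, IsTopE c S := by
  obtain ⟨T0, hT0⟩ : ∃ T, c T ≠ 0 := by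
    by_contra h
    push Not at h
    exact hc (funext h)
  obtain ⟨S, hS, hmax⟩ := Finset.exists_max_image (Finset.univ.filter fun T => c T ≠ 0) rkE ⟨T0, by simp [hT0]⟩
  refine ⟨S, ⟨(Finset.mem_filter.1 hS).2, fun T hT => hmax T (by simp [hT])⟩, ?_⟩
  rintro S' ⟨h1, h2⟩
  apply rk_inj
  exact le_antisymm (hmax S' (by simp [h1])) (h2 S (Finset.mem_filter.1 hS).2)

/-- The pairs of the lower neighbours. -/
abbrev PPE (S : S3) := {p : Fin 6 × Fin 6 // p.1 ∈ S.1 ∧ p.2 ∉ S.1 ∧ p.1 < p.2}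

/-- The number of the lower neighbours. -/
def ellE (S : S3) : ℕ := ((Finset.univ : Finset (Fin 6 × Fin 6)).filter fun p => p.1 ∈ S.1 ∧ p.2 ∉ S.1 ∧ p.1 < p.2).card

lemma card_PPE (S : S3) : Fintype.card (PPE S) = ellE S := by
  unfold ellE
  apply Fintype.card_of_subtype
  simp

lemma sum_ell (q : ℕ) : ∑ S : S3, q ^ ellE S = gaussN q := by
  have h : Multiset.map ellE (Finset.univ : Finset S3).val =
      {0, 1, 2, 2, 3, 3, 3, 4, 4, 4, 5, 5, 5, 6, 6, 6, 7, 7, 8, 9} := by
    decide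
  have : ∑ S : S3, q ^ ellE S = (Multiset.map (fun k => q ^ k) (Multiset.map ellE (Finset.univ : Finset S3).val)).sum := by
    rw [Multiset.map_map]
    rfl
  rw [this, h]
  simp only [Multiset.insert_eq_cons, Multiset.map_cons, Multiset.sum_cons, Multiset.map_singleton, Multiset.sum_singleton]
  unfold gaussN
  ring

/-- The extension by zero. -/
noncomputable def extE (S : S3) (t : PPE S → F) : Fin 6 × Fin 6 → F :=
  fun p => if h : p.1 ∈ S.1 ∧ p.2 ∉ S.1 ∧ p.1 < p.2 then t ⟨p, h⟩ else 0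

lemma fold_congr {α β : Type*} (f g : α → β → β) (b : β) (L : List α) (h : ∀ p ∈ L, f p = g p) : L.foldr f b = L.foldr g b := by
  induction L with
  | nil => rfl
  | cons p L ih =>
    simp only [List.foldr_cons]
    rw [h p List.mem_cons_self, ih (fun q hq => h q (List.mem_cons_of_mem _ hq))]

lemma fold_n (hI : InvE sg n) (t : Fin 6 × Fin 6 → F) (b : S3 → F) (L : List (Fin 6 × Fin 6)) (hL : ∀ p ∈ L, p.1 ≠ p.2) :
    n (L.foldr (fun p c => actA sg p.1 p.2 (t p) c) b) = n b := by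
  induction L with
  | nil => rfl
  | cons p L ih =>
    simp only [List.foldr_cons]
    rw [← hI.A _ _ (hL p List.mem_cons_self), ih (fun q hq => hL q (List.mem_cons_of_mem _ hq))]

lemma fold_top {S : S3} (t : Fin 6 × Fin 6 → F) (a : F) (L : List (Fin 6 × Fin 6))
    (ht : ∀ p ∈ L, t p ≠ 0 → p.1 < p.2) :
    ∀ T, (L.foldr (fun p c => actA sg p.1 p.2 (t p) c) (Pi.single S a)) T ≠ 0 → rkE T ≤ rkE S := by
  induction L with
  | nil =>
    intro T hT
    simp only [List.foldr_nil] at hT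
    by_cases h : T = S
    · rw [h]
    · exact absurd (by simp [Pi.single_apply, h]) hT
  | cons p L ih =>
    have ih' := ih (fun q hq => ht q (List.mem_cons_of_mem _ hq))
    intro T hT
    simp only [List.foldr_cons, actA] at hT
    split_ifs at hT with h
    · by_cases h0 : (L.foldr (fun p c => actA sg p.1 p.2 (t p) c) (Pi.single S a)) T = 0
      · rw [h0, zero_add] at hT
        have h1 : t p ≠ 0 := by
          intro h'
          rw [h'] at hT
          simp at hT
        have h2 := ht p List.mem_cons_self h1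
        have h3 : (L.foldr (fun p c => actA sg p.1 p.2 (t p) c) (Pi.single S a)) (mv p.1 p.2 T) ≠ 0 := by
          intro h'
          rw [h'] at hT
          simp at hT
        exact (rk_lt h2 h.1 h.2).le.trans (ih' _ h3)
      · exact ih' _ h0
    · exact ih' _ hT

/-- The count of the lower product. -/
lemma sum_top [Fintype F] (hsg : ∀ i j T, sg i j T = 1 ∨ sg i j T = -1) (hI : InvE sg n) {m : ℕ}
    (h1 : ∀ (S : S3) (a : F), a ≠ 0 → n (Pi.single S a) = m)
    (h3 : ∀ (S : S3) (c : S3 → F), c S ≠ 0 → 0 < n c → ∃ t, c = orbE sg S t (c S)) (S : S3) :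
    ∑ c : S3 → F, (if IsTopE c S then n c else 0) = m * ((Fintype.card F - 1) * Fintype.card F ^ ellE S) := by
  have hsg0 : ∀ i j T, sg i j T ≠ 0 := by
    intro i j T
    rcases hsg i j T with h | h <;> rw [h] <;> simp
  let ψ : Fˣ × (PPE S → F) → (S3 → F) := fun d => orbE sg S (extE S d.2) (d.1 : F)
  have hinj : Function.Injective ψ := by
    rintro ⟨a, t⟩ ⟨a', t'⟩ h
    have h0 : (a : F) = a' := by
      have := congrFun h S
      simpa [ψ, orbE_self] using this
    have ha : a = a' := Units.ext h0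
    subst ha
    refine Prod.ext rfl (funext ?_)
    rintro ⟨⟨i, j⟩, hp⟩
    have := congrFun h (mv j i S)
    simp only [ψ] at this
    rw [orbE_nb _ _ hp.1 hp.2.1, orbE_nb _ _ hp.1 hp.2.1] at this
    have h3' := mul_right_cancel₀ a.ne_zero this
    have h4 := mul_left_cancel₀ (hsg0 _ _ _) h3'
    simpa [extE, hp] using h4
  have htop : ∀ d, IsTopE (ψ d) S := by
    rintro ⟨a, t⟩
    refine ⟨?_, ?_⟩
    · simp only [ψ, orbE_self]
      exact a.ne_zero
    · apply fold_top
      intro p hp hne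
      by_contra hlt
      apply hne
      simp [extE, hlt]
  have hval : ∀ d, n (ψ d) = m := by
    rintro ⟨a, t⟩
    simp only [ψ, orbE]
    rw [fold_n hI]
    · exact h1 _ _ a.ne_zero
    · intro p hp he
      obtain ⟨h1', h2'⟩ := mem_pairsE.1 hp
      exact h2' (he ▸ h1')
  have hsurj : ∀ c, IsTopE c S → 0 < n c → c ∈ Finset.univ.image ψ := by
    intro c hc hn
    obtain ⟨t, ht⟩ := h3 S c hc.1 hn
    refine Finset.mem_image.2 ⟨(Units.mk0 (c S) hc.1, fun p => t p.1), Finset.mem_univ _, ?_⟩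
    simp only [ψ, Units.val_mk0]
    conv_rhs => rw [ht]
    unfold orbE
    apply fold_congr
    intro p hp
    have hp' := mem_pairsE.1 hp
    have : extE S (fun p : PPE S => t p.1) p = t p := by
      unfold extE
      split_ifs with h
      · rfl
      · have hlt : p.2 < p.1 := by
          have hne : p.1 ≠ p.2 := fun he => hp'.2 (he ▸ hp'.1)
          have : ¬ p.1 < p.2 := fun h' => h ⟨hp'.1, hp'.2, h'⟩
          exact lt_of_le_of_ne (not_lt.1 this) (Ne.symm hne)
        have hrk := rk_lt hlt hp'.1 hp'.2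
        have hz : c (mv p.2 p.1 S) = 0 := by
          by_contra hne
          exact absurd (hc.2 _ hne) (not_le.2 hrk)
        rw [ht] at hz
        have hcoord : orbE sg S t (c S) (mv p.2 p.1 S) = _ := orbE_nb t (c S) hp'.1 hp'.2
        have hz' : orbE sg S t (c S) (mv p.2 p.1 S) = 0 := by
          rw [← ht]
          conv_lhs => rw [ht]
          simpa [orbE_self, ← ht] using hz
        rw [hcoord] at hz'
        have := (mul_eq_zero.1 hz').resolve_right hc.1
        have := (mul_eq_zero.1 this).resolve_left (hsg0 _ _ _)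
        exact this.symm
    rw [this]
  have e1 : ∑ c : S3 → F, (if IsTopE c S then n c else 0) = ∑ c ∈ Finset.univ.filter (fun c => IsTopE c S), n c := by
    rw [Finset.sum_filter]
  rw [e1]
  have hsub : Finset.univ.image ψ ⊆ Finset.univ.filter (fun c => IsTopE c S) := by
    intro c hc
    obtain ⟨d, -, rfl⟩ := Finset.mem_image.1 hc
    exact Finset.mem_filter.2 ⟨Finset.mem_univ _, htop d⟩
  rw [← Finset.sum_subset hsub (fun c hc hnot => by
    by_contra hne
    exact hnot (hsurj c (Finset.mem_filter.1 hc).2 (Nat.pos_of_ne_zero hne)))]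
  rw [Finset.sum_image (fun a _ b _ h => hinj h)]
  simp only [hval]
  rw [Finset.sum_const, Finset.card_univ, Fintype.card_prod, Fintype.card_units, Fintype.card_fun, card_PPE]
  simp only [smul_eq_mul]
  ring

/-- Step (4). -/
theorem pure_count [Fintype F] (hsg : ∀ i j T, sg i j T = 1 ∨ sg i j T = -1) (hI : InvE sg n) {m : ℕ}
    (h1 : ∀ (S : S3) (a : F), a ≠ 0 → n (Pi.single S a) = m)
    (h3 : ∀ (S : S3) (c : S3 → F), c S ≠ 0 → 0 < n c → ∃ t, c = orbE sg S t (c S)) :
    ∑ c : S3 → F, (if c ≠ 0 then n c else 0) = m * ((Fintype.card F - 1) * gaussN (Fintype.card F)) := by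
  have e : ∀ c : S3 → F, (if c ≠ 0 then n c else 0) = ∑ S : S3, (if IsTopE c S then n c else 0) := by
    intro c
    by_cases hc : c = 0
    · subst hc
      simp [IsTopE]
    · rw [if_pos hc]
      obtain ⟨S, hS, huniq⟩ := exists_unique_top hc
      rw [Finset.sum_eq_single S (fun T _ hT => if_neg (fun h => hT (huniq T h))) (fun h => absurd (Finset.mem_univ S) h), if_pos hS]
  simp_rw [e]
  rw [Finset.sum_comm]
  simp_rw [sum_top hsg hI h1 h3]
  rw [← Finset.mul_sum, ← Finset.mul_sum, sum_ell]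

end Cfsg.Agent.Lib.MinE6
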