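import Cfsg.Agent.Lib.MinE6.Sys

/-! Finite checks on the 3-subsets of `Fin 6` for `Pure.lean`. -/

set_option autoImplicit false

namespace Cfsg.Agent.Lib.MinE6

namespace PureFin

/-- Pairs. -/
abbrev Pr := Fin 6 × Fin 6

/-- `S - i + j`. -/
def nb (S : S3) (i j : Fin 6) : S3 := mv j i S

/-- The weight of a subset: a linear order on `S3`. -/
def wt (T : S3) : ℕ := T.1.sum fun k => 2 ^ (5 - k.val)

/-- The size of `X ∩ S`. -/
def wd (S X : S3) : ℕ := (X.1 ∩ S.1).card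

/-- The pairs `(i, j)`, `i ∈ S`, `j ∉ S`. -/
def pairsF (S : S3) : Finset Pr := Finset.univ.filter fun p => p.1 ∈ S.1 ∧ p.2 ∉ S.1

/-- The pairs `(i, j)`, `i ∈ S`, `j ∉ S`, `i < j`. -/
def lowF (S : S3) : Finset Pr := Finset.univ.filter fun p => p.1 ∈ S.1 ∧ p.2 ∉ S.1 ∧ p.1 < p.2

/-- The pairs `(i, j)`, `i ∈ T`, `j ∉ T` on the same side of `S`. -/
def sideF (S T : S3) : Finset Pr := Finset.univ.filter fun p => p.1 ∈ T.1 ∧ p.2 ∉ T.1 ∧ (p.1 ∈ S.1 ↔ p.2 ∈ S.1)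

theorem card_pairs : ∀ S : S3, (pairsF S).card = 9 := by decide +kernel

theorem card_side : ∀ S T : S3, wd S T = 1 → (sideF S T).card = 4 := by decide +kernel

theorem w2_exists : ∀ S X : S3, wd S X = 2 → ∃ i j : Fin 6, i ∈ S.1 ∧ j ∉ S.1 ∧ X = nb S i j := by decide +kernel

theorem wd_nb : ∀ (S : S3) (i j : Fin 6), i ∈ S.1 → j ∉ S.1 → wd S (nb S i j) = 2 := by decide +kernel

theorem wd_cases : ∀ S T : S3, T ≠ S → wd S T = 0 ∨ wd S T = 1 ∨ wd S T = 2 := by decide +kernel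

theorem wd_same : ∀ (S X : S3) (i j : Fin 6), j ∈ X.1 → i ∉ X.1 → (i ∈ S.1 ↔ j ∈ S.1) → wd S (mv i j X) = wd S X := by
  decide +kernel

theorem wd_zero_pair : ∀ S T : S3, wd S T = 0 → ∃ i j : Fin 6, i ∈ T.1 ∧ j ∉ T.1 := by decide +kernel

theorem wd_zero_side1 : ∀ (S T : S3) (i : Fin 6), wd S T = 0 → i ∈ T.1 → i ∉ S.1 := by decide +kernel

theorem wd_zero_side2 : ∀ (S T : S3) (j : Fin 6), wd S T = 0 → j ∉ T.1 → j ∈ S.1 := by decide +kernel

theorem mv_nb : ∀ (S : S3) (i j : Fin 6), i ∈ S.1 → j ∉ S.1 → mv i j (nb S i j) = S := by decide +kernel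

theorem nb_crit : ∀ (S : S3) (i j i' j' : Fin 6), i ∈ S.1 → j ∉ S.1 → i' ∈ S.1 → j' ∉ S.1 →
    ((j' ∈ (nb S i j).1 ∧ i' ∉ (nb S i j).1) ↔ (i' = i ∧ j' = j)) := by decide +kernel

theorem nb_ne : ∀ (S : S3) (i j : Fin 6), i ∈ S.1 → j ∉ S.1 → nb S i j ≠ S := by decide +kernel

theorem wd_opp_S : ∀ (S : S3) (i j : Fin 6), i ∉ S.1 → j ∈ S.1 → wd S (mv i j S) = 2 := by decide +kernel

theorem wd_opp_X : ∀ (S X : S3) (i j : Fin 6), i ∉ S.1 → j ∈ S.1 → wd S X = 2 → j ∈ X.1 → i ∉ X.1 → wd S (mv i j X) = 1 := by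
  decide +kernel

theorem wd_opp_T : ∀ (S T : S3) (i j : Fin 6), wd S T = 0 → i ∈ T.1 → j ∉ T.1 → wd S (nb T i j) = 1 := by decide +kernel

theorem exists_pair : ∀ S : S3, ∃ i j : Fin 6, i ∈ S.1 ∧ j ∉ S.1 := by decide +kernel

theorem pw_one : ∀ (S : S3) (i j : Fin 6), i ∈ S.1 → j ∉ S.1 → pw i j S = 1 := by decide +kernel

theorem wt_inj : ∀ S T : S3, wt S = wt T → S = T := by decide +kernel

theorem wt_mv : ∀ (X : S3) (i j : Fin 6), j ∈ X.1 → i ∉ X.1 → i < j → wt X < wt (mv i j X) := by decide +kernel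

theorem wt_nb : ∀ (S : S3) (i j : Fin 6), i ∈ S.1 → j ∉ S.1 → j < i → wt S < wt (nb S i j) := by decide +kernel

theorem low_multiset : ((Finset.univ : Finset S3).val.map fun S => (lowF S).card) =
    ({0, 1, 2, 2, 3, 3, 3, 4, 4, 4, 5, 5, 5, 6, 6, 6, 7, 7, 8, 9} : Multiset ℕ) := by decide +kernel

theorem sum_low (x : ℕ) : ∑ S : S3, x ^ (lowF S).card = gaussN x := by
  have h : ∑ S : S3, x ^ (lowF S).card = (((Finset.univ : Finset S3).val.map fun S => (lowF S).card).map fun d => x ^ d).sum := by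
    rw [Multiset.map_map]
    rfl
  rw [h, low_multiset]
  simp only [Multiset.insert_eq_cons, Multiset.map_cons, Multiset.map_singleton, Multiset.sum_cons, Multiset.sum_singleton, gaussN]
  ring

end PureFin

end Cfsg.Agent.Lib.MinE6
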