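import Cfsg.Agent.Lib.MinE6.Inv
import Cfsg.Agent.Lib.MinE6.PureFin
import Cfsg.Agent.Lib.MinE6.PureCount

/-! Pure combinatorics on `F²⁰`: the support of an invariant function consists of the decomposable vectors. See `PLAN.md`. -/

set_option autoImplicit false
set_option linter.unusedSectionVars false
set_option linter.unusedVariables false

namespace Cfsg.Agent.Lib.MinE6

open Module
open scoped Classical

variable {F : Type*} [Field F] [Fintype F] {sg : Fin 6 → Fin 6 → S3 → F} {n : (S3 → F) → ℕ}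

namespace PureAux

open PureFin

/-- The product of the root elements in the order of the list. -/
def psi (sg : Fin 6 → Fin 6 → S3 → F) (l : List Pr) (u : Pr → F) (c : S3 → F) : S3 → F :=
  l.foldr (fun p d => actA sg p.1 p.2 (u p) d) c

lemma actA_not {i j : Fin 6} {T : S3} (h : ¬ (j ∈ T.1 ∧ i ∉ T.1)) (t : F) (c : S3 → F) :
    actA sg i j t c T = c T := by
  unfold actA
  rw [if_neg h]

lemma actA_yes {i j : Fin 6} {T : S3} (h : j ∈ T.1 ∧ i ∉ T.1) (t : F) (c : S3 → F) :
    actA sg i j t c T = c T + sg i j T * t * c (mv i j T) := by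
  unfold actA
  rw [if_pos h]

lemma psi_cons (l : List Pr) (p : Pr) (u : Pr → F) (c : S3 → F) :
    psi sg (p :: l) u c = actA sg p.1 p.2 (u p) (psi sg l u c) := rfl

lemma psi_S {S : S3} {l : List Pr} (hl : ∀ p ∈ l, ¬ (p.2 ∈ S.1 ∧ p.1 ∉ S.1)) (u : Pr → F) (c : S3 → F) :
    psi sg l u c S = c S := by
  induction l with
  | nil => rfl
  | cons p l ih =>
    rw [psi_cons, actA_not (hl p List.mem_cons_self), ih (fun q hq => hl q (List.mem_cons_of_mem _ hq))]

lemma not_P {S : S3} {p : Pr} (h : p.1 ∈ S.1 ∧ p.2 ∉ S.1) : ¬ (p.2 ∈ S.1 ∧ p.1 ∉ S.1) :=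
  fun h' => h.2 h'.1

lemma psi_nb {S : S3} {l : List Pr} (hn : l.Nodup) (hl : ∀ p ∈ l, p.1 ∈ S.1 ∧ p.2 ∉ S.1) (u : Pr → F) (c : S3 → F)
    {i j : Fin 6} (hi : i ∈ S.1) (hj : j ∉ S.1) :
    psi sg l u c (nb S i j) = c (nb S i j) + (if (i, j) ∈ l then sg i j (nb S i j) * u (i, j) * c S else 0) := by
  induction l with
  | nil => simp [psi]
  | cons p l ih =>
    have hl' := fun q hq => hl q (List.mem_cons_of_mem _ hq)
    have hp := hl p List.mem_cons_self
    rw [List.nodup_cons] at hn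
    rw [psi_cons]
    by_cases h : p = (i, j)
    · subst h
      have hcr := (nb_crit S i j i j hi hj hi hj).2 ⟨rfl, rfl⟩
      rw [actA_yes hcr, mv_nb S i j hi hj, ih hn.2 hl', psi_S (fun q hq => not_P (hl' q hq)), if_neg hn.1,
        if_pos List.mem_cons_self]
      ring
    · have hcr : ¬ (p.2 ∈ (nb S i j).1 ∧ p.1 ∉ (nb S i j).1) := by
        rw [nb_crit S i j p.1 p.2 hi hj hp.1 hp.2]
        rintro ⟨h1, h2⟩
        exact h (Prod.ext h1 h2)
      rw [actA_not hcr, ih hn.2 hl']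
      congr 1
      have : (i, j) ∈ p :: l ↔ (i, j) ∈ l := by
        rw [List.mem_cons]
        constructor
        · rintro (h' | h')
          · exact absurd h'.symm h
          · exact h'
        · exact Or.inr
      simp only [this]

lemma sg_ne (hsg : ∀ i j T, sg i j T = 1 ∨ sg i j T = -1) (i j : Fin 6) (T : S3) : sg i j T ≠ 0 := by
  rcases hsg i j T with h | h <;> rw [h] <;> simp

/-- The coordinates next to `S` vanish. -/
def InvS (S : S3) (c : S3 → F) : Prop := ∀ X, wd S X = 2 → c X = 0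

lemma normal_form (hsg : ∀ i j T, sg i j T = 1 ∨ sg i j T = -1) {S : S3} {l : List Pr} (hn : l.Nodup)
    (hl : ∀ p, p ∈ l ↔ (p.1 ∈ S.1 ∧ p.2 ∉ S.1)) {c : S3 → F} (hc : c S ≠ 0) :
    ∃ u, InvS S (psi sg l u c) := by
  refine ⟨fun p => - c (nb S p.1 p.2) / (sg p.1 p.2 (nb S p.1 p.2) * c S), ?_⟩
  intro X hX
  obtain ⟨i, j, hi, hj, rfl⟩ := w2_exists S X hX
  rw [psi_nb hn (fun p hp => (hl p).1 hp) _ _ hi hj, if_pos ((hl _).2 ⟨hi, hj⟩)]
  have h0 : sg i j (nb S i j) ≠ 0 := sg_ne hsg _ _ _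
  simp only
  field_simp
  ring

lemma n_psi (hI : InvE sg n) {l : List Pr} (hl : ∀ p ∈ l, p.1 ≠ p.2) (u : Pr → F) (c : S3 → F) :
    n (psi sg l u c) = n c := by
  induction l with
  | nil => rfl
  | cons p l ih =>
    rw [psi_cons, ← hI.A _ _ (hl p List.mem_cons_self), ih (fun q hq => hl q (List.mem_cons_of_mem _ hq))]

lemma psi_rev {l : List Pr} (hl : ∀ p ∈ l, p.1 ≠ p.2) (u : Pr → F) (c : S3 → F) :
    psi sg l (fun p => - u p) (psi sg l.reverse u c) = c := by
  induction l generalizing c with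
  | nil => rfl
  | cons p l ih =>
    have h1 : psi sg (p :: l).reverse u c = psi sg l.reverse u (actA sg p.1 p.2 (u p) c) := by
      simp [psi, List.foldr_append]
    rw [h1, psi_cons, ih (fun q hq => hl q (List.mem_cons_of_mem _ hq))]
    exact InvPartA.actA_actA sg (hl p List.mem_cons_self) _ _

lemma psi_rev' {l : List Pr} (hl : ∀ p ∈ l, p.1 ≠ p.2) (u : Pr → F) (c : S3 → F) :
    psi sg l.reverse (fun p => - u p) (psi sg l u c) = c := by
  have := psi_rev (sg := sg) (l := l.reverse) (by simpa using hl) u c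
  simpa using this

lemma psi_inj {l : List Pr} (hl : ∀ p ∈ l, p.1 ≠ p.2) (u : Pr → F) : Function.Injective (psi sg l u) := by
  intro c d h
  rw [← psi_rev' (sg := sg) hl u c, h, psi_rev' hl]

lemma psi_congr {l : List Pr} {u v : Pr → F} (h : ∀ p ∈ l, u p = v p) (c : S3 → F) :
    psi sg l u c = psi sg l v c := by
  induction l with
  | nil => rfl
  | cons p l ih =>
    rw [psi_cons, psi_cons, h p List.mem_cons_self, ih (fun q hq => h q (List.mem_cons_of_mem _ hq))]

lemma psi_same {S : S3} {l : List Pr} (hl : ∀ p ∈ l, p.1 ≠ p.2 ∧ (p.1 ∈ S.1 ↔ p.2 ∈ S.1)) (u : Pr → F) {c : S3 → F}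
    (h : InvS S c) : InvS S (psi sg l u c) := by
  induction l with
  | nil => exact h
  | cons p l ih =>
    intro X hX
    have ih' := ih (fun q hq => hl q (List.mem_cons_of_mem _ hq))
    have hp := hl p List.mem_cons_self
    rw [psi_cons]
    by_cases hh : p.2 ∈ X.1 ∧ p.1 ∉ X.1
    · rw [actA_yes hh, ih' X hX, ih' (mv p.1 p.2 X) (by rw [wd_same S X p.1 p.2 hh.1 hh.2 hp.2, hX])]
      ring
    · rw [actA_not hh, ih' X hX]

/-- Extension by zero. -/
def ext (L : Finset Pr) (v : {p // p ∈ L} → F) : Pr → F := fun p => if h : p ∈ L then v ⟨p, h⟩ else 0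

lemma ext_mem {L : Finset Pr} (v : {p // p ∈ L} → F) {p : Pr} (h : p ∈ L) : ext L v p = v ⟨p, h⟩ := by
  unfold ext
  rw [dif_pos h]

lemma count_ge {α : Type*} [Fintype α] (G : α → (S3 → F)) (hinj : Function.Injective G) (Q : (S3 → F) → Prop)
    [DecidablePred Q] (hQ : ∀ a, Q (G a) ∧ 0 < n (G a)) : Fintype.card α ≤ ∑ c : S3 → F, (if Q c then n c else 0) := by
  calc Fintype.card α = ∑ _a : α, 1 := by simp
    _ ≤ ∑ a : α, (if Q (G a) then n (G a) else 0) := by
        apply Finset.sum_le_sum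
        intro a _
        rw [if_pos (hQ a).1]
        exact (hQ a).2
    _ = ∑ c ∈ Finset.univ.image G, (if Q c then n c else 0) := by
        rw [Finset.sum_image (fun x _ y _ h => hinj h)]
    _ ≤ _ := by
        apply Finset.sum_le_sum_of_subset
        exact Finset.subset_univ _

lemma sum_param {α : Type*} [Fintype α] (G : α → (S3 → F)) (hinj : Function.Injective G) (Q : (S3 → F) → Prop)
    [DecidablePred Q] (hQ : ∀ a, Q (G a)) (hS : ∀ c, Q c → 0 < n c → ∃ a, G a = c) :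
    ∑ c : S3 → F, (if Q c then n c else 0) = ∑ a : α, n (G a) := by
  calc ∑ c : S3 → F, (if Q c then n c else 0) = ∑ c ∈ Finset.univ.image G, (if Q c then n c else 0) := by
        symm
        apply Finset.sum_subset (Finset.subset_univ _)
        intro c _ hc
        by_cases h : Q c
        · rw [if_pos h]
          by_contra h0
          obtain ⟨a, ha⟩ := hS c h (Nat.pos_of_ne_zero h0)
          exact hc (Finset.mem_image.mpr ⟨a, Finset.mem_univ _, ha⟩)
        · rw [if_neg h]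
    _ = ∑ a : α, (if Q (G a) then n (G a) else 0) := by
        rw [Finset.sum_image (fun x _ y _ h => hinj h)]
    _ = _ := by
        apply Finset.sum_congr rfl
        intro a _
        rw [if_pos (hQ a)]

lemma pair_ne {S : S3} {p : Pr} (h : p.1 ∈ S.1 ∧ p.2 ∉ S.1) : p.1 ≠ p.2 := by
  intro h'
  exact h.2 (h' ▸ h.1)

lemma mem_pairs {S : S3} {p : Pr} : p ∈ pairsF S ↔ (p.1 ∈ S.1 ∧ p.2 ∉ S.1) := by
  simp [pairsF]

lemma mem_side {S T : S3} {p : Pr} : p ∈ sideF S T ↔ (p.1 ∈ T.1 ∧ p.2 ∉ T.1 ∧ (p.1 ∈ S.1 ↔ p.2 ∈ S.1)) := by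
  simp [sideF]

lemma card_q (L : Finset Pr) : Fintype.card ({p // p ∈ L} → F) = Fintype.card F ^ L.card := by
  rw [Fintype.card_fun, Fintype.card_coe]

lemma two_le_q : 2 ≤ Fintype.card F := Fintype.one_lt_card

lemma key_w1 (hsg : ∀ i j T, sg i j T = 1 ∨ sg i j T = -1) (hI : InvE sg n) {m : ℕ} (hm2 : m ≤ 2)
    (hE : ∀ T : S3, ∑ c : S3 → F, (if c T ≠ 0 then n c else 0) = (Fintype.card F - 1) * Fintype.card F ^ 9 * m)
    {S T : S3} {c : S3 → F} (hS : c S ≠ 0) (hinv : InvS S c) (hT : wd S T = 1) (hcT : c T ≠ 0) (hpos : 0 < n c) :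
    False := by
  have hl9 : ∀ p ∈ (pairsF S).toList, p.1 ∈ S.1 ∧ p.2 ∉ S.1 := fun p hp =>
    mem_pairs.mp (Finset.mem_toList.mp hp)
  have hl4 : ∀ p ∈ (sideF S T).toList, p.1 ∈ T.1 ∧ p.2 ∉ T.1 ∧ (p.1 ∈ S.1 ↔ p.2 ∈ S.1) := fun p hp =>
    mem_side.mp (Finset.mem_toList.mp hp)
  have hd9 : ∀ p ∈ (pairsF S).toList, p.1 ≠ p.2 := fun p hp => pair_ne (hl9 p hp)
  have hd4 : ∀ p ∈ (sideF S T).toList, p.1 ≠ p.2 := fun p hp => pair_ne ⟨(hl4 p hp).1, (hl4 p hp).2.1⟩
  have hnd9 := Finset.nodup_toList (pairsF S)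
  have hnd4 := Finset.nodup_toList (sideF S T)
  let D : ({p // p ∈ sideF S T} → F) → (S3 → F) := fun t => psi sg (sideF S T).toList (ext _ t) c
  let G : ({p // p ∈ pairsF S} → F) × ({p // p ∈ sideF S T} → F) → (S3 → F) :=
    fun x => psi sg (pairsF S).toList (ext _ x.1) (D x.2)
  have hDS : ∀ t, D t S = c S := fun t => psi_S (fun p hp h => (hl4 p hp).2.2.mpr h.1 |> h.2) _ _
  have hDinv : ∀ t, InvS S (D t) := fun t =>
    psi_same (fun p hp => ⟨hd4 p hp, (hl4 p hp).2.2⟩) _ hinv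
  have hGS : ∀ x, G x S = c S := fun x => by
    change psi sg (pairsF S).toList (ext _ x.1) (D x.2) S = c S
    rw [psi_S (fun p hp => not_P (hl9 p hp)), hDS]
  have hGn : ∀ x, n (G x) = n c := fun x => by
    change n (psi sg (pairsF S).toList (ext _ x.1) (D x.2)) = n c
    rw [n_psi hI hd9, n_psi hI hd4]
  have hinj : Function.Injective G := by
    rintro ⟨u, t⟩ ⟨u', t'⟩ h
    have hu : u = u' := by
      funext ⟨p, hp⟩
      have hp' := mem_pairs.mp hp
      have hpl : (p.1, p.2) ∈ (pairsF S).toList := Finset.mem_toList.mpr hp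
      have e := congrFun h (nb S p.1 p.2)
      simp only [G] at e
      rw [psi_nb hnd9 hl9 _ _ hp'.1 hp'.2, psi_nb hnd9 hl9 _ _ hp'.1 hp'.2, if_pos hpl, if_pos hpl,
        hDinv t _ (wd_nb S _ _ hp'.1 hp'.2), hDinv t' _ (wd_nb S _ _ hp'.1 hp'.2), hDS, hDS,
        zero_add, zero_add] at e
      have h0 := sg_ne hsg p.1 p.2 (nb S p.1 p.2)
      have e2 : ext (pairsF S) u p = ext (pairsF S) u' p := by
        exact mul_left_cancel₀ h0 (mul_right_cancel₀ hS e)
      rwa [ext_mem u hp, ext_mem u' hp] at e2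
    subst hu
    have hD : D t = D t' := psi_inj hd9 _ h
    have ht : t = t' := by
      funext ⟨p, hp⟩
      have hp' := mem_side.mp hp
      have hpl : (p.1, p.2) ∈ (sideF S T).toList := Finset.mem_toList.mpr hp
      have e := congrFun hD (nb T p.1 p.2)
      simp only [D] at e
      have hl4' : ∀ p ∈ (sideF S T).toList, p.1 ∈ T.1 ∧ p.2 ∉ T.1 := fun p hp => ⟨(hl4 p hp).1, (hl4 p hp).2.1⟩
      rw [psi_nb hnd4 hl4' _ _ hp'.1 hp'.2.1, psi_nb hnd4 hl4' _ _ hp'.1 hp'.2.1, if_pos hpl, if_pos hpl] at e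
      have e' := add_left_cancel e
      have h0 := sg_ne hsg p.1 p.2 (nb T p.1 p.2)
      have e2 : ext (sideF S T) t p = ext (sideF S T) t' p := by
        exact mul_left_cancel₀ h0 (mul_right_cancel₀ hcT e')
      rwa [ext_mem t hp, ext_mem t' hp] at e2
    rw [ht]
  have hle : Fintype.card (({p // p ∈ pairsF S} → F) × ({p // p ∈ sideF S T} → F)) ≤
      ∑ c : S3 → F, (if c S ≠ 0 then n c else 0) := count_ge (n := n) G hinj (fun d => d S ≠ 0) (fun x => ⟨by
    show G x S ≠ 0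
    rw [hGS]; exact hS, by rw [hGn]; exact hpos⟩)
  rw [hE S, Fintype.card_prod, card_q, card_q, card_pairs, card_side S T hT] at hle
  have hq := two_le_q (F := F)
  set q := Fintype.card F with hqd
  have h9 : 0 < q ^ 9 := by positivity
  have h4 : q ^ 4 ≤ (q - 1) * m := by
    apply Nat.le_of_mul_le_mul_left _ h9
    calc q ^ 9 * q ^ 4 ≤ (q - 1) * q ^ 9 * m := hle
      _ = q ^ 9 * ((q - 1) * m) := by ring
  have h5 : (q - 1) * m ≤ (q - 1) * 2 := Nat.mul_le_mul_left _ hm2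
  have h6 : (q - 1) * 2 < q * 2 := by
    apply Nat.mul_lt_mul_of_pos_right <;> omega
  have h7 : q ^ 4 = q * q * (q * q) := by ring
  have h8 : q * 2 ≤ q * q := Nat.mul_le_mul_left _ hq
  have h10 : q * q ≤ q * q * (q * q) := Nat.le_mul_of_pos_right _ (by positivity)
  omega

/-- A vector with a nonzero `S`-coordinate, and vanishing neighbours, is supported on `S`. -/
lemma key (hsg : ∀ i j T, sg i j T = 1 ∨ sg i j T = -1) (hI : InvE sg n) {m : ℕ} (hm2 : m ≤ 2)
    (hE : ∀ T : S3, ∑ c : S3 → F, (if c T ≠ 0 then n c else 0) = (Fintype.card F - 1) * Fintype.card F ^ 9 * m)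
    {S : S3} {c : S3 → F} (hS : c S ≠ 0) (hinv : InvS S c) (hpos : 0 < n c) : c = Pi.single S (c S) := by
  have hall : ∀ T, T ≠ S → c T = 0 := by
    intro T hTS
    by_contra hcT
    rcases wd_cases S T hTS with h0 | h1 | h2
    · by_cases hX : ∃ X, wd S X = 1 ∧ c X ≠ 0
      · obtain ⟨X, hX1, hX2⟩ := hX
        exact key_w1 hsg hI hm2 hE hS hinv hX1 hX2 hpos
      · push Not at hX
        obtain ⟨i, j, hi, hj⟩ := wd_zero_pair S T h0
        have hiS := wd_zero_side1 S T i h0 hi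
        have hjS := wd_zero_side2 S T j h0 hj
        have hij : i ≠ j := fun h => hj (h ▸ hi)
        let d := actA sg i j 1 c
        have hdS : d S ≠ 0 := by
          have : d S = c S := by
            simp only [d]
            rw [actA_yes ⟨hjS, hiS⟩, hinv _ (wd_opp_S S i j hiS hjS)]
            ring
          rw [this]
          exact hS
        have hdinv : InvS S d := by
          intro X hX2
          simp only [d]
          by_cases hh : j ∈ X.1 ∧ i ∉ X.1
          · rw [actA_yes hh, hinv X hX2, hX _ (wd_opp_X S X i j hiS hjS hX2 hh.1 hh.2)]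
            ring
          · rw [actA_not hh, hinv X hX2]
        have hdT : d (nb T i j) ≠ 0 := by
          have hcr := (nb_crit T i j i j hi hj hi hj).2 ⟨rfl, rfl⟩
          simp only [d]
          rw [actA_yes hcr, mv_nb T i j hi hj, hX _ (wd_opp_T S T i j h0 hi hj), zero_add]
          exact mul_ne_zero (mul_ne_zero (sg_ne hsg _ _ _) one_ne_zero) hcT
        have hdn : 0 < n d := by
          have : n c = n d := hI.A i j hij 1 c
          rw [← this]
          exact hpos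
        exact key_w1 hsg hI hm2 hE hdS hdinv (wd_opp_T S T i j h0 hi hj) hdT hdn
    · exact key_w1 hsg hI hm2 hE hS hinv h1 hcT hpos
    · exact hcT (hinv T h2)
  funext T
  by_cases h : T = S
  · subst h
    simp
  · rw [hall T h, Pi.single_eq_of_ne h]

/-- The support of `n`. -/
lemma support (hsg : ∀ i j T, sg i j T = 1 ∨ sg i j T = -1) (hI : InvE sg n) {m : ℕ} (hm2 : m ≤ 2)
    (hE : ∀ T : S3, ∑ c : S3 → F, (if c T ≠ 0 then n c else 0) = (Fintype.card F - 1) * Fintype.card F ^ 9 * m)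
    {S : S3} {l : List Pr} (hn : l.Nodup) (hl : ∀ p, p ∈ l ↔ (p.1 ∈ S.1 ∧ p.2 ∉ S.1)) {c : S3 → F} (hS : c S ≠ 0)
    (hpos : 0 < n c) : ∃ u, c = psi sg l u (Pi.single S (c S)) := by
  have hlr : ∀ p, p ∈ l.reverse ↔ (p.1 ∈ S.1 ∧ p.2 ∉ S.1) := fun p => by rw [List.mem_reverse]; exact hl p
  obtain ⟨u, hu⟩ := normal_form hsg (List.nodup_reverse.mpr hn) hlr hS
  have hd : ∀ p ∈ l, p.1 ≠ p.2 := fun p hp => pair_ne ((hl p).1 hp)
  have hdr : ∀ p ∈ l.reverse, p.1 ≠ p.2 := fun p hp => pair_ne ((hlr p).1 hp)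
  have hdS : psi sg l.reverse u c S = c S := psi_S (fun p hp => not_P ((hlr p).1 hp)) _ _
  have h1 := key hsg hI hm2 hE (c := psi sg l.reverse u c) (by rw [hdS]; exact hS) hu
    (by rw [n_psi hI hdr]; exact hpos)
  rw [hdS] at h1
  refine ⟨fun p => - u p, ?_⟩
  rw [← h1]
  exact (psi_rev hd u c).symm

lemma n_single (hI : InvE sg n) (S : S3) {a : F} (ha : a ≠ 0) : n (Pi.single S a) = n (Pi.single S 1) := by
  obtain ⟨i, j, hi, hj⟩ := exists_pair S
  have hij : i ≠ j := fun h => hj (h ▸ hi)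
  rw [hI.torus i j hij (Units.mk0 a ha) (Pi.single S 1)]
  congr 1
  funext T
  by_cases h : T = S
  · subst h
    simp [pw_one T i j hi hj]
  · simp [Pi.single_eq_of_ne h]

lemma card_ne : Fintype.card {a : F // a ≠ 0} = Fintype.card F - 1 := by
  rw [Fintype.card_subtype_compl]
  simp

/-- The first part. -/
lemma n_single_eq (hsg : ∀ i j T, sg i j T = 1 ∨ sg i j T = -1) (hI : InvE sg n) {m : ℕ} (hm2 : m ≤ 2)
    (hE : ∀ T : S3, ∑ c : S3 → F, (if c T ≠ 0 then n c else 0) = (Fintype.card F - 1) * Fintype.card F ^ 9 * m)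
    (S : S3) {a : F} (ha : a ≠ 0) : n (Pi.single S a) = m := by
  have hl9 : ∀ p ∈ (pairsF S).toList, p.1 ∈ S.1 ∧ p.2 ∉ S.1 := fun p hp =>
    mem_pairs.mp (Finset.mem_toList.mp hp)
  have hnd9 := Finset.nodup_toList (pairsF S)
  have hd9 : ∀ p ∈ (pairsF S).toList, p.1 ≠ p.2 := fun p hp => pair_ne (hl9 p hp)
  let G : {a : F // a ≠ 0} × ({p // p ∈ pairsF S} → F) → (S3 → F) :=
    fun x => psi sg (pairsF S).toList (ext _ x.2) (Pi.single S x.1.1)
  have hGS : ∀ x, G x S = x.1.1 := fun x => by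
    change psi sg (pairsF S).toList (ext _ x.2) (Pi.single S x.1.1) S = _
    rw [psi_S (fun p hp => not_P (hl9 p hp))]
    simp
  have hinj : Function.Injective G := by
    rintro ⟨⟨a, ha⟩, u⟩ ⟨⟨a', ha'⟩, u'⟩ h
    have e0 : a = a' := by
      have := congrArg (fun f => f S) h
      simpa only [hGS] using this
    subst e0
    have hu : u = u' := by
      funext ⟨p, hp⟩
      have hp' := mem_pairs.mp hp
      have hpl : (p.1, p.2) ∈ (pairsF S).toList := Finset.mem_toList.mpr hp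
      have e := congrFun h (nb S p.1 p.2)
      simp only [G] at e
      rw [psi_nb hnd9 hl9 _ _ hp'.1 hp'.2, psi_nb hnd9 hl9 _ _ hp'.1 hp'.2, if_pos hpl, if_pos hpl] at e
      have e' := add_left_cancel e
      simp only [Pi.single_eq_same] at e'
      have h0 := sg_ne hsg p.1 p.2 (nb S p.1 p.2)
      have e2 : ext (pairsF S) u p = ext (pairsF S) u' p := by
        exact mul_left_cancel₀ h0 (mul_right_cancel₀ ha e')
      rwa [ext_mem u hp, ext_mem u' hp] at e2
    rw [hu]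
  have hlm : ∀ p, p ∈ (pairsF S).toList ↔ (p.1 ∈ S.1 ∧ p.2 ∉ S.1) := fun p => by
    rw [Finset.mem_toList, mem_pairs]
  have hsum : ∑ c : S3 → F, (if c S ≠ 0 then n c else 0) = _ := sum_param (n := n) G hinj (fun d => d S ≠ 0) (fun x => by
      show G x S ≠ 0
      rw [hGS]
      exact x.1.2)
    (fun c hc hp => by
      obtain ⟨u, hu⟩ := support hsg hI hm2 hE hnd9 hlm hc hp
      refine ⟨(⟨c S, hc⟩, fun p => u p.1), ?_⟩
      simp only [G]
      rw [psi_congr (v := u) (fun p hp => ext_mem _ (Finset.mem_toList.mp hp))]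
      exact hu.symm)
  have hGn : ∀ x, n (G x) = n (Pi.single S 1) := fun x => by
    change n (psi sg (pairsF S).toList (ext _ x.2) (Pi.single S x.1.1)) = _
    rw [n_psi hI hd9, n_single hI S x.1.2]
  rw [hE S] at hsum
  simp only [hGn, Finset.sum_const, Finset.card_univ, smul_eq_mul] at hsum
  rw [Fintype.card_prod, card_ne, card_q, card_pairs] at hsum
  have hq := two_le_q (F := F)
  have h9 : 0 < (Fintype.card F - 1) * Fintype.card F ^ 9 := by
    apply Nat.mul_pos
    · omega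
    · positivity
  rw [n_single hI S ha]
  exact (Nat.eq_of_mul_eq_mul_left h9 hsum).symm

end PureAux

/-- The structure theorem. PLAN.md, paragraph `Pure`. -/
theorem pure_thm (hsg : ∀ i j T, sg i j T = 1 ∨ sg i j T = -1) (hI : InvE sg n) {m : ℕ} (hm : 0 < m) (hm2 : m ≤ 2)
    (hE : ∀ T : S3, ∑ c : S3 → F, (if c T ≠ 0 then n c else 0) = (Fintype.card F - 1) * Fintype.card F ^ 9 * m) :
    (∀ (T : S3) (a : F), a ≠ 0 → n (Pi.single T a) = m) ∧
    ∑ c : S3 → F, (if c ≠ 0 then n c else 0) = m * ((Fintype.card F - 1) * gaussN (Fintype.card F)) := by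
  have h1 : ∀ (S : S3) (a : F), a ≠ 0 → n (Pi.single S a) = m := fun S a ha =>
    PureAux.n_single_eq hsg hI hm2 hE S ha
  refine ⟨h1, pure_count hsg hI h1 ?_⟩
  intro S c hc hp
  exact PureAux.support hsg hI hm2 hE (nodup_pairsE S) (fun p => mem_pairsE) hc hp

end Cfsg.Agent.Lib.MinE6
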