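import Cfsg.Agent.Lib.MinE6.Pure

/-! The reduction when `k < B`. -/

set_option autoImplicit false
set_option linter.unusedSectionVars false
set_option linter.unusedVariables false

namespace Cfsg.Agent.Lib.MinE6

open Module
open scoped Classical

variable {F : Type*} [Field F] {Γ : Type*} [Group Γ] {V : Type*} [AddCommGroup V] [Module ℂ V]
variable {S : SysE F Γ} {ρ : Representation ℂ Γ V} {ψ : AddChar F ℂ}

lemma red_ar1 {q : ℕ} (hq : 2 ≤ q) : BB q ≤ 3 * ((q - 1) * q ^ 10) := by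
  obtain ⟨s, rfl⟩ : ∃ s, q = s + 2 := ⟨q - 2, by omega⟩
  have e : s + 2 - 1 = s + 1 := rfl
  rw [e]
  unfold BB
  have : 3 * ((s + 1) * (s + 2) ^ 10) = (s + 2) * ((s + 2) ^ 6 + (s + 2) ^ 3 + 1) * ((s + 2) ^ 4 + 1) +
      (590 + 5583 * s ^ 1 + 19192 * s ^ 2 + 36000 * s ^ 3 + 42749 * s ^ 4 + 34411 * s ^ 5 + 19362 * s ^ 6 +
        7663 * s ^ 7 + 2099 * s ^ 8 + 380 * s ^ 9 + 41 * s ^ 10 + 2 * s ^ 11) := by ring
  omega

lemma red_ar2 {q : ℕ} (hq : 2 ≤ q) : BB q ≤ 2 * k0 q := by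
  obtain ⟨s, rfl⟩ : ∃ s, q = s + 2 := ⟨q - 2, by omega⟩
  unfold BB k0 gaussN
  have e : s + 2 - 1 = s + 1 := rfl
  rw [e]
  have : 2 * ((s + 1) * (s + 2) ^ 10 + (s + 1) * (((s + 2) ^ 3 + 1) * ((s + 2) ^ 2 + 1) *
      ((s + 2) ^ 4 + (s + 2) ^ 3 + (s + 2) ^ 2 + (s + 2) + 1))) =
      (s + 2) * ((s + 2) ^ 6 + (s + 2) ^ 3 + 1) * ((s + 2) ^ 4 + 1) +
      (2356 + 12591 * s ^ 1 + 30506 * s ^ 2 + 44542 * s ^ 3 + 43629 * s ^ 4 + 30099 * s ^ 5 + 14910 * s ^ 6 +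
        5297 * s ^ 7 + 1321 * s ^ 8 + 220 * s ^ 9 + 22 * s ^ 10 + 1 * s ^ 11) := by ring
  omega

/-- If `k < B` then `d = q¹⁰`, the lines have dimension one, `k = k0 + dim V^U`. From `exists_m`, `d_pos`, `k_eq`, `inv_nf`, `pure_thm`: `(q - 1) q¹⁰ m ≤ k < B` gives `m ≤ 2`; `k = m k0 + n0`; `2 k0 ≥ B` gives `m = 1`. -/
theorem red [Fintype F] [FiniteDimensional ℂ V] (hψ : ψ ≠ 1) (hfix : NoFix S ρ) (hV : Nontrivial V) (hk : finrank ℂ V < BB (Fintype.card F)) :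
    (∀ a : F, a ≠ 0 → nfE S ρ ψ (Pi.single β₀ a) = 1) ∧ finrank ℂ V = k0 (Fintype.card F) + wr S ρ ψ (clist 0) := by
  classical
  have hq2 : 2 ≤ Fintype.card F := Fintype.one_lt_card
  obtain ⟨m, hm1, hm2⟩ := exists_m (S := S) (ρ := ρ) hψ
  have hd := d_pos (S := S) (ρ := ρ) hψ hfix hV
  have hm0 : 0 < m := by
    rcases Nat.eq_zero_or_pos m with h | h
    · rw [hm1, h, mul_zero] at hd
      exact absurd hd (lt_irrefl _)
    · exact h
  have hkeq := k_eq (S := S) (ρ := ρ) (ψ := ψ) hψ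
  rw [hm1] at hkeq
  have hm3 : m ≤ 2 := by
    by_contra hc
    have h3 : 3 ≤ m := by omega
    have h1 : 3 * ((Fintype.card F - 1) * Fintype.card F ^ 10) ≤ (Fintype.card F - 1) * (Fintype.card F ^ 10 * m) := by
      calc 3 * ((Fintype.card F - 1) * Fintype.card F ^ 10) = (Fintype.card F - 1) * (Fintype.card F ^ 10 * 3) := by ring
        _ ≤ _ := Nat.mul_le_mul_left _ (Nat.mul_le_mul_left _ h3)
    have h2 := red_ar1 hq2
    omega
  obtain ⟨h1, h2⟩ := pure_thm S.sg_sign (inv_nf (S := S) (ρ := ρ) (ψ := ψ)) hm0 hm3 hm2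
  have hsplit : ∑ c : S3 → F, nfE S ρ ψ c = nfE S ρ ψ 0 + ∑ c : S3 → F, (if c ≠ 0 then nfE S ρ ψ c else 0) := by
    have h : ∀ c : S3 → F, nfE S ρ ψ c = (if c = 0 then nfE S ρ ψ c else 0) + (if c ≠ 0 then nfE S ρ ψ c else 0) := by
      intro c
      by_cases hc : c = 0
      · simp [hc]
      · simp [hc]
    calc ∑ c : S3 → F, nfE S ρ ψ c
        = ∑ c : S3 → F, ((if c = 0 then nfE S ρ ψ c else 0) + (if c ≠ 0 then nfE S ρ ψ c else 0)) :=
          Finset.sum_congr rfl fun c _ => h c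
      _ = _ := by
          rw [Finset.sum_add_distrib]
          congr 1
          rw [Finset.sum_ite_eq' Finset.univ (0 : S3 → F) (nfE S ρ ψ)]
          simp
  rw [hsplit, h2] at hkeq
  have hn0 : nfE S ρ ψ 0 = wr S ρ ψ (clist 0) := rfl
  rw [hn0] at hkeq
  have hkm : finrank ℂ V = m * k0 (Fintype.card F) + wr S ρ ψ (clist 0) := by
    rw [hkeq]
    unfold k0
    ring
  have hm1' : m = 1 := by
    by_contra hc
    have hm2' : m = 2 := by omega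
    rw [hm2'] at hkm
    have h3 := red_ar2 hq2
    omega
  subst hm1'
  refine ⟨fun a ha => h1 β₀ a ha, ?_⟩
  rw [hkm, one_mul]

end Cfsg.Agent.Lib.MinE6
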