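import Cfsg.Agent.Lib.MinE6.R4
import Cfsg.Agent.Lib.SLDeg.Main
import Cfsg.Agent.Lib.Classical.Transvections

/-! The fixed vectors of `U` when `L` acts nontrivially on them. -/

set_option autoImplicit false
set_option linter.unusedSectionVars false
set_option linter.unusedVariables false

namespace Cfsg.Agent.Lib.MinE6

open Module
open scoped Classical

variable {F : Type*} [Field F] {Γ : Type*} [Group Γ] {V : Type} [AddCommGroup V] [Module ℂ V]
variable {S : SysE F Γ} {ρ : Representation ℂ Γ V} {ψ : AddChar F ℂ}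

/-- `x (rt i j) t` stabilises `R`. -/
theorem rt_RR_aux (i j : Fin 6) (hij : i ≠ j) (t : F) {v : V} (hv : v ∈ RR S ρ ψ) :
    ρ (S.x (rt i j) t) v ∈ RR S ρ ψ := by
  have hfix0 : ∀ u, ρ (S.x 71 u) v = v := by
    intro u
    have := hv (71, 0) (mem_clist.mpr (Or.inl rfl)) u
    simpa using this
  have hfixT : ∀ T u, ρ (S.x (gam T) u) v = v := by
    intro T u
    have := hv (gam T, (0 : S3 → F) T) (mem_clist.mpr (Or.inr ⟨T, rfl⟩)) u
    simpa using this
  rw [mem_Wt]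
  intro p hp u
  rcases mem_clist.mp hp with rfl | ⟨T, rfl⟩
  · simp only [zero_mul, AddChar.map_zero_eq_one, one_smul]
    rw [← Module.End.mul_apply, ← map_mul, S.lt i j hij, map_mul, Module.End.mul_apply, hfix0]
  · simp only [Pi.zero_apply, zero_mul, AddChar.map_zero_eq_one, one_smul]
    rw [← Module.End.mul_apply, ← map_mul]
    by_cases h : j ∈ T.1 ∧ i ∉ T.1
    · rw [S.lu i j T hij h.1 h.2, map_mul, map_mul, Module.End.mul_apply, Module.End.mul_apply,
        hfixT, hfixT]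
    · rw [S.lu0 i j T hij h, map_mul, Module.End.mul_apply, hfixT]

/-- `x (rt i j) t` stabilises `R` (`actA` fixes `0`). So `SL₆(F)` acts on `R` through `slh`; it acts nontrivially, so `SLDeg.Main.bound_all`. -/
theorem R_large [Fintype F] [FiniteDimensional ℂ V] (hψ : ψ ≠ 1) (hL : ¬ LTriv S ρ ψ) :
    (Fintype.card F ^ 6 - Fintype.card F) / (Fintype.card F - 1) ≤ wr S ρ ψ (clist 0) := by
  have hinv : ∀ g : Matrix.SpecialLinearGroup (Fin 6) F, ∀ v ∈ RR S ρ ψ,
      (ρ.comp S.slh) g v ∈ RR S ρ ψ := by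
    intro g
    refine Cfsg.Agent.Lib.Classical.Transvections.transvection_induction
      (fun g => ∀ v ∈ RR S ρ ψ, (ρ.comp S.slh) g v ∈ RR S ρ ψ) g ?_ ?_
    · intro i j hij a v hv
      change ρ (S.slh _) v ∈ _
      rw [S.slh_tr i j hij a]
      exact rt_RR_aux i j hij _ hv
    · intro A B hA hB v hv
      rw [map_mul, Module.End.mul_apply]
      exact hA _ (hB v hv)
  have hnt : ∃ g, Cfsg.Agent.Lib.SLDeg.Res.subRep (ρ.comp S.slh) (RR S ρ ψ) hinv g ≠ 1 := by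
    unfold LTriv at hL
    push Not at hL
    obtain ⟨i, j, hij, a, v, hv, hne⟩ := hL
    have hste : S.ste i j * S.ste i j = 1 := by
      rcases S.ste_sign i j with h | h <;> simp [h]
    refine ⟨Matrix.SpecialLinearGroup.transvection hij (S.ste i j * a), fun h1 => hne ?_⟩
    have h2 := congrArg Subtype.val (LinearMap.congr_fun h1 ⟨v, hv⟩)
    have e : S.slh (Matrix.SpecialLinearGroup.transvection hij (S.ste i j * a)) = S.x (rt i j) a := by
      rw [S.slh_tr, ← mul_assoc, hste, one_mul]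
    rw [Cfsg.Agent.Lib.SLDeg.Res.subRep_coe] at h2
    change ρ (S.slh _) v = v at h2
    rwa [e] at h2
  have hb := Cfsg.Agent.Lib.SLDeg.Main.bound_all 6 (Fin 6) (↥(RR S ρ ψ))
    (Cfsg.Agent.Lib.SLDeg.Res.subRep (ρ.comp S.slh) (RR S ρ ψ) hinv) (by simp) (by norm_num)
    (by simp [Cfsg.Agent.Lib.SLDeg.Main.NE]) hnt
  have hq : 2 ≤ Fintype.card F := Fintype.one_lt_card
  have hwr : wr S ρ ψ (clist 0) = finrank ℂ (RR S ρ ψ) := rfl
  rw [hwr]
  generalize finrank ℂ (RR S ρ ψ) = w at hb ⊢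
  generalize Fintype.card F = q at hb hq ⊢
  have h1 : Cfsg.Agent.Lib.SLDeg.Num.rr q 6 = 1 + (q + q ^ 2 + q ^ 3 + q ^ 4 + q ^ 5) := by
    simp [Cfsg.Agent.Lib.SLDeg.Num.rr, Finset.sum_range_succ]
    ring
  rw [h1] at hb
  have hW : q + q ^ 2 + q ^ 3 + q ^ 4 + q ^ 5 ≤ w := by omega
  obtain ⟨s, rfl⟩ : ∃ s, q = s + 2 := ⟨q - 2, by omega⟩
  apply Nat.div_le_of_le_mul
  have e1 : s + 2 - 1 = s + 1 := by omega
  rw [e1]
  have e2 : (s + 2) ^ 6 = (s + 1) * ((s + 2) + (s + 2) ^ 2 + (s + 2) ^ 3 + (s + 2) ^ 4 + (s + 2) ^ 5) + (s + 2) := by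
    ring
  calc (s + 2) ^ 6 - (s + 2) = (s + 1) * ((s + 2) + (s + 2) ^ 2 + (s + 2) ^ 3 + (s + 2) ^ 4 + (s + 2) ^ 5) := by
        rw [e2]; exact Nat.add_sub_cancel _ _
    _ ≤ (s + 1) * w := Nat.mul_le_mul_left _ hW

end Cfsg.Agent.Lib.MinE6
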