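import Mathlib

/-!
# Abstract relations of `E₆(F)` and the weight spaces of a representation

Root indices of `chevE6`: see the end of `Prelude/Def_ChevE6`. The highest root is 71 `θ`, `β = α₂` is 46, `-β` is 25.
The Levi `A₅` has the roots `e_i - e_j` (`rt i j`, `e₁-e₂ = α₁`, `e₂-e₃ = α₃`, `e₃-e₄ = α₄`, `e₄-e₅ = α₅`, `e₅-e₆ = α₆`); the 20 roots of `U/Z` are
the `gam T`, `T` a 3-subset of `Fin 6`; `gam {3,4,5} = β`, `gam T + gam Tᶜ = θ`, `gam T + rt i j = gam (T - j + i)` if `j ∈ T`, `i ∉ T`, otherwise not a root.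
-/

set_option autoImplicit false
set_option linter.unusedSectionVars false
set_option linter.unusedVariables false

namespace Cfsg.Agent.Lib.MinE6

open Module

/-- The 3-subsets of `Fin 6`. -/
abbrev S3 := {S : Finset (Fin 6) // S.card = 3}

/-- The complement. -/
def compl3 (T : S3) : S3 := ⟨T.1ᶜ, by
  rw [Finset.card_compl, T.2]
  simp⟩

/-- `T - j + i`, when `j ∈ T`, `i ∉ T` (otherwise `T`). -/
def mv (i j : Fin 6) (T : S3) : S3 :=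
  if h : j ∈ T.1 ∧ i ∉ T.1 then ⟨insert i (T.1.erase j), by
    rw [Finset.card_insert_of_notMem (by simp [h.2]), Finset.card_erase_of_mem h.1, T.2]⟩ else T

/-- The transposition on 3-subsets. -/
def swp (i j : Fin 6) (T : S3) : S3 := ⟨T.1.map (Equiv.swap i j).toEmbedding, by
  rw [Finset.card_map, T.2]⟩

/-- The exponent of the torus element attached to `e_i - e_j` on `gam T`. -/
def pw (i j : Fin 6) (T : S3) : ℤ := (if i ∈ T.1 then 1 else 0) - (if j ∈ T.1 then 1 else 0)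

/-- The table of `gam` by bitmask. -/
def gamArr : Array ℕ := #[0, 0, 0, 0, 0, 0, 0, 70, 0, 0, 0, 69, 0, 66, 55, 0, 0, 0, 0, 68, 0, 65, 54, 0, 0, 63, 52, 0, 49, 0, 0, 0, 0, 0, 0, 67, 0, 64, 53, 0, 0, 62, 51, 0, 48, 0, 0, 0, 0, 61, 50, 0, 47, 0, 0, 0, 46, 0, 0, 0, 0, 0, 0, 0]

/-- The root `gam T`. -/
def gam (T : S3) : ℕ := gamArr.getD (T.1.sum fun k => 2 ^ k.val) 0

/-- The table of `rt`. -/
def rtArr : Array ℕ := #[0, 56, 57, 58, 59, 60, 15, 0, 42, 43, 44, 45, 14, 29, 0, 39, 40, 41, 13, 28, 32, 0, 37, 38, 12, 27, 31, 34, 0, 36, 11, 26, 30, 33, 35, 0]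

/-- The root `e_i - e_j`. -/
def rt (i j : Fin 6) : ℕ := rtArr.getD (6 * i.val + j.val) 0

/-- The reflection in `β`. -/
def reflArr : Array ℕ := #[1, 0, 2, 3, 4, 5, 6, 7, 11, 12, 13, 8, 9, 10, 14, 15, 16, 17, 18, 26, 27, 28, 30, 31, 32, 46, 19, 20, 21, 29, 22, 23, 24, 33, 34, 35, 36, 37, 38, 47, 48, 49, 42, 50, 51, 52, 25, 39, 40, 41, 43, 44, 45, 53, 54, 55, 56, 57, 61, 62, 63, 58, 59, 60, 64, 65, 66, 67, 68, 69, 71, 70]

/-- The reflection in `β`. -/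
def reflB (r : ℕ) : ℕ := reflArr.getD r 0

/-- `{3, 4, 5}`: `gam β₀ = β`. -/
def β₀ : S3 := ⟨{3, 4, 5}, by decide⟩

/-- The relations of `E₆(F)` we use. -/
structure SysE (F : Type*) [Field F] (Γ : Type*) [Group Γ] where
  x : ℕ → F → Γ
  x_add : ∀ r, r < 72 → ∀ a b, x r (a + b) = x r a * x r b
  /-- `U` -/
  tt : ∀ T u w, x 71 u * x (gam T) w = x (gam T) w * x 71 u
  uu : ∀ T T', T' ≠ compl3 T → ∀ u w, x (gam T) u * x (gam T') w = x (gam T') w * x (gam T) u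
  eps : S3 → F
  eps_sign : ∀ T, eps T = 1 ∨ eps T = -1
  uc : ∀ T u t, x (gam T) u * x (gam (compl3 T)) t = x (gam (compl3 T)) t * x (gam T) u * x 71 (eps T * (t * u))
  /-- `L` on `U` -/
  sg : Fin 6 → Fin 6 → S3 → F
  sg_sign : ∀ i j T, sg i j T = 1 ∨ sg i j T = -1
  lt : ∀ i j, i ≠ j → ∀ u w, x 71 u * x (rt i j) w = x (rt i j) w * x 71 u
  lu0 : ∀ i j T, i ≠ j → ¬ (j ∈ T.1 ∧ i ∉ T.1) → ∀ u t, x (gam T) u * x (rt i j) t = x (rt i j) t * x (gam T) u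
  lu : ∀ i j T, i ≠ j → j ∈ T.1 → i ∉ T.1 → ∀ u t,
    x (gam T) u * x (rt i j) t = x (rt i j) t * x (gam T) u * x (gam (mv i j T)) (sg i j T * (t * u))
  /-- Weyl elements of `L`: `wL i j = n_{rt i j}(1)` -/
  wL : Fin 6 → Fin 6 → Γ
  w_conj : ∀ i j, i ≠ j → ∀ T, ∃ η : F, (η = 1 ∨ η = -1) ∧ ∀ u, wL i j * x (gam T) u * (wL i j)⁻¹ = x (gam (swp i j T)) (η * u)
  w_th : ∀ i j, i ≠ j → ∃ η : F, (η = 1 ∨ η = -1) ∧ ∀ u, wL i j * x 71 u * (wL i j)⁻¹ = x 71 (η * u)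
  /-- the torus of `L`: `hL i j = h_{rt i j}` -/
  hL : Fin 6 → Fin 6 → Fˣ → Γ
  hL_gam : ∀ i j, i ≠ j → ∀ (s : Fˣ) T u, hL i j s * x (gam T) u * (hL i j s)⁻¹ = x (gam T) (((s ^ pw i j T : Fˣ) : F) * u)
  hL_th : ∀ i j, i ≠ j → ∀ (s : Fˣ) u, hL i j s * x 71 u * (hL i j s)⁻¹ = x 71 u
  /-- `h_β` -/
  hb : Fˣ → Γ
  hb_mul : ∀ c c', hb (c * c') = hb c * hb c'
  hb_th : ∀ (c : Fˣ) u, hb c * x 71 u * (hb c)⁻¹ = x 71 ((c : F) * u)
  hb_gam : ∀ T, ∃ e : ℤ, ∀ (c : Fˣ) u, hb c * x (gam T) u * (hb c)⁻¹ = x (gam T) (((c ^ e : Fˣ) : F) * u)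
  hb_β : ∀ (c : Fˣ) u, hb c * x 46 u * (hb c)⁻¹ = x 46 ((c : F) ^ 2 * u)
  /-- `n_β(1)` -/
  nb : Γ
  nb_eq : ∀ c : Fˣ, x 46 c * x 25 (-((c : F)⁻¹)) * x 46 c = hb c * nb
  nb_conj : ∀ r, r < 72 → ∃ η : F, (η = 1 ∨ η = -1) ∧ ∀ u, nb * x r u * nb⁻¹ = x (reflB r) (η * u)
  nb_hb : ∀ c, nb * hb c * nb⁻¹ = hb c⁻¹
  /-- all the roots are conjugate to `θ` -/
  lconj : ∀ r, r < 72 → ∃ g : Γ, ∃ η : F, (η = 1 ∨ η = -1) ∧ ∀ u, g * x 71 u * g⁻¹ = x r (η * u)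
  /-- generation -/
  gen : ∀ K : Subgroup Γ, (∀ i j, i ≠ j → ∀ u, x (rt i j) u ∈ K) → (∀ u, x 46 u ∈ K) → (∀ u, x 25 u ∈ K) → K = ⊤
  /-- the homomorphism from `SL₆(F)` -/
  slh : Matrix.SpecialLinearGroup (Fin 6) F →* Γ
  ste : Fin 6 → Fin 6 → F
  ste_sign : ∀ i j, ste i j = 1 ∨ ste i j = -1
  slh_tr : ∀ i j (h : i ≠ j) (a : F), slh (Matrix.SpecialLinearGroup.transvection h a) = x (rt i j) (ste i j * a)

variable {F : Type*} [Field F] {Γ : Type*} [Group Γ] {V : Type*} [AddCommGroup V] [Module ℂ V]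

/-- The simultaneous eigenspace of the root groups in the list `l`: `x_r(u)` acts by `ψ (a * u)` for `(r, a) ∈ l`. -/
def Wt (S : SysE F Γ) (ρ : Representation ℂ Γ V) (ψ : AddChar F ℂ) (l : List (ℕ × F)) : Submodule ℂ V where
  carrier := {v | ∀ p ∈ l, ∀ u, ρ (S.x p.1 u) v = ψ (p.2 * u) • v}
  add_mem' := by
    intro a b ha hb p hp u
    rw [map_add, ha p hp u, hb p hp u, smul_add]
  zero_mem' := by
    intro p hp u
    simp
  smul_mem' := by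
    intro c v hv p hp u
    rw [map_smul, hv p hp u, smul_comm]

lemma mem_Wt {S : SysE F Γ} {ρ : Representation ℂ Γ V} {ψ : AddChar F ℂ} {l : List (ℕ × F)} {v : V} :
    v ∈ Wt S ρ ψ l ↔ ∀ p ∈ l, ∀ u, ρ (S.x p.1 u) v = ψ (p.2 * u) • v := Iff.rfl

/-- The dimension of a weight space. -/
noncomputable def wr (S : SysE F Γ) (ρ : Representation ℂ Γ V) (ψ : AddChar F ℂ) (l : List (ℕ × F)) : ℕ :=
  finrank ℂ (Wt S ρ ψ l)

/-- The list of the weight `c` on `U`, trivial on `x 71`. -/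
noncomputable def clist (c : S3 → F) : List (ℕ × F) :=
  (71, 0) :: (Finset.univ.toList.map fun T : S3 => (gam T, c T))

lemma mem_clist {c : S3 → F} {p : ℕ × F} : p ∈ clist c ↔ p = (71, 0) ∨ ∃ T, p = (gam T, c T) := by
  simp [clist, eq_comm]

/-- The dimension of the weight space of `c` in the fixed vectors of `x 71`. -/
noncomputable def nfE (S : SysE F Γ) (ρ : Representation ℂ Γ V) (ψ : AddChar F ℂ) (c : S3 → F) : ℕ :=
  wr S ρ ψ (clist c)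

/-- No nonzero vector is fixed by the generators. -/
def NoFix (S : SysE F Γ) (ρ : Representation ℂ Γ V) : Prop :=
  ∀ v : V, (∀ i j, i ≠ j → ∀ u, ρ (S.x (rt i j) u) v = v) → (∀ u, ρ (S.x 46 u) v = v) → (∀ u, ρ (S.x 25 u) v = v) → v = 0

/-- The action of `x (rt i j) t` on weights. -/
def actA (sg : Fin 6 → Fin 6 → S3 → F) (i j : Fin 6) (t : F) (c : S3 → F) : S3 → F :=
  fun T => if j ∈ T.1 ∧ i ∉ T.1 then c T + sg i j T * t * c (mv i j T) else c T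

/-- `q⁶`-Gaussian binomial `[6, 3]_q`: the number of points of the Grassmannian. -/
def gaussN (q : ℕ) : ℕ := (q ^ 3 + 1) * (q ^ 2 + 1) * (q ^ 4 + q ^ 3 + q ^ 2 + q + 1)

/-- The degree without the fixed vectors of `U`. -/
def k0 (q : ℕ) : ℕ := (q - 1) * q ^ 10 + (q - 1) * gaussN q

/-- The bound. -/
def BB (q : ℕ) : ℕ := q * (q ^ 6 + q ^ 3 + 1) * (q ^ 4 + 1)

/-- A multiple of the order of the group. -/
def NN (q : ℕ) : ℕ := q ^ 36 * ((q ^ 2 - 1) * (q ^ 5 - 1) * (q ^ 6 - 1) * (q ^ 8 - 1) * (q ^ 9 - 1) * (q ^ 12 - 1))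

end Cfsg.Agent.Lib.MinE6
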