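import Cfsg.Agent.Lib.MinE6.Rn
import Cfsg.Agent.Lib.MinE6.Ar
import Cfsg.Agent.Lib.MinE6.Inst
import Cfsg.Agent.Lib.Char.Central
import Cfsg.Statements.S2340

/-! The assembly. -/

set_option autoImplicit false
set_option linter.unusedSectionVars false
set_option linter.unusedVariables false
set_option linter.ambiguousOpen false
set_option linter.style.haveILetI false

namespace Cfsg.Agent.Lib.MinE6

open Module
open Cfsg Lie

/-- The abstract bound. -/
theorem bound_abs {F : Type*} [Field F] [Fintype F] {Γ : Type*} [Group Γ] [Finite Γ] {V : Type} [AddCommGroup V] [Module ℂ V] [FiniteDimensional ℂ V]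
    (S : SysE F Γ) (ρ : Representation ℂ Γ V) (ψ : AddChar F ℂ) (hψ : ψ ≠ 1) (hfix : NoFix S ρ) (hV : Nontrivial V)
    (hd : finrank ℂ V ∣ NN (Fintype.card F)) : BB (Fintype.card F) ≤ finrank ℂ V := by
  by_contra hc
  have hlt : finrank ℂ V < BB (Fintype.card F) := by omega
  have hq : 2 ≤ Fintype.card F := Fintype.one_lt_card
  obtain ⟨hl, hk⟩ := red (S := S) (ρ := ρ) (ψ := ψ) hψ hfix hV hlt
  rw [hk] at hd hlt
  by_cases hL : LTriv S ρ ψ
  · exact no_dvd0 hq (R_le_four hψ hfix hL hl) hd
  · have h1 := R_large (S := S) (ρ := ρ) hψ hL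
    rw [w_eq hq] at h1
    rw [BB_eq hq] at hlt
    have h2 : wr S ρ ψ (clist 0) = Fintype.card F ^ 5 + Fintype.card F ^ 4 + Fintype.card F ^ 3 + Fintype.card F ^ 2 + Fintype.card F := by omega
    rw [h2] at hd
    exact no_dvd1 hq hd

/-- The statement. -/
theorem main {F : Type*} [Field F] [Fintype F] (k : ℕ) (ρ : Representation ℂ (Cfsg.Lie.chevE6.group F) (Fin k → ℂ)) (hρ : ρ.IsIrreducible) (hk : 2 ≤ k) :
    Fintype.card F * (Fintype.card F ^ 6 + Fintype.card F ^ 3 + 1) * (Fintype.card F ^ 4 + 1) ≤ k := by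
  classical
  obtain ⟨S⟩ := exists_sys F
  obtain ⟨ψ, hψ1⟩ : ∃ ψ : AddChar F ℂ, ψ 1 ≠ 1 := by
    obtain ⟨ψ, hψ⟩ := AddChar.exists_apply_ne_zero.mpr (one_ne_zero (α := F))
    exact ⟨ψ, hψ⟩
  have hψ : ψ ≠ 1 := by
    rintro rfl
    simp at hψ1
  haveI : Nontrivial (Fin k → ℂ) := by
    haveI : Nontrivial (Fin k) := Fin.nontrivial_iff_two_le.2 hk
    infer_instance
  have hfin : finrank ℂ (Fin k → ℂ) = k := by simp
  have hV : Nontrivial (Fin k → ℂ) := inferInstance
  have hfix : NoFix S ρ := by
    intro v hv1 hv2 hv3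
    by_contra hv0
    let K : Subgroup ↥(chevE6.group F) :=
      { carrier := {g | ρ g v = v}
        mul_mem' := by
          intro a b ha hb
          show ρ (a * b) v = v
          rw [map_mul, Module.End.mul_apply, hb, ha]
        one_mem' := by
          show ρ 1 v = v
          simp
        inv_mem' := by
          intro a ha
          show ρ a⁻¹ v = v
          conv_lhs => rw [← ha]
          rw [← Module.End.mul_apply, ← map_mul, inv_mul_cancel, map_one]
          rfl }
    have hK : K = ⊤ := S.gen K (fun i j h u => hv1 i j h u) (fun u => hv2 u) (fun u => hv3 u)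
    have hall : ∀ g, ρ g v = v := fun g => by
      have : g ∈ K := by rw [hK]; trivial
      exact this
    let L : Subrepresentation ρ := ⟨Submodule.span ℂ {v}, fun g w hw => by
      obtain ⟨c, rfl⟩ := Submodule.mem_span_singleton.1 hw
      rw [map_smul, hall]
      exact Submodule.smul_mem _ _ (Submodule.mem_span_singleton_self v)⟩
    rcases hρ.eq_bot_or_eq_top L with h | h
    · have h1 : L.toSubmodule = ⊥ := congrArg Subrepresentation.toSubmodule h
      have h2 : v ∈ L.toSubmodule := Submodule.mem_span_singleton_self v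
      rw [h1, Submodule.mem_bot] at h2
      exact hv0 h2
    · have h1 : L.toSubmodule = ⊤ := congrArg Subrepresentation.toSubmodule h
      have h2 : finrank ℂ (Submodule.span ℂ {v}) = 1 := finrank_span_singleton hv0
      have h3 : Submodule.span ℂ {v} = (⊤ : Submodule ℂ (Fin k → ℂ)) := h1
      rw [h3, finrank_top, hfin] at h2
      omega
  have hd : k ∣ NN (Fintype.card F) := by
    haveI : ρ.IsIrreducible := hρ
    have h1 := Cfsg.Agent.Lib.Char.Central.finrank_dvd_card (ρ := ρ)
    rw [hfin] at h1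
    exact h1.trans (card_dvd F)
  have h := bound_abs S ρ ψ hψ hfix hV (by rw [hfin]; exact hd)
  rw [hfin] at h
  exact h

end Cfsg.Agent.Lib.MinE6
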